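import Mathlib
import Cfsg.Agent.Lib.Dade.Shape

/-!
# Integer vectors with a Gram matrix `e + δ`: the count
-/

set_option autoImplicit false
set_option linter.unusedSectionVars false

namespace Cfsg.Agent.Lib.Dade.Fr

open Cfsg.Agent.Lib.Dade.Shape

variable {Χ I : Type*} [Fintype Χ] [Fintype I] [DecidableEq Χ] [DecidableEq I]

theorem mul_add_nonneg {M κ : ℤ} (hM : 2 ≤ M) : 0 ≤ M * κ ^ 2 + 2 * κ := by
  have h1 : 0 ≤ κ * (κ + 1) := by
    rcases le_or_gt 0 κ with h | h
    · positivity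
    · have h2 : κ + 1 ≤ 0 := by omega
      exact mul_nonneg_of_nonpos_of_nonpos h.le h2
  nlinarith [sq_nonneg κ]

theorem sq_eq_one_of_le {a : ℤ} (h0 : a ≠ 0) (h1 : a ^ 2 ≤ 3) : a ^ 2 = 1 := by
  have h2 : a ≤ 1 := by nlinarith
  have h3 : -1 ≤ a := by nlinarith
  have h4 : a = 1 ∨ a = -1 := by omega
  rcases h4 with rfl | rfl <;> norm_num

section Main

variable (n : Χ → I → ℤ) (e : ℕ) (d : Χ → ℤ) (hd : ∀ χ, 0 < d χ)
  (gram : ∀ i j, ∑ χ, n χ i * n χ j = (e : ℤ) + if i = j then 1 else 0)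
  (hdeg : ∀ i, ∑ χ, n χ i * d χ = 0) (hcov : ∀ χ, ∃ i, n χ i ≠ 0)

include hd gram hdeg hcov

/-- The data of the vectors when there are at least two. -/
theorem clique_data {i₀ i₁ : I} (h01 : i₀ ≠ i₁) :
    ∃ (S : Finset Χ) (a : Χ → ℤ) (κ : ℤ), S.card + Fintype.card I = Fintype.card Χ ∧ (∀ χ ∈ S, a χ ≠ 0) ∧
      (e : ℤ) = ∑ χ ∈ S, a χ ^ 2 + (Fintype.card I : ℤ) * κ ^ 2 + 2 * κ := by
  obtain ⟨u, ε, ν, hε, hinj, hform⟩ := exists_clique n e d hd gram hdeg h01
  have hε2 : ε * ε = 1 := by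
    rcases hε with h | h <;> rw [h] <;> norm_num
  have hcardI : (Finset.univ.image ν).card = Fintype.card I := by
    rw [Finset.card_image_of_injective _ hinj, Finset.card_univ]
  -- the norm of a vector
  have hnorm : ∀ i, ∑ χ, u χ ^ 2 + 2 * (ε * u (ν i)) = e := by
    intro i
    have h1 := gram i i
    rw [if_pos rfl] at h1
    have h2 : ∀ χ, n χ i * n χ i = u χ ^ 2 + 2 * ε * (if χ = ν i then u χ else 0) + (if χ = ν i then 1 else 0) := by
      intro χ
      rw [hform i χ]
      by_cases hχ : χ = ν i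
      · rw [if_pos hχ, if_pos hχ]
        linear_combination hε2
      · rw [if_neg hχ, if_neg hχ]
        ring
    simp only [h2] at h1
    rw [Finset.sum_add_distrib, Finset.sum_add_distrib, ← Finset.mul_sum, Finset.sum_ite_eq', Finset.sum_ite_eq'] at h1
    simp only [Finset.mem_univ, if_true] at h1
    linarith
  refine ⟨(Finset.univ.image ν)ᶜ, u, ε * u (ν i₀), ?_, ?_, ?_⟩
  · rw [Finset.card_compl, hcardI]
    have := Finset.card_le_univ (Finset.univ.image ν)
    rw [hcardI] at this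
    omega
  · intro χ hχ
    obtain ⟨i, hi⟩ := hcov χ
    have h1 : χ ≠ ν i := by
      rintro rfl
      exact (Finset.mem_compl.mp hχ) (Finset.mem_image_of_mem _ (Finset.mem_univ _))
    rw [hform i χ, if_neg h1, mul_zero, add_zero] at hi
    exact hi
  · have hκ : ∀ i, ε * u (ν i) = ε * u (ν i₀) := by
      intro i
      have h1 := hnorm i
      have h2 := hnorm i₀
      linarith
    have hsq : ∀ i, u (ν i) ^ 2 = (ε * u (ν i₀)) ^ 2 := by
      intro i
      rw [← hκ i]
      linear_combination (-u (ν i) ^ 2) * hε2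
    have h1 : ∑ χ, u χ ^ 2 = ∑ χ ∈ (Finset.univ.image ν)ᶜ, u χ ^ 2 + (Fintype.card I : ℤ) * (ε * u (ν i₀)) ^ 2 := by
      rw [← Finset.sum_compl_add_sum (Finset.univ.image ν), Finset.sum_image (fun x _ y _ h => hinj h)]
      congr 1
      rw [Finset.sum_congr rfl fun i _ => hsq i]
      simp
    have h2 := hnorm i₀
    rw [h1] at h2
    linarith

/-- **The bound.** -/
theorem numeric_le [Nonempty I] : Fintype.card Χ ≤ e + Fintype.card I := by
  classical
  by_cases hsub : Subsingleton I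
  · obtain ⟨i₀⟩ := ‹Nonempty I›
    have ht : Fintype.card I = 1 := by
      rw [Fintype.card_eq_one_iff]
      exact ⟨i₀, fun y => Subsingleton.elim _ _⟩
    have hg := gram i₀ i₀
    rw [if_pos rfl] at hg
    have h1 : ∀ χ, 1 ≤ n χ i₀ * n χ i₀ := by
      intro χ
      obtain ⟨i, hi⟩ := hcov χ
      rw [Subsingleton.elim i i₀] at hi
      have h2 : 0 < n χ i₀ * n χ i₀ := mul_self_pos.mpr hi
      omega
    have h2 : (Fintype.card Χ : ℤ) ≤ ∑ χ, n χ i₀ * n χ i₀ := by
      have h3 : ∑ _χ : Χ, (1 : ℤ) ≤ ∑ χ, n χ i₀ * n χ i₀ := Finset.sum_le_sum fun χ _ => h1 χ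
      simpa using h3
    rw [ht]
    omega
  · rw [not_subsingleton_iff_nontrivial] at hsub
    obtain ⟨i₀, i₁, h01⟩ := hsub
    obtain ⟨S, a, κ, h1, h2, h3⟩ := clique_data n e d hd gram hdeg hcov h01
    have hm : 2 ≤ Fintype.card I := by
      have := Fintype.one_lt_card_iff.mpr ⟨i₀, i₁, h01⟩
      omega
    have hm' : (2 : ℤ) ≤ (Fintype.card I : ℤ) := by exact_mod_cast hm
    have h4 := mul_add_nonneg (κ := κ) hm'
    have h5 : (S.card : ℤ) ≤ ∑ χ ∈ S, a χ ^ 2 := by
      have h6 : ∑ _χ ∈ S, (1 : ℤ) ≤ ∑ χ ∈ S, a χ ^ 2 := by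
        refine Finset.sum_le_sum fun χ hχ => ?_
        have h7 : 0 < a χ ^ 2 := by
          have := h2 χ hχ
          positivity
        omega
      simpa using h6
    have h8 : (S.card : ℤ) ≤ e := by linarith
    have h9 : S.card ≤ e := by exact_mod_cast h8
    omega

/-- **The equality.** -/
theorem numeric_eq [Nonempty I] (he3 : e ≤ 3) (hk : 1 + Fintype.card I ≤ Fintype.card Χ) :
    Fintype.card Χ = e + Fintype.card I ∨ (e = 2 ∧ Fintype.card I = 3) ∨ (e = 3 ∧ Fintype.card I = 3) ∨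
      (e = 3 ∧ Fintype.card I = 4) := by
  classical
  have hle := numeric_le n e d hd gram hdeg hcov
  by_cases hsub : Subsingleton I
  · left
    obtain ⟨i₀⟩ := ‹Nonempty I›
    have ht : Fintype.card I = 1 := by
      rw [Fintype.card_eq_one_iff]
      exact ⟨i₀, fun y => Subsingleton.elim _ _⟩
    have hg := gram i₀ i₀
    rw [if_pos rfl] at hg
    have h1 : ∀ χ, n χ i₀ ≠ 0 := by
      intro χ
      obtain ⟨i, hi⟩ := hcov χ
      rwa [Subsingleton.elim i i₀] at hi
    have h2 : ∀ χ, 1 ≤ n χ i₀ ^ 2 := by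
      intro χ
      have h3 : 0 < n χ i₀ ^ 2 := by
        have := h1 χ
        positivity
      omega
    rw [ht] at hk hle ⊢
    have hk2 : 1 < Fintype.card Χ := by omega
    obtain ⟨x, y, hxy⟩ := Fintype.one_lt_card_iff.mp hk2
    have h3 : ∀ χ, n χ i₀ ^ 2 = 1 := by
      intro χ
      refine sq_eq_one_of_le (h1 χ) ?_
      have h4 : ∃ b, b ≠ χ := by
        by_cases hx : x = χ
        · exact ⟨y, fun h => hxy (hx.trans h.symm)⟩
        · exact ⟨x, hx⟩
      obtain ⟨b, hb⟩ := h4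
      have h5 := Finset.add_sum_erase Finset.univ (fun z => n z i₀ ^ 2) (Finset.mem_univ χ)
      have h6 : n b i₀ ^ 2 ≤ ∑ z ∈ Finset.univ.erase χ, n z i₀ ^ 2 :=
        Finset.single_le_sum (f := fun z => n z i₀ ^ 2) (fun z _ => sq_nonneg _) (Finset.mem_erase.mpr ⟨hb, Finset.mem_univ _⟩)
      have h7 : ∑ z, n z i₀ ^ 2 = (e : ℤ) + 1 := by
        rw [← hg]
        refine Finset.sum_congr rfl fun z _ => ?_
        ring
      have h8 := h2 b
      have he3' : (e : ℤ) ≤ 3 := by exact_mod_cast he3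
      linarith
    have h4 : ∑ z, n z i₀ ^ 2 = (Fintype.card Χ : ℤ) := by
      simp [h3]
    have h7 : ∑ z, n z i₀ ^ 2 = (e : ℤ) + 1 := by
      rw [← hg]
      refine Finset.sum_congr rfl fun z _ => ?_
      ring
    rw [h7] at h4
    omega
  · rw [not_subsingleton_iff_nontrivial] at hsub
    obtain ⟨i₀, i₁, h01⟩ := hsub
    obtain ⟨S, a, κ, h1, h2, h3⟩ := clique_data n e d hd gram hdeg hcov h01
    have hm : 2 ≤ Fintype.card I := by
      have := Fintype.one_lt_card_iff.mpr ⟨i₀, i₁, h01⟩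
      omega
    set m : ℕ := Fintype.card I with hmdef
    have hm' : (2 : ℤ) ≤ (m : ℤ) := by exact_mod_cast hm
    have h4 := mul_add_nonneg (κ := κ) hm'
    have he3' : (e : ℤ) ≤ 3 := by exact_mod_cast he3
    have hsq : ∀ χ ∈ S, a χ ^ 2 = 1 := by
      intro χ hχ
      refine sq_eq_one_of_le (h2 χ hχ) ?_
      have h6 : a χ ^ 2 ≤ ∑ z ∈ S, a z ^ 2 :=
        Finset.single_le_sum (f := fun z => a z ^ 2) (fun z _ => sq_nonneg _) hχ
      linarith
    have hW : ∑ χ ∈ S, a χ ^ 2 = (S.card : ℤ) := by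
      rw [Finset.sum_congr rfl hsq]
      simp
    rw [hW] at h3
    have hS : 1 ≤ S.card := by omega
    have hS' : (1 : ℤ) ≤ (S.card : ℤ) := by exact_mod_cast hS
    by_cases hκ0 : (m : ℤ) * κ ^ 2 + 2 * κ = 0
    · left
      have h5 : (e : ℤ) = S.card := by linarith
      have h6 : e = S.card := by exact_mod_cast h5
      omega
    · right
      -- the exceptional values
      have h5 : κ = -1 := by
        by_contra hne
        have hκ00 : κ ≠ 0 := by
          rintro rfl
          apply hκ0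
          ring
        rcases lt_or_gt_of_ne hκ00 with h6 | h6
        · have h7 : κ ≤ -2 := by omega
          nlinarith
        · have h7 : 1 ≤ κ := by omega
          nlinarith
      subst h5
      have h6 : (e : ℤ) = S.card + m - 2 := by
        rw [h3]
        ring
      have h7 : e + 2 = S.card + m := by
        have : (e : ℤ) + 2 = S.card + m := by linarith
        exact_mod_cast this
      have h8 : m ≠ 2 := by
        intro h
        apply hκ0
        rw [h]
        norm_num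
      omega

end Main

end Cfsg.Agent.Lib.Dade.Fr
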