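import Mathlib

/-!
# The Möbius function of a finite lattice and Weisner's theorem
-/

set_option linter.unusedSectionVars false
set_option autoImplicit false

namespace Cfsg.Agent.Lib.Dade.Fr

variable {X : Type*} [Lattice X] [OrderBot X] [Finite X]

open Classical in
/-- The Möbius function. -/
theorem exists_moebius : ∃ g : X → ℤ, ∀ x : X,
    ∑ᶠ y ∈ {y : X | y ≤ x}, g y = if x = ⊥ then 1 else 0 := by
  haveI := Fintype.ofFinite X
  letI : LocallyFiniteOrder X := Fintype.toLocallyFiniteOrder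
  refine ⟨fun y => IncidenceAlgebra.mu ℤ (⊥ : X) y, fun x => ?_⟩
  have h1 := IncidenceAlgebra.sum_Icc_mu_right (𝕜 := ℤ) (⊥ : X) x
  have h2 : {y : X | y ≤ x} = (Finset.Icc (⊥ : X) x : Set X) := by
    ext y
    simp
  rw [h2, finsum_mem_coe_finset, h1]
  by_cases hx : x = ⊥
  · simp [hx]
  · simp [hx, Ne.symm hx]

open Classical in
/-- **Weisner's theorem.** -/
theorem weisner {g : X → ℤ} (hg : ∀ x : X, ∑ᶠ y ∈ {y : X | y ≤ x}, g y = if x = ⊥ then 1 else 0)
    {a : X} (ha : a ≠ ⊥) : ∀ b : X, a ≤ b → ∑ᶠ x ∈ {x : X | x ⊔ a = b}, g x = 0 := by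
  haveI := Fintype.ofFinite X
  intro b
  induction b using WellFoundedLT.induction with
  | _ b ih =>
    intro hab
    have hb : b ≠ ⊥ := fun h => ha (le_bot_iff.mp (h ▸ hab))
    have h1 := hg b
    rw [if_neg hb] at h1
    have hfin : ∀ s : Set X, s.Finite := fun s => Set.toFinite s
    have e1 : ∑ᶠ y ∈ {y : X | y ≤ b}, g y = ∑ y ∈ Finset.univ.filter (· ≤ b), g y := by
      rw [← finsum_mem_coe_finset]
      congr 1
      ext y
      simp
    have e2 : ∀ b' : X, ∑ᶠ x ∈ {x : X | x ⊔ a = b'}, g x = ∑ x ∈ Finset.univ.filter (· ⊔ a = b'), g x := by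
      intro b'
      rw [← finsum_mem_coe_finset]
      congr 1
      ext y
      simp
    rw [e1] at h1
    have hm : ∀ x ∈ Finset.univ.filter (· ≤ b), x ⊔ a ∈ Finset.univ.filter (fun b' => a ≤ b' ∧ b' ≤ b) := by
      intro x hx
      have hx' : x ≤ b := (Finset.mem_filter.mp hx).2
      exact Finset.mem_filter.mpr ⟨Finset.mem_univ _, le_sup_right, sup_le hx' hab⟩
    have h2 := Finset.sum_fiberwise_of_maps_to hm g
    rw [h1] at h2
    rw [Finset.sum_eq_single b] at h2
    · rw [e2]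
      rw [← h2]
      refine Finset.sum_congr ?_ fun _ _ => rfl
      ext x
      simp only [Finset.mem_filter, Finset.mem_univ, true_and]
      constructor
      · intro h
        exact ⟨h ▸ le_sup_left, h⟩
      · exact fun h => h.2
    · intro b' hb' hne
      have hb'' := (Finset.mem_filter.mp hb').2
      have hlt : b' < b := lt_of_le_of_ne hb''.2 hne
      have h3 := ih b' hlt hb''.1
      rw [e2] at h3
      rw [← h3]
      refine Finset.sum_congr ?_ fun _ _ => rfl
      ext x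
      simp only [Finset.mem_filter, Finset.mem_univ, true_and]
      constructor
      · exact fun h => h.2
      · intro h
        exact ⟨le_sup_left.trans (h.le.trans hb''.2), h⟩
    · intro h
      exact absurd (Finset.mem_filter.mpr ⟨Finset.mem_univ _, hab, le_rfl⟩) h

open Classical in
/-- **The gluing lemma.** -/
theorem moebius_glue {g : X → ℤ} (hg : ∀ x : X, ∑ᶠ y ∈ {y : X | y ≤ x}, g y = if x = ⊥ then 1 else 0)
    {a T : X} (ha : a ≠ ⊥) (haT : a ≤ T) (f : X → ℂ) [Fintype X] [DecidablePred fun x : X => x ≤ T ∧ x ≠ ⊥] :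
    ∑ Q ∈ Finset.univ.filter (fun x : X => x ≤ T ∧ x ≠ ⊥), (-(g Q : ℂ)) * f (Q ⊔ a) = f a := by
  classical
  have hbot : g ⊥ = 1 := by
    have h1 := hg ⊥
    rw [if_pos rfl] at h1
    have h2 : {y : X | y ≤ ⊥} = {⊥} := by
      ext y
      simp
    rw [h2, finsum_mem_singleton] at h1
    exact h1
  have h0 : ∑ Q ∈ Finset.univ.filter (· ≤ T), (g Q : ℂ) * f (Q ⊔ a) = 0 := by
    have hm : ∀ x ∈ Finset.univ.filter (· ≤ T), x ⊔ a ∈ Finset.univ.filter (· ≤ T) := by
      intro x hx
      exact Finset.mem_filter.mpr ⟨Finset.mem_univ _, sup_le (Finset.mem_filter.mp hx).2 haT⟩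
    rw [← Finset.sum_fiberwise_of_maps_to hm]
    refine Finset.sum_eq_zero fun b hb => ?_
    have hbT := (Finset.mem_filter.mp hb).2
    have h1 : ∀ Q ∈ (Finset.univ.filter (· ≤ T)).filter (· ⊔ a = b), (g Q : ℂ) * f (Q ⊔ a) = (g Q : ℂ) * f b := by
      intro Q hQ
      rw [(Finset.mem_filter.mp hQ).2]
    rw [Finset.sum_congr rfl h1, ← Finset.sum_mul]
    by_cases hab : a ≤ b
    · have h2 := weisner hg ha b hab
      have e2 : ∑ᶠ x ∈ {x : X | x ⊔ a = b}, g x = ∑ x ∈ Finset.univ.filter (· ⊔ a = b), g x := by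
        rw [← finsum_mem_coe_finset]
        congr 1
        ext y
        simp
      rw [e2] at h2
      have h3 : (Finset.univ.filter (· ≤ T)).filter (· ⊔ a = b) = Finset.univ.filter (· ⊔ a = b) := by
        ext x
        simp only [Finset.mem_filter, Finset.mem_univ, true_and]
        constructor
        · exact fun h => h.2
        · intro h
          exact ⟨le_sup_left.trans (h.le.trans hbT), h⟩
      rw [h3]
      have h4 : ∑ x ∈ Finset.univ.filter (· ⊔ a = b), (g x : ℂ) = 0 := by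
        exact_mod_cast h2
      rw [h4, zero_mul]
    · have h3 : (Finset.univ.filter (· ≤ T)).filter (· ⊔ a = b) = ∅ := by
        ext x
        simp only [Finset.mem_filter, Finset.mem_univ, true_and, Finset.notMem_empty, iff_false, not_and]
        intro _ h
        exact hab (h ▸ le_sup_right)
      rw [h3]
      simp
  have h1 : Finset.univ.filter (· ≤ T) = insert ⊥ (Finset.univ.filter (fun x : X => x ≤ T ∧ x ≠ ⊥)) := by
    ext x
    simp only [Finset.mem_filter, Finset.mem_univ, true_and, Finset.mem_insert]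
    constructor
    · intro h
      by_cases hx : x = ⊥
      · exact Or.inl hx
      · exact Or.inr ⟨h, hx⟩
    · rintro (rfl | h)
      · exact bot_le
      · exact h.1
  have hcong : ∀ (s t : Finset X), s = t → ∑ Q ∈ s, (g Q : ℂ) * f (Q ⊔ a) = ∑ Q ∈ t, (g Q : ℂ) * f (Q ⊔ a) := by
    intro s t h
    rw [h]
  rw [hcong _ _ h1, Finset.sum_insert (by simp), hbot, bot_sup_eq] at h0
  have h2 : ∀ Q : X, (-(g Q : ℂ)) * f (Q ⊔ a) = -((g Q : ℂ) * f (Q ⊔ a)) := fun Q => by ring
  simp_rw [h2]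
  rw [Finset.sum_neg_distrib]
  have e3 : ((1 : ℤ) : ℂ) = 1 := by simp
  rw [e3, one_mul] at h0
  have h5 : ∑ Q ∈ Finset.univ.filter (fun x : X => x ≤ T ∧ x ≠ ⊥), (g Q : ℂ) * f (Q ⊔ a) =
      ∑ Q ∈ Finset.filter (fun x : X => x ≤ T ∧ x ≠ ⊥) Finset.univ, (g Q : ℂ) * f (Q ⊔ a) := rfl
  linear_combination -h0

end Cfsg.Agent.Lib.Dade.Fr
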