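import Mathlib
import Cfsg.Agent.Lib.Dade.Gen

/-!
# Abelian defect groups with a free inertial quotient: the levels

For a maximal pair `(P, c)` with `P ≠ 1` abelian, on whose nontrivial elements the stabilizer of `c` acts freely, and a
subgroup `1 ≠ Q ≤ P`, the block `f_Q` of `C_G(Q)` below `(P, c)` is nilpotent, and its members are the twists of any one
of them by the dual of `P`.
-/

set_option linter.unusedSectionVars false
set_option linter.style.haveILetI false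
set_option autoImplicit false

namespace Cfsg.Agent.Lib.Dade.Fr

open Cfsg MonoidAlgebra
open Cfsg.Agent.Lib.Blocks.Local Cfsg.Agent.Lib.Blocks.Central Cfsg.Agent.Lib.Blocks.Brauer
open Cfsg.Agent.Lib.BlockH.Transport Cfsg.Agent.Lib.BlockH.Subpair Cfsg.Agent.Lib.BlockH.SubpairLE
open Cfsg.Agent.Lib.BlockH.ConjPair Cfsg.Agent.Lib.BlockH.Descent Cfsg.Agent.Lib.BlockH.MaxPair
open Cfsg.Agent.Lib.BlockH.InducedPairs Cfsg.Agent.Lib.BlockH.AbelianDefect
open Cfsg.Agent.Lib.BP.Cj Cfsg.Agent.Lib.BP.MIS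
open Cfsg.Agent.Lib.BP.StarDefs Cfsg.Agent.Lib.BP.Star1
open Cfsg.Agent.Lib.BP.Star2 Cfsg.Agent.Lib.BP.Star3 Cfsg.Agent.Lib.BP.Rob1 Cfsg.Agent.Lib.BP.Rob2
open Cfsg.Agent.Lib.BP.Nil1 Cfsg.Agent.Lib.BP.Nil2 Cfsg.Agent.Lib.BP.Nil3 Cfsg.Agent.Lib.BP.Nil4
open Cfsg.Agent.Lib.Contrib.Section
open Cfsg.Agent.Lib.Char.Basic Cfsg.Agent.Lib.Char.Complete Cfsg.Agent.Lib.Char.Ortho Cfsg.Agent.Lib.Char.GenLattice
open Cfsg.Agent.Lib.Char.Degree
open Cfsg.Agent.Lib.Dade.Base Cfsg.Agent.Lib.Dade.NilDual Cfsg.Agent.Lib.Dade.Gen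
open scoped ComplexConjugate

universe u

variable {G : Type u} [Group G] [Fintype G] {p : ℕ} {M : Ideal AlgInt} [Fact p.Prime]

attribute [local instance] fK fIrr fBl

/-- The global assumptions. -/
structure Gl (p : ℕ) [Fact p.Prime] (M : Ideal AlgInt) (B : Set (IrrCharacter G)) (P : Subgroup G)
    (c : Set (IrrCharacter (Subgroup.centralizer (P : Set G)))) : Prop where
  hM : IsPModular p M
  hmax : IsMaximalBrauerPair p M B P c
  hP1 : P ≠ ⊥
  hab : ∀ x ∈ P, ∀ y ∈ P, x * y = y * x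
  hfree : ∀ g ∈ stabSub P c, ∀ x ∈ P, x ≠ 1 → g * x * g⁻¹ = x → g ∈ Subgroup.centralizer (P : Set G)

/-- The assumptions at a level. -/
structure Lev (p : ℕ) [Fact p.Prime] (M : Ideal AlgInt) (B : Set (IrrCharacter G)) (P : Subgroup G)
    (c : Set (IrrCharacter (Subgroup.centralizer (P : Set G)))) (Q : Subgroup G) : Prop extends Gl p M B P c where
  hQP : Q ≤ P
  hQ1 : Q ≠ ⊥

variable {B : Set (IrrCharacter G)} {P Q : Subgroup G} {c : Set (IrrCharacter (Subgroup.centralizer (P : Set G)))}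

open Classical in
variable (p M c) in
/-- The block below the maximal pair. -/
noncomputable def fbS (Q : Subgroup G) : Set (IrrCharacter (Subgroup.centralizer (Q : Set G))) :=
  if h : ∃ f : Set (IrrCharacter (Subgroup.centralizer (Q : Set G))), IsPBlock M f ∧ SubpairLE p M Q f P c then
    h.choose else ∅

theorem fbS_spec (hM : IsPModular p M) (hmax : IsMaximalBrauerPair p M B P c) (hQP : Q ≤ P) :
    IsPBlock M (fbS p M c Q) ∧ SubpairLE p M Q (fbS p M c Q) P c := by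
  obtain ⟨f, hf, -⟩ := existsUnique_subpairLE hM hmax.1.1 hQP
  have h : ∃ f : Set (IrrCharacter (Subgroup.centralizer (Q : Set G))), IsPBlock M f ∧ SubpairLE p M Q f P c := ⟨f, hf⟩
  rw [fbS, dif_pos h]
  exact h.choose_spec

theorem fbS_eq (hM : IsPModular p M) (hmax : IsMaximalBrauerPair p M B P c) (hQP : Q ≤ P)
    {f : Set (IrrCharacter (Subgroup.centralizer (Q : Set G)))} (hf : IsPBlock M f) (hle : SubpairLE p M Q f P c) :
    fbS p M c Q = f := by
  obtain ⟨h1, h2⟩ := fbS_spec hM hmax hQP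
  exact subpairLE_unique_aux hM hmax.1.1 _ Q hQP rfl _ _ h1 h2 hf hle

/-- Coherence: the blocks at the cyclic subgroups. -/
theorem fbS_zpowers (hM : IsPModular p M) (hmax : IsMaximalBrauerPair p M B P c) {w : G} (hw : w ∈ P) :
    fbS p M c (Subgroup.zpowers w) = bb p M c w := by
  obtain ⟨h1, h2⟩ := bb_spec hM hmax hw
  exact fbS_eq hM hmax ((Subgroup.zpowers_le).mpr hw) h1 (isUnder_one_iff.mp h2)

namespace Lev

variable (L : Lev p M B P c Q)

include L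

theorem hDH : P ≤ Subgroup.centralizer (Q : Set G) := by
  intro a ha
  rw [Subgroup.mem_centralizer_iff]
  intro q hq
  exact L.hab q (L.hQP hq) a ha

theorem hX : (P.subgroupOf (Subgroup.centralizer (Q : Set G))).map (Subgroup.centralizer (Q : Set G)).subtype = P :=
  Subgroup.map_subgroupOf_eq_of_le L.hDH

omit L in
theorem hC (hQP : Q ≤ P) : Subgroup.centralizer (P : Set G) ≤ Subgroup.centralizer (Q : Set G) :=
  Subgroup.centralizer_le hQP

/-- The group of the level. -/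
abbrev H (_L : Lev p M B P c Q) : Subgroup G := Subgroup.centralizer (Q : Set G)

/-- The block of the level. -/
noncomputable abbrev f (_L : Lev p M B P c Q) : Set (IrrCharacter (Subgroup.centralizer (Q : Set G))) := fbS p M c Q

theorem hf : IsPBlock M L.f := (fbS_spec L.hM L.hmax L.hQP).1

theorem hle : SubpairLE p M Q L.f P c := (fbS_spec L.hM L.hmax L.hQP).2

/-- The defect group in `H`. -/
abbrev D' (_L : Lev p M B P c Q) : Subgroup (Subgroup.centralizer (Q : Set G)) :=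
  P.subgroupOf (Subgroup.centralizer (Q : Set G))

/-- The block at the defect group in `H`. -/
noncomputable def c' : Set (IrrCharacter (Subgroup.centralizer ((L.D' : Subgroup L.H) : Set L.H))) :=
  blockMap (descEquiv L.hX (hC L.hQP)).symm c

theorem hnor : IsNormalSubpair p M Q L.f P c :=
  isNormalSubpair_of_subpairLE L.hM ⟨L.hmax.1.1.1.to_le L.hQP, L.hf⟩ L.hle
    (fun x hx => Cfsg.Agent.Lib.BlockH.Sylow.centralizer_le_normalizer'' Q (L.hDH hx))

theorem hm : IsMaximalBrauerPair p M L.f L.D' L.c' :=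
  isMaximal_desc L.hM L.hmax L.hab L.hQP L.hnor L.hDH L.hX (hC L.hQP)

theorem hnil : IsNilpotentBlock p M L.f :=
  (s4650 L.hM L.hmax L.hab).mp L.hfree Q L.hQP L.hQ1 L.f
    ((isInducedBlockIn_iff_isNormalSubpair L.hM L.hmax.1.1.1 L.hQP L.hDH).mpr L.hnor)

theorem hab' : ∀ x ∈ L.D', ∀ y ∈ L.D', x * y = y * x := fun x hx y hy =>
  Subtype.ext (L.hab _ (Subgroup.mem_subgroupOf.mp hx) _ (Subgroup.mem_subgroupOf.mp hy))

/-- The defect group in `H` and the defect group in `G`. -/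
noncomputable def iot : L.D' ≃* P := Subgroup.subgroupOfEquivOfLe L.hDH

omit L in
@[simp] theorem coe_iot (L : Lev p M B P c Q) (w : L.D') : ((L.iot w : P) : G) = ((w : L.H) : G) := rfl

/-- A homomorphism on the defect group in `G`, on the defect group in `H`. -/
noncomputable def toD' (γ : P →* ℂˣ) : L.D' →* ℂˣ := γ.comp L.iot.toMonoidHom

omit L in
theorem toD'_apply (L : Lev p M B P c Q) (γ : P →* ℂˣ) (w : L.D') : L.toD' γ w = γ (L.iot w) := rfl

theorem toD'_mul (γ γ' : P →* ℂˣ) : L.toD' (γ * γ') = L.toD' γ * L.toD' γ' := by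
  ext w
  simp [toD'_apply]

theorem toD'_injective : Function.Injective L.toD' := by
  intro γ γ' h
  ext w
  have := DFunLike.congr_fun h (L.iot.symm w)
  simpa [toD'_apply] using congrArg Units.val this

/-- The twist by a homomorphism on the defect group. -/
noncomputable def tw (γ : P →* ℂˣ) (ξ : L.H → ℂ) : L.H → ℂ :=
  starFun p M L.c' (homFun (L.toD' γ)) ξ

theorem tw_isIrr (γ : P →* ℂˣ) {ξ : IrrCharacter L.H} (hξ : ξ ∈ L.f) :
    IsIrrCharacter L.H (L.tw γ (ξ : L.H → ℂ)) :=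
  NilDual.tw_isIrr L.hM L.hm L.hnil L.hab' _ hξ

/-- The twisted character. -/
noncomputable def twI (γ : P →* ℂˣ) {ξ : IrrCharacter L.H} (hξ : ξ ∈ L.f) : IrrCharacter L.H :=
  ⟨_, L.tw_isIrr γ hξ⟩

omit L in
@[simp] theorem coe_twI (L : Lev p M B P c Q) (γ : P →* ℂˣ) {ξ : IrrCharacter L.H} (hξ : ξ ∈ L.f) :
    ((L.twI γ hξ : IrrCharacter L.H) : L.H → ℂ) = L.tw γ (ξ : L.H → ℂ) := rfl

theorem twI_mem (γ : P →* ℂˣ) {ξ : IrrCharacter L.H} (hξ : ξ ∈ L.f) : L.twI γ hξ ∈ L.f :=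
  NilDual.tw_mem L.hM L.hm L.hnil L.hab' _ hξ

theorem exists_tw_eq {ξ τ : IrrCharacter L.H} (hξ : ξ ∈ L.f) (hτ : τ ∈ L.f) :
    ∃ γ : P →* ℂˣ, L.twI γ hξ = τ := by
  obtain ⟨γ', h⟩ := NilDual.exists_tw_eq L.hM L.hm L.hnil L.hab' hξ hτ
  refine ⟨γ'.comp L.iot.symm.toMonoidHom, Subtype.ext ?_⟩
  have h1 : L.toD' (γ'.comp L.iot.symm.toMonoidHom) = γ' := by
    ext w
    simp [toD'_apply]
  rw [coe_twI, tw, h1]
  exact h

theorem tw_inj {ξ : IrrCharacter L.H} (hξ : ξ ∈ L.f) {γ γ' : P →* ℂˣ}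
    (h : L.tw γ (ξ : L.H → ℂ) = L.tw γ' (ξ : L.H → ℂ)) : γ = γ' :=
  L.toD'_injective (NilDual.tw_injective L.hM L.hm L.hnil L.hab' hξ h)

theorem tw_tw (γ γ' : P →* ℂˣ) {ξ : IrrCharacter L.H} (hξ : ξ ∈ L.f) :
    L.tw γ (L.tw γ' (ξ : L.H → ℂ)) = L.tw (γ * γ') (ξ : L.H → ℂ) := by
  rw [tw, tw, tw, toD'_mul]
  exact NilDual.tw_tw L.hM L.hm L.hnil L.hab' _ _ hξ

omit L in
theorem memD' (L : Lev p M B P c Q) {w : L.H} (hw : (w : G) ∈ P) : w ∈ L.D' := Subgroup.mem_subgroupOf.mpr hw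

/-- The section of a twist. -/
theorem Fs_tw (γ : P →* ℂˣ) {ξ : IrrCharacter L.H} {w : L.H} (hw : (w : G) ∈ P) {y : L.H}
    (hy : y ∈ cZ w) (hyp : ¬ p ∣ orderOf y) :
    Fs (L.tw γ (ξ : L.H → ℂ)) w (bb p M L.c' w) y =
      ((γ ⟨w, hw⟩ : ℂˣ) : ℂ) * Fs (ξ : L.H → ℂ) w (bb p M L.c' w) y :=
  NilDual.Fs_tw L.hM L.hm L.hnil L.hab' _ (w := ⟨w, L.memD' hw⟩) hy hyp

/-- The regular values of a twist. -/
theorem tw_regular (γ : P →* ℂˣ) {ξ : IrrCharacter L.H} (hξ : ξ ∈ L.f) {y : L.H} (hyp : ¬ p ∣ orderOf y) :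
    L.tw γ (ξ : L.H → ℂ) y = (ξ : L.H → ℂ) y := by
  rw [tw, starFun_regular L.hM L.hm (NilDual.stable L.hM L.hm L.hnil L.hab' _) hξ hyp]
  simp

theorem tw_one {ξ : IrrCharacter L.H} (hξ : ξ ∈ L.f) : L.tw 1 (ξ : L.H → ℂ) = ξ := by
  funext g
  have h1 : homFun (L.toD' (1 : P →* ℂˣ)) = fun _ => (1 : ℂ) := by
    funext x
    simp [toD'_apply]
  rw [tw, h1, starFun_const L.hM L.hm 1 hξ, one_mul]

/-- Members of the block have the same regular values. -/
theorem regular_eq {ξ τ : IrrCharacter L.H} (hξ : ξ ∈ L.f) (hτ : τ ∈ L.f) {y : L.H} (hyp : ¬ p ∣ orderOf y) :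
    (τ : L.H → ℂ) y = (ξ : L.H → ℂ) y := by
  obtain ⟨γ, rfl⟩ := L.exists_tw_eq hξ hτ
  exact L.tw_regular γ hξ hyp

end Lev

end Cfsg.Agent.Lib.Dade.Fr
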