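import Mathlib
import Cfsg.Agent.Lib.Dade.Fr.Lev
import Cfsg.Agent.Lib.Dade.Sec

/-!
# Abelian defect groups with a free inertial quotient: the scalar of a section

For `1 ≠ R ≤ P`, the `f_R`-part of a class function `φ` of `C_G(R)` on regular elements is a scalar `secC R φ` times
the common regular part of the members of `f_R`.  The function `secD R θ w` is the scalar of `k ↦ θ (w k)`.
-/

set_option linter.unusedSectionVars false
set_option linter.style.haveILetI false
set_option autoImplicit false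

namespace Cfsg.Agent.Lib.Dade.Fr

open Cfsg MonoidAlgebra
open Cfsg.Agent.Lib.Blocks.Local Cfsg.Agent.Lib.Blocks.Central Cfsg.Agent.Lib.Blocks.Brauer
open Cfsg.Agent.Lib.BlockH.Transport Cfsg.Agent.Lib.BlockH.Subpair Cfsg.Agent.Lib.BlockH.SubpairLE
open Cfsg.Agent.Lib.BlockH.ConjPair Cfsg.Agent.Lib.BlockH.Descent Cfsg.Agent.Lib.BlockH.MaxPair
open Cfsg.Agent.Lib.BlockH.InducedPairs Cfsg.Agent.Lib.BlockH.AbelianDefect
open Cfsg.Agent.Lib.BP.Cj Cfsg.Agent.Lib.BP.MIS
open Cfsg.Agent.Lib.BP.StarDefs Cfsg.Agent.Lib.BP.Star1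
open Cfsg.Agent.Lib.BP.Star2 Cfsg.Agent.Lib.BP.Star3 Cfsg.Agent.Lib.BP.Rob1 Cfsg.Agent.Lib.BP.Rob2
open Cfsg.Agent.Lib.BP.Nil1 Cfsg.Agent.Lib.BP.Nil2 Cfsg.Agent.Lib.BP.Nil3 Cfsg.Agent.Lib.BP.Nil4
open Cfsg.Agent.Lib.Contrib.Section
open Cfsg.Agent.Lib.Blocks.Main
open Cfsg.Agent.Lib.Char.Basic Cfsg.Agent.Lib.Char.Complete Cfsg.Agent.Lib.Char.Ortho Cfsg.Agent.Lib.Char.GenLattice
open Cfsg.Agent.Lib.Char.Degree
open Cfsg.Agent.Lib.Dade.Base Cfsg.Agent.Lib.Dade.NilDual Cfsg.Agent.Lib.Dade.Gen Cfsg.Agent.Lib.Dade.Loc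
open scoped ComplexConjugate

universe u

section Transport

variable {A A' : Type*} [Group A] [Group A'] [Fintype A] [Fintype A']

/-- Transport of the scalar product. -/
theorem classInner_irrMap (ρ : A ≃* A') (φ : A' → ℂ) (χ : IrrCharacter A) :
    classInner φ (irrMap ρ χ : A' → ℂ) = classInner (φ ∘ ρ) (χ : A → ℂ) := by
  rw [classInner, classInner, Nat.card_congr ρ.toEquiv]
  congr 1
  symm
  refine Fintype.sum_equiv ρ.toEquiv _ _ fun a => ?_
  simp only [Function.comp, MulEquiv.toEquiv_eq_coe, EquivLike.coe_coe, irrMap_apply, MulEquiv.symm_apply_apply]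

/-- Transport of the block part. -/
theorem blockPart_blockMap [Fintype (IrrCharacter A)] [Fintype (IrrCharacter A')] (ρ : A ≃* A')
    (b : Set (IrrCharacter A)) (φ : A' → ℂ) (y : A) :
    blockPart (blockMap ρ b) φ (ρ y) = blockPart b (φ ∘ ρ) y := by
  classical
  rw [blockPart_apply, blockPart_apply]
  symm
  refine Fintype.sum_equiv (irrEquiv ρ) _ _ fun χ => ?_
  have h1 : (irrEquiv ρ) χ = irrMap ρ χ := rfl
  rw [h1]
  have h2 : irrMap ρ χ ∈ blockMap ρ b ↔ χ ∈ b := by
    rw [mem_blockMap_iff]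
    have : irrMap ρ.symm (irrMap ρ χ) = χ := (irrEquiv ρ).left_inv χ
    rw [this]
  by_cases h : χ ∈ b
  · rw [if_pos h, if_pos (h2.mpr h), classInner_irrMap, irrMap_apply_map]
  · rw [if_neg h, if_neg (fun h3 => h (h2.mp h3))]

end Transport

variable {G : Type u} [Group G] [Fintype G] {p : ℕ} {M : Ideal AlgInt} [Fact p.Prime]

attribute [local instance] fK fIrr fBl fDual

variable {B : Set (IrrCharacter G)} {P Q : Subgroup G} {c : Set (IrrCharacter (Subgroup.centralizer (P : Set G)))}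

open Classical in
variable (p M c) in
/-- The common regular part of the members of the block below the maximal pair. -/
noncomputable def baseS (R : Subgroup G) : Subgroup.centralizer (R : Set G) → ℂ :=
  if h : (fbS p M c R).Nonempty then ((h.some : IrrCharacter _) : Subgroup.centralizer (R : Set G) → ℂ) else 0

open Classical in
variable (p M c) in
/-- The scalar of the block part of a function. -/
noncomputable def secC (R : Subgroup G) (φ : Subgroup.centralizer (R : Set G) → ℂ) : ℂ :=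
  (Nat.card P : ℂ) / Nat.card (Subgroup.centralizer (R : Set G)) *
    ∑ k : Subgroup.centralizer (R : Set G), if ¬ p ∣ orderOf k then φ k * conj (baseS p M c R k) else 0

variable (p M c) in
/-- The scalar of a section. -/
noncomputable def secD (R : Subgroup G) (θ : G → ℂ) (w : G) : ℂ :=
  secC p M c R (fun k => θ (w * k))

theorem secC_sum {ι : Type*} (s : Finset ι) (a : ι → ℂ) (R : Subgroup G) (φ : ι → Subgroup.centralizer (R : Set G) → ℂ) :
    secC p M c R (fun k => ∑ i ∈ s, a i * φ i k) = ∑ i ∈ s, a i * secC p M c R (φ i) := by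
  classical
  simp only [secC]
  have h1 : ∀ k : Subgroup.centralizer (R : Set G), (if ¬ p ∣ orderOf k then (∑ i ∈ s, a i * φ i k) * conj (baseS p M c R k) else 0) =
      ∑ i ∈ s, a i * (if ¬ p ∣ orderOf k then φ i k * conj (baseS p M c R k) else 0) := by
    intro k
    by_cases hk : ¬ p ∣ orderOf k
    · simp only [if_pos hk, Finset.sum_mul, mul_assoc]
    · simp [if_neg hk]
  simp_rw [h1]
  rw [Finset.sum_comm, Finset.mul_sum]
  refine Finset.sum_congr rfl fun i hi => ?_
  rw [← Finset.mul_sum]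
  ring

theorem secC_congr {R : Subgroup G} {φ φ' : Subgroup.centralizer (R : Set G) → ℂ} (h : ∀ k, ¬ p ∣ orderOf k → φ k = φ' k) :
    secC p M c R φ = secC p M c R φ' := by
  classical
  simp only [secC]
  congr 1
  refine Finset.sum_congr rfl fun k _ => ?_
  by_cases hk : ¬ p ∣ orderOf k
  · rw [if_pos hk, if_pos hk, h k hk]
  · rw [if_neg hk, if_neg hk]

theorem irr_one_ne {A : Type*} [Group A] [Fintype A] (ξ : IrrCharacter A) : (ξ : A → ℂ) 1 ≠ 0 := by
  haveI := Cfsg.Agent.Lib.Char.Ortho.finite_irrCharacter (G := A)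
  letI := Fintype.ofFinite (IrrCharacter A)
  rw [Cfsg.Agent.Lib.Blocks.Heights.irr_one_eq]
  exact_mod_cast (charDegree_pos ξ.2).ne'

theorem reg_one {A : Type*} [Group A] : ¬ p ∣ orderOf (1 : A) := by
  rw [orderOf_one]
  exact fun h => (Fact.out : p.Prime).one_lt.ne' (Nat.dvd_one.mp h)

/-- The centralizer of a subgroup with an element. -/
theorem mem_cent_sup {Q : Subgroup G} {k w : G} :
    k ∈ Subgroup.centralizer ((Q ⊔ Subgroup.zpowers w : Subgroup G) : Set G) ↔
      k ∈ Subgroup.centralizer (Q : Set G) ∧ k ∈ cZ w := by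
  constructor
  · intro h
    exact ⟨Subgroup.centralizer_le (SetLike.coe_subset_coe.mpr le_sup_left) h,
      Subgroup.centralizer_le (SetLike.coe_subset_coe.mpr le_sup_right) h⟩
  · rintro ⟨h1, h2⟩
    have h3 : Subgroup.zpowers k ≤ Subgroup.centralizer ((Q ⊔ Subgroup.zpowers w : Subgroup G) : Set G) := by
      rw [Subgroup.le_centralizer_iff]
      refine sup_le ?_ ?_
      · rw [← Subgroup.le_centralizer_iff]
        exact (Subgroup.zpowers_le).mpr h1
      · rw [← Subgroup.le_centralizer_iff]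
        exact (Subgroup.zpowers_le).mpr h2
    exact h3 (Subgroup.mem_zpowers k)

/-- The centralizer of an element in `C_G(Q)`. -/
def iotaR (Q : Subgroup G) (w : Subgroup.centralizer (Q : Set G)) :
    cZ w ≃* Subgroup.centralizer ((Q ⊔ Subgroup.zpowers (w : G) : Subgroup G) : Set G) where
  toFun k := ⟨((k : Subgroup.centralizer (Q : Set G)) : G), mem_cent_sup.mpr ⟨(k : Subgroup.centralizer (Q : Set G)).2, by
    have h := mem_cZ.mp k.2
    exact mem_cZ.mpr (congrArg Subtype.val h.eq)⟩⟩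
  invFun x := ⟨⟨x, (mem_cent_sup.mp x.2).1⟩, by
    have h := mem_cZ.mp (mem_cent_sup.mp x.2).2
    exact mem_cZ.mpr (Subtype.ext h.eq)⟩
  left_inv k := rfl
  right_inv k := rfl
  map_mul' a b := rfl

@[simp] theorem coe_iotaR (Q : Subgroup G) (w : Subgroup.centralizer (Q : Set G)) (k : cZ w) :
    ((iotaR Q w k : Subgroup.centralizer ((Q ⊔ Subgroup.zpowers (w : G) : Subgroup G) : Set G)) : G) =
      ((k : Subgroup.centralizer (Q : Set G)) : G) := rfl

@[simp] theorem coe_iotaR_symm (Q : Subgroup G) (w : Subgroup.centralizer (Q : Set G))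
    (k : Subgroup.centralizer ((Q ⊔ Subgroup.zpowers (w : G) : Subgroup G) : Set G)) :
    ((((iotaR Q w).symm k : cZ w) : Subgroup.centralizer (Q : Set G)) : G) = k := rfl

/-- Coefficients under `iotaR`. -/
theorem subgroupBlockCoeff_iotaR (Q : Subgroup G) (w : Subgroup.centralizer (Q : Set G)) (b : Set (IrrCharacter (cZ w)))
    (k : Subgroup.centralizer (Q : Set G)) :
    subgroupBlockCoeff (Subgroup.centralizer ((Q ⊔ Subgroup.zpowers (w : G) : Subgroup G) : Set G))
        (blockMap (iotaR Q w) b) (k : G) = subgroupBlockCoeff (cZ w) b k := by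
  classical
  unfold subgroupBlockCoeff
  by_cases hc : k ∈ cZ w
  · have hc' : (k : G) ∈ Subgroup.centralizer ((Q ⊔ Subgroup.zpowers (w : G) : Subgroup G) : Set G) :=
      (iotaR Q w ⟨k, hc⟩).2
    rw [dif_pos hc, dif_pos hc']
    exact blockCoeff_blockMap (iotaR Q w) b ⟨k, hc⟩
  · have hc' : (k : G) ∉ Subgroup.centralizer ((Q ⊔ Subgroup.zpowers (w : G) : Subgroup G) : Set G) := by
      intro h1
      apply hc
      exact ((iotaR Q w).symm ⟨_, h1⟩).2
    rw [dif_neg hc, dif_neg hc']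

namespace Lev

variable (L : Lev p M B P c Q)

include L

/-- The level of a larger subgroup. -/
theorem up {w : G} (hw : w ∈ P) : Lev p M B P c (Q ⊔ Subgroup.zpowers w) :=
  { L.toGl with
    hQP := sup_le L.hQP ((Subgroup.zpowers_le).mpr hw)
    hQ1 := fun h => L.hQ1 (le_bot_iff.mp (h ▸ le_sup_left)) }

theorem exists_base : ∃ ξ ∈ L.f, (ξ : L.H → ℂ) = baseS p M c Q := by
  haveI := isPrime_of_pModular L.hM
  have h := isPBlock_nonempty L.hf
  refine ⟨h.some, h.some_mem, ?_⟩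
  rw [baseS, dif_pos h]

theorem base_regular {ξ : IrrCharacter L.H} (hξ : ξ ∈ L.f) {y : L.H} (hy : ¬ p ∣ orderOf y) :
    baseS p M c Q y = (ξ : L.H → ℂ) y := by
  obtain ⟨τ, hτ, h⟩ := L.exists_base
  rw [← h]
  exact L.regular_eq hξ hτ hy

theorem base_one_ne : baseS p M c Q 1 ≠ 0 := by
  obtain ⟨τ, hτ, h⟩ := L.exists_base
  rw [← h]
  exact irr_one_ne τ

/-- The sum of the twists. -/
theorem sum_tw {ξ : IrrCharacter L.H} (hξ : ξ ∈ L.f) (g : L.H) :
    ∑ γ : P →* ℂˣ, L.tw γ (ξ : L.H → ℂ) g = (Nat.card P : ℂ) * regPt p (ξ : L.H → ℂ) g := by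
  classical
  have hD : ∀ u v : P, u * v = v * u := fun u v => Subtype.ext (L.hab _ u.2 _ v.2)
  have h1 : (fun w : L.D' => ∑ γ : P →* ℂˣ, (1 : ℂ) * homFun (L.toD' γ) w) = rhoP L.D' := by
    funext w
    have h2 := Cfsg.Agent.Lib.Glauberman.Act.sum_dual hD (L.iot w)
    simp only [one_mul, homFun_apply, toD'_apply, rhoP]
    rw [h2, (Cfsg.Agent.Lib.Glauberman.Act.dual_facts hD).2.1, Nat.card_congr L.iot.toEquiv]
    simp
  have h2 := starFun_sum Finset.univ (fun _ : P →* ℂˣ => (1 : ℂ)) (fun γ : P →* ℂˣ => homFun (L.toD' γ))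
    (fun γ _ => NilDual.stable L.hM L.hm L.hnil L.hab' _) (ξ : L.H → ℂ) g
  rw [h1, starFun_rhoP L.hM L.hm L.hnil hξ, Nat.card_congr L.iot.toEquiv] at h2
  rw [h2]
  simp only [one_mul, tw]

/-- The sum over a block as a sum over the dual. -/
theorem sum_block {ξ : IrrCharacter L.H} (hξ : ξ ∈ L.f) (a : IrrCharacter L.H → ℂ) [DecidablePred (· ∈ L.f)] :
    (∑ χ : IrrCharacter L.H, if χ ∈ L.f then a χ else 0) = ∑ γ : P →* ℂˣ, a (L.twI γ hξ) := by
  classical
  symm
  refine Finset.sum_of_injOn (fun γ => L.twI γ hξ) ?_ ?_ ?_ ?_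
  · intro γ _ γ' _ he
    exact L.tw_inj hξ (congrArg Subtype.val he)
  · intro γ _
    exact Finset.mem_coe.mpr (Finset.mem_univ _)
  · intro i _ hi
    have hi' : i ∉ L.f := by
      intro hif
      obtain ⟨γ, hγ⟩ := L.exists_tw_eq hξ hif
      exact hi ⟨γ, Finset.mem_coe.mpr (Finset.mem_univ _), hγ⟩
    rw [if_neg hi']
  · intro γ _
    rw [if_pos (L.twI_mem γ hξ)]

/-- **The block part on the regular elements.** -/
theorem blockPart_eq (φ : L.H → ℂ) {y : L.H} (hy : ¬ p ∣ orderOf y) :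
    blockPart L.f φ y = secC p M c Q φ * baseS p M c Q y := by
  classical
  obtain ⟨ξ, hξ, hb⟩ := L.exists_base
  rw [blockPart_apply, L.sum_block hξ]
  have h1 : ∀ γ : P →* ℂˣ, classInner φ (L.twI γ hξ : L.H → ℂ) * (L.twI γ hξ : L.H → ℂ) y =
      classInner φ (L.tw γ (ξ : L.H → ℂ)) * baseS p M c Q y := by
    intro γ
    rw [coe_twI, L.tw_regular γ hξ hy, hb]
  simp_rw [h1]
  rw [← Finset.sum_mul]
  congr 1
  simp only [classInner, secC]
  rw [← Finset.mul_sum, Finset.sum_comm]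
  have h2 : ∀ k : L.H, ∑ γ : P →* ℂˣ, φ k * conj (L.tw γ (ξ : L.H → ℂ) k) =
      (Nat.card P : ℂ) * if ¬ p ∣ orderOf k then φ k * conj (baseS p M c Q k) else 0 := by
    intro k
    rw [← Finset.mul_sum, ← map_sum, L.sum_tw hξ k, regPt, map_mul, Complex.conj_natCast]
    by_cases hk : ¬ p ∣ orderOf k
    · rw [if_pos hk, if_pos hk, hb]
      ring
    · rw [if_neg hk, if_neg hk]
      simp
  simp_rw [h2]
  rw [← Finset.mul_sum]
  field_simp

/-- The norm of the regular part. -/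
theorem secC_base : secC p M c Q (baseS p M c Q) = 1 := by
  classical
  obtain ⟨ξ, hξ, hb⟩ := L.exists_base
  obtain ⟨h3, -⟩ := NilDual.all_height_zero L.hM L.hm L.hnil L.hab' hξ
  have h1 := sum_self_regPt L.hM L.hm L.hnil (NilDual.starInt L.hM L.hm) hξ h3
  rw [Nat.card_congr L.iot.toEquiv] at h1
  have h2 : ∑ k : Subgroup.centralizer (Q : Set G), (if ¬ p ∣ orderOf k then baseS p M c Q k * conj (baseS p M c Q k) else 0) =
      (Nat.card (Subgroup.centralizer (Q : Set G)) : ℂ) / Nat.card P := by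
    rw [← h1]
    refine Finset.sum_congr rfl fun k _ => ?_
    rw [regPt, hb]
    by_cases hk : ¬ p ∣ orderOf k
    · rw [if_pos hk, if_pos hk]
    · rw [if_neg hk, if_neg hk]
      simp
  rw [secC, h2]
  have hH : (Nat.card (Subgroup.centralizer (Q : Set G)) : ℂ) ≠ 0 := by exact_mod_cast Nat.card_pos.ne'
  have hP : (Nat.card P : ℂ) ≠ 0 := by exact_mod_cast Nat.card_pos.ne'
  field_simp

theorem secC_mem {ξ : IrrCharacter L.H} (hξ : ξ ∈ L.f) : secC p M c Q (ξ : L.H → ℂ) = 1 := by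
  rw [← L.secC_base]
  exact secC_congr fun k hk => (L.base_regular hξ hk).symm

/-- The block below the maximal pair in `C_G(Q)` at an element of `P` is the block at the larger subgroup. -/
theorem compare {w : L.H} (hw : (w : G) ∈ P) :
    blockMap (iotaR Q w) (bb p M L.c' w) = fbS p M c (Q ⊔ Subgroup.zpowers (w : G)) := by
  classical
  haveI := isPrime_of_pModular L.hM
  have hw' : w ∈ L.D' := L.memD' hw
  obtain ⟨h1, h2⟩ := bb_spec L.hM L.hm hw'
  have hle := isUnder_one_iff.mp h2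
  have hpgrp : IsPGroup p (Subgroup.zpowers w : Subgroup L.H) :=
    L.hm.1.1.1.to_le ((Subgroup.zpowers_le).mpr hw')
  have hnor := isNormalSubpair_of_subpairLE L.hM ⟨hpgrp, h1⟩ hle
    (fun x hx => Cfsg.Agent.Lib.BlockH.Sylow.centralizer_le_normalizer'' _ (by
      rw [mem_cZ]
      exact Subtype.ext (L.hab _ (Subgroup.mem_subgroupOf.mp hx) _ hw)))
  have hLR := L.up hw
  refine (fbS_eq L.hM L.hmax hLR.hQP (isPBlock_blockMap _ h1) (Relation.ReflTransGen.single ?_)).symm
  refine ⟨⟨L.hmax.1.1.1.to_le hLR.hQP, isPBlock_blockMap _ h1⟩, L.hmax.1.1, hLR.hQP,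
    fun x hx => Cfsg.Agent.Lib.BlockH.Sylow.centralizer_le_normalizer'' _ (hLR.hDH hx),
    fun x hx => Cfsg.Agent.Lib.BlockH.Defects.stabilizesBlock_of_mem _ _ (hLR.hDH hx), fun ξ hξ => ?_⟩
  have h3 := hnor.2.2.2.2.2 (irrMap (descEquiv L.hX (hC L.hQP)).symm ξ) (irrMap_mem_blockMap _ _ hξ)
  have h4 := brauerOmega_transport (descEquiv L.hX (hC L.hQP))
    (subgroupBlockCoeff (cZ w) (bb p M L.c' w))
    (subgroupBlockCoeff (Subgroup.centralizer ((Q ⊔ Subgroup.zpowers (w : G) : Subgroup G) : Set G))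
      (blockMap (iotaR Q w) (bb p M L.c' w)))
    (fun k => subgroupBlockCoeff_iotaR Q w _ (k : L.H))
    (irrMap (descEquiv L.hX (hC L.hQP)).symm ξ)
  have h5 : irrMap (descEquiv L.hX (hC L.hQP)) (irrMap (descEquiv L.hX (hC L.hQP)).symm ξ) = ξ :=
    (irrEquiv (descEquiv L.hX (hC L.hQP))).right_inv ξ
  rw [h5] at h4
  rw [h4]
  exact h3

/-- **The section in `C_G(Q)` at an element of `P`.** -/
theorem Fs_eq_secD {τ : L.H → ℂ} (hτ : IsClassFunction L.H τ) {w : L.H} (hw : (w : G) ∈ P) (y : cZ w)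
    (hy : ¬ p ∣ orderOf (y : L.H)) :
    Fs τ w (bb p M L.c' w) y = secD p M c (Q ⊔ Subgroup.zpowers (w : G)) (extZ L.H τ) w *
      baseS p M c (Q ⊔ Subgroup.zpowers (w : G)) (iotaR Q w y) := by
  classical
  have hLR := L.up hw
  have hy' : ¬ p ∣ orderOf (iotaR Q w y) := by
    rw [MulEquiv.orderOf_eq, ← Subgroup.orderOf_coe]
    exact hy
  rw [Fs_eq_blockPart hτ]
  have h1 : (fun k : cZ w => τ (w * k)) =
      (fun k : Subgroup.centralizer ((Q ⊔ Subgroup.zpowers (w : G) : Subgroup G) : Set G) =>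
        extZ L.H τ ((w : G) * k)) ∘ (iotaR Q w) := by
    funext k
    simp only [Function.comp]
    have h2 := extZ_coe (H := L.H) τ (w * (k : L.H))
    rw [← h2]
    rfl
  rw [h1, ← blockPart_blockMap, L.compare hw]
  exact hLR.blockPart_eq _ hy'

end Lev

end Cfsg.Agent.Lib.Dade.Fr
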