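import Mathlib
import Cfsg.Agent.Lib.Dade.Fr.Sc
import Cfsg.Agent.Lib.OddChar.GaloisConj

/-!
# Abelian defect groups with a free inertial quotient: the key facts at a level
-/

set_option linter.unusedSectionVars false
set_option linter.style.haveILetI false
set_option autoImplicit false

namespace Cfsg.Agent.Lib.Dade.Fr

open Cfsg MonoidAlgebra
open Cfsg.Agent.Lib.Blocks.Local Cfsg.Agent.Lib.Blocks.Central Cfsg.Agent.Lib.Blocks.Brauer
open Cfsg.Agent.Lib.BlockH.Transport Cfsg.Agent.Lib.BlockH.Subpair Cfsg.Agent.Lib.BlockH.SubpairLE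
open Cfsg.Agent.Lib.BlockH.ConjPair Cfsg.Agent.Lib.BlockH.Descent Cfsg.Agent.Lib.BlockH.MaxPair
open Cfsg.Agent.Lib.BlockH.InducedPairs Cfsg.Agent.Lib.BlockH.AbelianDefect
open Cfsg.Agent.Lib.BP.Cj Cfsg.Agent.Lib.BP.MIS
open Cfsg.Agent.Lib.BP.StarDefs Cfsg.Agent.Lib.BP.Star1
open Cfsg.Agent.Lib.BP.Star2 Cfsg.Agent.Lib.BP.Star3 Cfsg.Agent.Lib.BP.Rob1 Cfsg.Agent.Lib.BP.Rob2
open Cfsg.Agent.Lib.BP.Nil1 Cfsg.Agent.Lib.BP.Nil2 Cfsg.Agent.Lib.BP.Nil3 Cfsg.Agent.Lib.BP.Nil4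
open Cfsg.Agent.Lib.Contrib.Section
open Cfsg.Agent.Lib.Blocks.Main
open Cfsg.Agent.Lib.Char.Basic Cfsg.Agent.Lib.Char.Complete Cfsg.Agent.Lib.Char.Ortho Cfsg.Agent.Lib.Char.GenLattice
open Cfsg.Agent.Lib.Char.Degree
open Cfsg.Agent.Lib.OddChar.GaloisConj
open Cfsg.Agent.Lib.Dade.Base Cfsg.Agent.Lib.Dade.NilDual Cfsg.Agent.Lib.Dade.Gen Cfsg.Agent.Lib.Dade.Loc
open scoped ComplexConjugate

universe u

/-- Square roots in the dual of a finite commutative group. -/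
theorem exists_sq_eq {A : Type*} [Group A] [Finite A] (hcomm : ∀ a b : A, a * b = b * a) (g : A →* ℂˣ)
    (hg : ∀ a : A, a * a = 1 → g a = 1) : ∃ h : A →* ℂˣ, ∀ a, h a * h a = g a := by
  letI : CommGroup A := { (inferInstance : Group A) with mul_comm := hcomm }
  have hne : NeZero (Monoid.exponent A) := ⟨Monoid.exponent_ne_zero_of_finite⟩
  let s : A →* A := powMonoidHom 2
  have hker : s.rangeRestrict.ker ≤ g.ker := by
    intro a ha
    rw [MonoidHom.mem_ker] at ha ⊢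
    apply hg
    have h1 := congrArg Subtype.val ha
    simpa [s, pow_two] using h1
  let g₀ : s.range →* ℂˣ := (MonoidHom.liftOfSurjective s.rangeRestrict s.rangeRestrict_surjective) ⟨g, hker⟩
  obtain ⟨h, hh⟩ := MonoidHom.domRestrict_surjective ℂ s.range g₀
  refine ⟨h, fun a => ?_⟩
  have h1 := DFunLike.congr_fun hh (s.rangeRestrict a)
  have h2 : g₀ (s.rangeRestrict a) = g a :=
    MonoidHom.liftOfRightInverse_comp_apply _ _ _ _ a
  rw [h2] at h1
  rw [← h1, ← map_mul]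
  have h3 : ((s.rangeRestrict a : s.range) : A) = a * a := by
    simp [s, pow_two]
  rw [← h3]
  rfl

variable {G : Type u} [Group G] [Fintype G] {p : ℕ} {M : Ideal AlgInt} [Fact p.Prime]

attribute [local instance] fK fIrr fBl fDual

variable {B : Set (IrrCharacter G)} {P Q : Subgroup G} {c : Set (IrrCharacter (Subgroup.centralizer (P : Set G)))}

variable (p M c) in
/-- The scalar of a section of a function of the level. -/
noncomputable def Fq (Q : Subgroup G) (ξ : Subgroup.centralizer (Q : Set G) → ℂ) (w : G) : ℂ :=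
  secD p M c (Q ⊔ Subgroup.zpowers w) (extZ (Subgroup.centralizer (Q : Set G)) ξ) w

/-- Good exponents. -/
theorem exists_good_exp (j : ℕ) (hj : j.Coprime p) : ∃ k₀ : ℕ, k₀.Coprime (Nat.card G) ∧
    (∀ y : G, ¬ p ∣ orderOf y → y ^ k₀ = y) ∧ (∀ w : G, (∃ k : ℕ, orderOf w = p ^ k) → w ^ k₀ = w ^ j) := by
  have hp : p.Prime := Fact.out
  obtain ⟨a, n, hn, hcard⟩ := Nat.exists_eq_pow_mul_and_not_dvd (Nat.card_pos (α := G)).ne' p hp.ne_one
  have hco : (p ^ a).Coprime n := Nat.Coprime.pow_left a ((Nat.Prime.coprime_iff_not_dvd hp).mpr hn)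
  obtain ⟨k₀, h1, h2⟩ := Nat.chineseRemainder hco j 1
  refine ⟨k₀, ?_, ?_, ?_⟩
  · rw [hcard]
    refine Nat.Coprime.mul_right ?_ ?_
    · have h3 : Nat.gcd k₀ (p ^ a) = Nat.gcd j (p ^ a) := h1.gcd_eq
      rw [Nat.Coprime, h3]
      exact Nat.Coprime.pow_right a hj
    · have h3 : Nat.gcd k₀ n = Nat.gcd 1 n := h2.gcd_eq
      rw [Nat.Coprime, h3]
      simp
  · intro y hy
    have h3 : orderOf y ∣ p ^ a * n := hcard ▸ orderOf_dvd_natCard y
    have h4 : orderOf y ∣ n := Nat.Coprime.dvd_of_dvd_mul_left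
      (Nat.Coprime.pow_right a ((Nat.Prime.coprime_iff_not_dvd hp).mpr hy).symm) h3
    have h5 : y ^ k₀ = y ^ 1 := (pow_eq_pow_iff_modEq).mpr (h2.of_dvd h4)
    rwa [pow_one] at h5
  · rintro w ⟨k, hk⟩
    have h3 : orderOf w ∣ p ^ a * n := hcard ▸ orderOf_dvd_natCard w
    have h4 : orderOf w ∣ p ^ a := Nat.Coprime.dvd_of_dvd_mul_right
      (by rw [hk]; exact Nat.Coprime.pow_left k ((Nat.Prime.coprime_iff_not_dvd hp).mpr hn)) h3
    exact (pow_eq_pow_iff_modEq).mpr (h1.of_dvd h4)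

/-- A cyclic subgroup does not change under an exponent coprime to the order. -/
theorem zpowers_pow_coprime {w : G} {k₀ : ℕ} (h : k₀.Coprime (orderOf w)) :
    Subgroup.zpowers (w ^ k₀) = Subgroup.zpowers w := by
  apply le_antisymm
  · exact (Subgroup.zpowers_le).mpr (Subgroup.npow_mem_zpowers w k₀)
  · obtain ⟨m, hm⟩ := exists_pow_eq_self_of_coprime h
    refine (Subgroup.zpowers_le).mpr ?_
    have h1 : (w ^ k₀) ^ m ∈ Subgroup.zpowers (w ^ k₀) := Subgroup.npow_mem_zpowers _ m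
    rwa [hm] at h1

/-- A character vanishing nowhere at `1`: sum of squares on the regular elements. -/
theorem sum_regular_self_ne {A : Type*} [Group A] [Fintype A] (ξ : IrrCharacter A) [DecidablePred fun x : A => ¬ p ∣ orderOf x] :
    ∑ x : A, (if ¬ p ∣ orderOf x then (ξ : A → ℂ) x * conj ((ξ : A → ℂ) x) else 0) ≠ 0 := by
  intro h0
  have h1 : ∑ x : A, (if ¬ p ∣ orderOf x then Complex.normSq ((ξ : A → ℂ) x) else 0) = 0 := by
    have h2 : ((∑ x : A, (if ¬ p ∣ orderOf x then Complex.normSq ((ξ : A → ℂ) x) else 0) : ℝ) : ℂ) = 0 := by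
      rw [← h0]
      push_cast
      refine Finset.sum_congr rfl fun x _ => ?_
      by_cases hx : ¬ p ∣ orderOf x
      · rw [if_pos hx, if_pos hx, Complex.mul_conj]
      · rw [if_neg hx, if_neg hx, Complex.ofReal_zero]
    exact_mod_cast h2
  have h3 := (Finset.sum_eq_zero_iff_of_nonneg (fun x _ => by
    by_cases hx : ¬ p ∣ orderOf x
    · rw [if_pos hx]
      exact Complex.normSq_nonneg _
    · rw [if_neg hx])).mp h1 1 (Finset.mem_univ _)
  rw [if_pos (reg_one (p := p))] at h3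
  exact irr_one_ne ξ (Complex.normSq_eq_zero.mp h3)

namespace Lev

variable (L : Lev p M B P c Q)

include L

/-- A character with the regular values of a member of the block is in the block. -/
theorem mem_f_of_regular {ξ τ : IrrCharacter L.H} (hξ : ξ ∈ L.f) (h : ∀ y : L.H, ¬ p ∣ orderOf y → (τ : L.H → ℂ) y = (ξ : L.H → ℂ) y) :
    τ ∈ L.f := by
  classical
  haveI := isPrime_of_pModular L.hM
  have h1 := isPBlock_eq_blockOf L.hf hξ
  rw [h1]
  by_contra hne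
  have hs : ¬ SameBlock M (τ : L.H → ℂ) (ξ : L.H → ℂ) := fun h2 => hne (sameBlock_symm h2)
  have h2 := Cfsg.Agent.Lib.Blocks.Weak.sum_regular_eq_zero L.hM hs
  apply sum_regular_self_ne (p := p) ξ
  refine Eq.trans ?_ h2
  refine Finset.sum_congr rfl fun x _ => ?_
  by_cases hx : ¬ p ∣ orderOf x
  · rw [if_pos hx, if_pos hx, h x hx]
  · rw [if_neg hx, if_neg hx]

/-- Characters of `H` outside the block have vanishing sections at the blocks below `(D', c')`. -/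
theorem Fs_eq_zero_of_notMem {ξ : IrrCharacter L.H} (hξ : ξ ∉ L.f) {w : L.H} (hw : (w : G) ∈ P) {y : L.H}
    (hy : y ∈ cZ w) (hyp : ¬ p ∣ orderOf y) : Fs (ξ : L.H → ℂ) w (bb p M L.c' w) y = 0 := by
  haveI := isPrime_of_pModular L.hM
  obtain ⟨h1, h2⟩ := bb_spec L.hM L.hm (L.memD' hw)
  have hb := induced_of_under L.hM L.hm h2
  have hr : ∃ k : ℕ, orderOf w = p ^ k :=
    Cfsg.Agent.Lib.Blocks.Third.orderOf_of_mem_isPGroup L.hm.1.1.1 (L.memD' hw)
  have h3 := Fs_eq_blockPart (class_irr ξ) w (bb p M L.c' w) ⟨y, hy⟩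
  rw [show Fs (ξ : L.H → ℂ) w (bb p M L.c' w) y = _ from h3]
  have hmem : ξ ∈ blockOf M (ξ : L.H → ℂ) := fun g => sameBlock_refl _ g
  exact second_main_gen L.hM hr (⟨ξ, rfl⟩ : IsPBlock M (blockOf M (ξ : L.H → ℂ))) hmem (cZ_eq w) h1
    (fun hind => hξ (by
      rw [Cfsg.Agent.Lib.Blocks.Induced.IsInducedBlock.unique _ hb hind]
      exact hmem)) ⟨y, hy⟩ (by rwa [Subgroup.orderOf_mk])

/-- The section in the level at the identity. -/
theorem Fs_one_eq {τ : L.H → ℂ} (hτ : IsClassFunction L.H τ) {w : L.H} (hw : (w : G) ∈ P) :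
    Fs τ w (bb p M L.c' w) 1 = Fq p M c Q τ w * baseS p M c (Q ⊔ Subgroup.zpowers (w : G)) 1 := by
  have h1 := L.Fs_eq_secD hτ hw (1 : cZ w) (reg_one (p := p))
  simpa [Fq] using h1

/-- **(a)** Vanishing outside the block. -/
theorem Fq_notMem {τ : IrrCharacter L.H} (hτ : τ ∉ L.f) {w : L.H} (hw : (w : G) ∈ P) :
    Fq p M c Q (τ : L.H → ℂ) w = 0 := by
  have h1 := L.Fs_one_eq (class_irr τ) hw
  have h2 := L.Fs_eq_zero_of_notMem hτ hw (y := 1) (one_mem _) (reg_one (p := p))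
  rw [h2] at h1
  rcases mul_eq_zero.mp h1.symm with h3 | h3
  · exact h3
  · exact absurd h3 (L.up hw).base_one_ne

/-- **(b)** The scalar of a twist. -/
theorem Fq_tw (γ : P →* ℂˣ) {ξ : IrrCharacter L.H} (hξ : ξ ∈ L.f) {w : L.H} (hw : (w : G) ∈ P) :
    Fq p M c Q (L.tw γ (ξ : L.H → ℂ)) w = ((γ ⟨w, hw⟩ : ℂˣ) : ℂ) * Fq p M c Q (ξ : L.H → ℂ) w := by
  have h1 := L.Fs_one_eq (class_irr (L.twI γ hξ)) hw
  have h2 := L.Fs_tw γ (ξ := ξ) hw (y := 1) (one_mem _) (reg_one (p := p))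
  have h3 := L.Fs_one_eq (class_irr ξ) hw
  rw [coe_twI] at h1
  rw [h2, h3, ← mul_assoc] at h1
  exact (mul_right_cancel₀ (L.up hw).base_one_ne h1).symm

/-- **(c)** The norm of the scalar. -/
theorem Fq_norm {ξ : IrrCharacter L.H} (hξ : ξ ∈ L.f) {w : L.H} (hw : (w : G) ∈ P) :
    Fq p M c Q (ξ : L.H → ℂ) w * conj (Fq p M c Q (ξ : L.H → ℂ) w) = 1 := by
  classical
  have hLR := L.up hw
  obtain ⟨h3, h4⟩ := NilDual.all_height_zero L.hM L.hm L.hnil L.hab' hξ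
  have hψ := psiF_eq_one L.hM L.hm L.hnil (NilDual.starInt L.hM L.hm) hξ h3 (L.memD' hw)
  rw [psiF, NilDual.nU_eq L.hM L.hm L.hnil L.hab' (L.memD' hw), Nat.card_congr L.iot.toEquiv,
    Nat.card_congr (iotaR Q w).toEquiv] at hψ
  set F := Fq p M c Q (ξ : L.H → ℂ) w with hF
  set R : Subgroup G := Q ⊔ Subgroup.zpowers (w : G) with hR
  have h5 : NN p (ξ : L.H → ℂ) (ξ : L.H → ℂ) w (bb p M L.c' w) =
      F * conj F * ∑ k : Subgroup.centralizer (R : Set G), if ¬ p ∣ orderOf k then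
        baseS p M c R k * conj (baseS p M c R k) else 0 := by
    rw [NN, Finset.mul_sum, Cfsg.Agent.Lib.Blocks.Induced.sum_eq_sum_subgroup (cZ w) _ (fun g hg => by
      rw [if_neg (fun h => hg h.1)])]
    refine Fintype.sum_equiv (iotaR Q w).toEquiv _ _ fun y => ?_
    have hord : orderOf (iotaR Q w y) = orderOf (y : L.H) := by
      rw [MulEquiv.orderOf_eq, Subgroup.orderOf_coe]
    simp only [MulEquiv.toEquiv_eq_coe, EquivLike.coe_coe]
    rw [hord]
    by_cases hy : ¬ p ∣ orderOf (y : L.H)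
    · rw [if_pos ⟨y.2, hy⟩, if_pos hy, L.Fs_eq_secD (class_irr ξ) hw y hy, map_mul]
      change secD p M c R _ w * _ * (conj (secD p M c R _ w) * _) = _
      rw [Fq] at hF
      change F = secD p M c R _ w at hF
      rw [← hF]
      ring
    · rw [if_neg (fun h => hy h.2), if_neg hy, mul_zero]
  have h6 := hLR.secC_base
  rw [secC] at h6
  rw [h5] at hψ
  have hH : (Nat.card (Subgroup.centralizer (R : Set G)) : ℂ) ≠ 0 := by exact_mod_cast Nat.card_pos.ne'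
  have hP : (Nat.card P : ℂ) ≠ 0 := by exact_mod_cast Nat.card_pos.ne'
  have h7 : (Nat.card P : ℂ) * (F * conj F * ∑ k : Subgroup.centralizer (R : Set G), if ¬ p ∣ orderOf k then
        baseS p M c R k * conj (baseS p M c R k) else 0) / (Nat.card (Subgroup.centralizer (R : Set G)) : ℂ) = 1 := by
    rw [← hψ]
    ring
  calc F * conj F = F * conj F * ((Nat.card P : ℂ) / (Nat.card (Subgroup.centralizer (R : Set G)) : ℂ) *
        ∑ k : Subgroup.centralizer (R : Set G), if ¬ p ∣ orderOf k then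
        baseS p M c R k * conj (baseS p M c R k) else 0) := by rw [h6, mul_one]
    _ = _ := by ring
    _ = 1 := h7

/-- The scalar is nonzero. -/
theorem Fq_ne_zero {ξ : IrrCharacter L.H} (hξ : ξ ∈ L.f) {w : L.H} (hw : (w : G) ∈ P) :
    Fq p M c Q (ξ : L.H → ℂ) w ≠ 0 := by
  intro h
  have h1 := L.Fq_norm hξ hw
  rw [h, zero_mul] at h1
  exact zero_ne_one h1

/-- **(d)** The scalars of a function whose restriction to the level is a character. -/
theorem exists_mult_secD {ξ : IrrCharacter L.H} (hξ : ξ ∈ L.f) {θ : G → ℂ} (hθ : IsCharacter L.H (fun h : L.H => θ h)) :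
    ∃ m : (P →* ℂˣ) → ℕ, (∀ γ, (m γ : ℂ) = classInner (fun h : L.H => θ h) (L.tw γ (ξ : L.H → ℂ))) ∧
      ∀ w (hw : w ∈ P), secD p M c (Q ⊔ Subgroup.zpowers w) θ w =
        (∑ γ : P →* ℂˣ, (m γ : ℂ) * ((γ ⟨w, hw⟩ : ℂˣ) : ℂ)) * Fq p M c Q (ξ : L.H → ℂ) w := by
  classical
  obtain ⟨m₀, hm₀, hin, -⟩ := Cfsg.Agent.Lib.Blk89.Basic.exists_mult hθ
  refine ⟨fun γ => m₀ (L.twI γ hξ), fun γ => (hin _).symm, ?_⟩
  intro w hw
  have hwH : w ∈ L.H := L.hDH hw
  have hθ' : ∀ h : L.H, θ h = ∑ i : IrrCharacter L.H, (m₀ i : ℂ) * (i : L.H → ℂ) h := by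
    intro h
    have := congrFun hm₀ h
    rw [this, Finset.sum_apply]
    refine Finset.sum_congr rfl fun i _ => ?_
    simp
  have h1 : secD p M c (Q ⊔ Subgroup.zpowers w) θ w = ∑ i : IrrCharacter L.H, (m₀ i : ℂ) *
      Fq p M c Q (i : L.H → ℂ) (⟨w, hwH⟩ : L.H) := by
    simp only [Fq, secD]
    rw [← secC_sum]
    refine secC_congr fun k _ => ?_
    have hk : (k : G) ∈ L.H := (mem_cent_sup.mp k.2).1
    have h2 := hθ' (⟨w, hwH⟩ * ⟨k, hk⟩)
    have h3 : ∀ i : IrrCharacter L.H, extZ L.H (i : L.H → ℂ) (w * k) = (i : L.H → ℂ) (⟨w, hwH⟩ * ⟨k, hk⟩) := fun i =>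
      extZ_coe (H := L.H) (i : L.H → ℂ) (⟨w, hwH⟩ * ⟨k, hk⟩)
    simp only [h3]
    exact h2
  rw [h1, Finset.sum_mul]
  symm
  refine Finset.sum_of_injOn (fun γ => L.twI γ hξ) ?_ ?_ ?_ ?_
  · intro γ _ γ' _ he
    exact L.tw_inj hξ (congrArg Subtype.val he)
  · intro γ _
    exact Finset.mem_coe.mpr (Finset.mem_univ _)
  · intro i _ hi
    have hi' : i ∉ L.f := by
      intro hif
      obtain ⟨γ, hγ⟩ := L.exists_tw_eq hξ hif
      exact hi ⟨γ, Finset.mem_coe.mpr (Finset.mem_univ _), hγ⟩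
    rw [L.Fq_notMem hi' hw, mul_zero]
  · intro γ _
    simp only
    have h5 : Fq p M c Q (L.tw γ (ξ : L.H → ℂ)) w = ((γ ⟨w, hw⟩ : ℂˣ) : ℂ) * Fq p M c Q (ξ : L.H → ℂ) w :=
      L.Fq_tw γ hξ (w := ⟨w, hwH⟩) hw
    rw [coe_twI]
    change _ = _ * Fq p M c Q (L.tw γ (ξ : L.H → ℂ)) w
    rw [h5]
    ring

/-- The scalar on `Q`. -/
theorem Fq_of_mem {ξ : IrrCharacter L.H} (hξ : ξ ∈ L.f) {w : L.H} (hw : (w : G) ∈ Q) :
    Fq p M c Q (ξ : L.H → ℂ) w = (ξ : L.H → ℂ) w / (ξ : L.H → ℂ) 1 := by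
  have hz : ∀ g : L.H, w * g = g * w := by
    intro g
    apply Subtype.ext
    exact Subgroup.mem_centralizer_iff.mp g.2 _ hw
  have hR : Q ⊔ Subgroup.zpowers (w : G) = Q := sup_eq_left.mpr ((Subgroup.zpowers_le).mpr hw)
  rw [Fq, hR, secD]
  rw [← mul_one ((ξ : L.H → ℂ) w / (ξ : L.H → ℂ) 1), ← L.secC_mem hξ]
  have h1 := secC_sum (p := p) (M := M) (c := c) {()} (fun _ => (ξ : L.H → ℂ) w / (ξ : L.H → ℂ) 1) Q (fun _ => (ξ : L.H → ℂ))
  simp only [Finset.sum_singleton] at h1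
  rw [← h1]
  refine secC_congr fun k _ => ?_
  have h2 := extZ_coe (H := L.H) (ξ : L.H → ℂ) (w * k)
  have h3 := irr_central_mul ξ hz k
  rw [h3] at h2
  exact h2

end Lev

/-- The regular part is compatible with inverses. -/
theorem Lev.base_inv (L : Lev p M B P c Q) (k : L.H) :
    baseS p M c Q k⁻¹ = conj (baseS p M c Q k) := by
  obtain ⟨τ, hτ, h⟩ := L.exists_base
  rw [← h]
  exact char_inv_eq_conj (isCharacter_of_isIrrCharacter τ.2) k

/-- The scalar of the conjugate function. -/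
theorem Lev.conj_secD (L : Lev p M B P c Q) {θ : G → ℂ} (hθ : ∀ g, θ g⁻¹ = conj (θ g)) {w : G} (hw : w ∈ Q) :
    conj (secD p M c Q θ w) = secD p M c Q θ w⁻¹ := by
  classical
  simp only [secD, secC]
  rw [map_mul, map_div₀, map_natCast, map_natCast, map_sum]
  congr 1
  refine Fintype.sum_equiv (Equiv.inv _) _ _ fun k => ?_
  simp only [Equiv.inv_apply, orderOf_inv]
  by_cases hk : ¬ p ∣ orderOf k
  · rw [if_pos hk, if_pos hk, map_mul, L.base_inv, ← hθ]
    congr 2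
    have hk' : (k : G) * w = w * k := Subgroup.mem_centralizer_iff.mp k.2 w hw |>.symm
    simp only [Subgroup.coe_inv, mul_inv_rev]
    rw [← mul_inv_rev, ← mul_inv_rev, hk']
  · rw [if_neg hk, if_neg hk, map_zero]

end Cfsg.Agent.Lib.Dade.Fr
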