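import Mathlib
import Cfsg.Agent.Lib.Dade.Fr.Ky

/-!
# Abelian defect groups with a free inertial quotient: Galois conjugation and real bases
-/

set_option linter.unusedSectionVars false
set_option linter.style.haveILetI false
set_option autoImplicit false

namespace Cfsg.Agent.Lib.Dade.Fr

open Cfsg MonoidAlgebra
open Cfsg.Agent.Lib.Blocks.Local Cfsg.Agent.Lib.Blocks.Central Cfsg.Agent.Lib.Blocks.Brauer
open Cfsg.Agent.Lib.BlockH.Transport Cfsg.Agent.Lib.BlockH.Subpair Cfsg.Agent.Lib.BlockH.SubpairLE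
open Cfsg.Agent.Lib.BlockH.ConjPair Cfsg.Agent.Lib.BlockH.Descent Cfsg.Agent.Lib.BlockH.MaxPair
open Cfsg.Agent.Lib.BlockH.InducedPairs Cfsg.Agent.Lib.BlockH.AbelianDefect
open Cfsg.Agent.Lib.BP.Cj Cfsg.Agent.Lib.BP.MIS
open Cfsg.Agent.Lib.BP.StarDefs Cfsg.Agent.Lib.BP.Star1
open Cfsg.Agent.Lib.BP.Star2 Cfsg.Agent.Lib.BP.Star3 Cfsg.Agent.Lib.BP.Rob1 Cfsg.Agent.Lib.BP.Rob2
open Cfsg.Agent.Lib.BP.Nil1 Cfsg.Agent.Lib.BP.Nil2 Cfsg.Agent.Lib.BP.Nil3 Cfsg.Agent.Lib.BP.Nil4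
open Cfsg.Agent.Lib.Contrib.Section
open Cfsg.Agent.Lib.Blocks.Main
open Cfsg.Agent.Lib.Char.Basic Cfsg.Agent.Lib.Char.Complete Cfsg.Agent.Lib.Char.Ortho Cfsg.Agent.Lib.Char.GenLattice
open Cfsg.Agent.Lib.Char.Degree
open Cfsg.Agent.Lib.OddChar.GaloisConj
open Cfsg.Agent.Lib.Dade.Base Cfsg.Agent.Lib.Dade.NilDual Cfsg.Agent.Lib.Dade.Gen Cfsg.Agent.Lib.Dade.Loc
open scoped ComplexConjugate

universe u

variable {G : Type u} [Group G] [Fintype G] {p : ℕ} {M : Ideal AlgInt} [Fact p.Prime]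

attribute [local instance] fK fIrr fBl fDual

variable {B : Set (IrrCharacter G)} {P Q : Subgroup G} {c : Set (IrrCharacter (Subgroup.centralizer (P : Set G)))}

/-- A good exponent. -/
structure Good (p : ℕ) (G : Type u) [Group G] (k₀ : ℕ) : Prop where
  hco : k₀.Coprime (Nat.card G)
  hreg : ∀ y : G, ¬ p ∣ orderOf y → y ^ k₀ = y

theorem Good.coprime_sub {k₀ : ℕ} (h : Good p G k₀) (H : Subgroup G) : k₀.Coprime (Nat.card H) :=
  Nat.Coprime.coprime_dvd_right (Subgroup.card_subgroup_dvd_card H) h.hco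

theorem Good.reg_sub {k₀ : ℕ} (h : Good p G k₀) {H : Subgroup G} (y : H) (hy : ¬ p ∣ orderOf y) : y ^ k₀ = y := by
  apply Subtype.ext
  rw [Subgroup.coe_pow]
  exact h.hreg _ (by rwa [Subgroup.orderOf_coe])

theorem Good.exists_aut {k₀ : ℕ} (h : Good p G k₀) :
    ∃ f : ℂ ≃+* ℂ, ∀ z : ℂ, z ^ (Nat.card G) = 1 → f z = z ^ k₀ :=
  exists_ringEquiv_pow _ k₀ Nat.card_pos.ne' h.hco

theorem Good.coprime_order {k₀ : ℕ} (h : Good p G k₀) (w : G) : k₀.Coprime (orderOf w) :=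
  Nat.Coprime.coprime_dvd_right (orderOf_dvd_natCard w) h.hco

/-- A power twist. -/
noncomputable def powI {k₀ : ℕ} (h : Good p G k₀) (H : Subgroup G) (ξ : IrrCharacter H) : IrrCharacter H :=
  ⟨fun g => (ξ : H → ℂ) (g ^ k₀), isIrrCharacter_pow (h.coprime_sub H) ξ.2⟩

@[simp] theorem powI_apply {k₀ : ℕ} (h : Good p G k₀) (H : Subgroup G) (ξ : IrrCharacter H) (g : H) :
    (powI h H ξ : H → ℂ) g = (ξ : H → ℂ) (g ^ k₀) := rfl

theorem extZ_inv {H : Subgroup G} (ξ : IrrCharacter H) (g : G) :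
    extZ H (ξ : H → ℂ) g⁻¹ = conj (extZ H (ξ : H → ℂ) g) := by
  by_cases hg : g ∈ H
  · have h1 := extZ_coe (H := H) (ξ : H → ℂ) (⟨g, hg⟩ : H)
    have h2 := extZ_coe (H := H) (ξ : H → ℂ) (⟨g, hg⟩ : H)⁻¹
    change extZ H (ξ : H → ℂ) g = _ at h1
    change extZ H (ξ : H → ℂ) g⁻¹ = _ at h2
    rw [h1, h2]
    exact char_inv_eq_conj (isCharacter_of_isIrrCharacter ξ.2) _
  · rw [extZ_notMem _ hg, extZ_notMem _ (fun h => hg (by simpa using H.inv_mem h)), map_zero]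

namespace Lev

variable (L : Lev p M B P c Q)

include L

theorem powI_mem {k₀ : ℕ} (h : Good p G k₀) {ξ : IrrCharacter L.H} (hξ : ξ ∈ L.f) : powI h L.H ξ ∈ L.f :=
  L.mem_f_of_regular hξ fun y hy => by
    rw [powI_apply, h.reg_sub y hy]

/-- Products in the section. -/
theorem mul_pow_sec {k₀ : ℕ} (h : Good p G k₀) {w : G} (hw : w ∈ P)
    (k : Subgroup.centralizer ((Q ⊔ Subgroup.zpowers w : Subgroup G) : Set G)) (hk : ¬ p ∣ orderOf k) :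
    ∃ (w' k' : L.H), (w' : G) = w ∧ (k' : G) = k ∧ (w' * k') ^ k₀ = w' ^ k₀ * k' := by
  have hkH : (k : G) ∈ L.H := (mem_cent_sup.mp k.2).1
  refine ⟨⟨w, L.hDH hw⟩, ⟨k, hkH⟩, rfl, rfl, ?_⟩
  have hcom : Commute (⟨w, L.hDH hw⟩ : L.H) (⟨k, hkH⟩ : L.H) :=
    Subtype.ext (mem_cZ.mp (mem_cent_sup.mp k.2).2).eq.symm
  rw [hcom.mul_pow, h.reg_sub (⟨k, hkH⟩ : L.H) (by
    rwa [Subgroup.orderOf_mk, Subgroup.orderOf_coe])]

/-- The scalar of a power twist. -/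
theorem secD_powI {k₀ : ℕ} (h : Good p G k₀) (ξ : IrrCharacter L.H) {w : G} (hw : w ∈ P) :
    secD p M c (Q ⊔ Subgroup.zpowers w) (extZ L.H (powI h L.H ξ : L.H → ℂ)) w =
      secD p M c (Q ⊔ Subgroup.zpowers w) (extZ L.H (ξ : L.H → ℂ)) (w ^ k₀) := by
  refine secC_congr fun k hk => ?_
  obtain ⟨w', k', rfl, hk', he⟩ := L.mul_pow_sec h hw k hk
  have e1 := extZ_coe (H := L.H) (powI h L.H ξ : L.H → ℂ) (w' * k')
  have e2 := extZ_coe (H := L.H) (ξ : L.H → ℂ) (w' ^ k₀ * k')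
  rw [Subgroup.coe_mul, hk'] at e1
  rw [Subgroup.coe_mul, Subgroup.coe_pow, hk'] at e2
  rw [e1, e2, powI_apply, he]

/-- The action of a field automorphism on the scalar. -/
theorem f_secD {k₀ : ℕ} (h : Good p G k₀) {f : ℂ ≃+* ℂ} (hf : ∀ z : ℂ, z ^ (Nat.card G) = 1 → f z = z ^ k₀)
    (ξ : IrrCharacter L.H) {w : G} (hw : w ∈ P) :
    f (secD p M c (Q ⊔ Subgroup.zpowers w) (extZ L.H (ξ : L.H → ℂ)) w) =
      secD p M c (Q ⊔ Subgroup.zpowers w) (extZ L.H (ξ : L.H → ℂ)) (w ^ k₀) := by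
  classical
  have hLR := L.up hw
  simp only [secD, secC]
  rw [map_mul, map_div₀, map_natCast, map_natCast, map_sum]
  congr 1
  refine Finset.sum_congr rfl fun k _ => ?_
  by_cases hk : ¬ p ∣ orderOf k
  · rw [if_pos hk, if_pos hk, map_mul]
    obtain ⟨w', k', hw', hk', he⟩ := L.mul_pow_sec h hw k hk
    congr 1
    · subst hw'
      have e1 := extZ_coe (H := L.H) (ξ : L.H → ℂ) (w' * k')
      have e2 := extZ_coe (H := L.H) (ξ : L.H → ℂ) (w' ^ k₀ * k')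
      rw [Subgroup.coe_mul, hk'] at e1
      rw [Subgroup.coe_mul, Subgroup.coe_pow, hk'] at e2
      rw [e1, e2, ← he]
      exact comp_character_eq (f := (f : ℂ →+* ℂ)) hf (Subgroup.card_subgroup_dvd_card _)
        (isCharacter_of_isIrrCharacter ξ.2) _
    · rw [← hLR.base_inv]
      obtain ⟨τ, hτ, hb⟩ := hLR.exists_base
      rw [← hb]
      have h1 := comp_character_eq (f := (f : ℂ →+* ℂ)) hf (Subgroup.card_subgroup_dvd_card _)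
        (isCharacter_of_isIrrCharacter τ.2) k⁻¹
      rw [h.reg_sub k⁻¹ (by rwa [orderOf_inv])] at h1
      exact h1
  · rw [if_neg hk, if_neg hk, map_zero]

/-- The scalar at the inverse is the complex conjugate. -/
theorem Fq_inv (ξ : IrrCharacter L.H) {w : G} (hw : w ∈ P) :
    conj (Fq p M c Q (ξ : L.H → ℂ) w) = Fq p M c Q (ξ : L.H → ℂ) w⁻¹ := by
  have hLR := L.up hw
  have h1 : Q ⊔ Subgroup.zpowers w⁻¹ = Q ⊔ Subgroup.zpowers w := by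
    rw [Subgroup.zpowers_inv]
  rw [Fq, Fq, h1]
  exact hLR.conj_secD (extZ_inv ξ) (Subgroup.mem_sup_right (Subgroup.mem_zpowers w))

/-- The subgroup of an exponent. -/
theorem sup_zpowers_pow {k₀ : ℕ} (h : Good p G k₀) (w : G) :
    Q ⊔ Subgroup.zpowers (w ^ k₀) = Q ⊔ Subgroup.zpowers w := by
  rw [zpowers_pow_coprime (h.coprime_order w)]

/-- The scalar of a power twist, as a scalar of the level. -/
theorem Fq_powI {k₀ : ℕ} (h : Good p G k₀) (ξ : IrrCharacter L.H) {w : G} (hw : w ∈ P) :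
    Fq p M c Q (powI h L.H ξ : L.H → ℂ) w = Fq p M c Q (ξ : L.H → ℂ) (w ^ k₀) := by
  rw [Fq, L.secD_powI h ξ hw, Fq, L.sup_zpowers_pow h w]

/-- The action of a field automorphism, as a scalar of the level. -/
theorem f_Fq {k₀ : ℕ} (h : Good p G k₀) {f : ℂ ≃+* ℂ} (hf : ∀ z : ℂ, z ^ (Nat.card G) = 1 → f z = z ^ k₀)
    (ξ : IrrCharacter L.H) {w : G} (hw : w ∈ P) :
    f (Fq p M c Q (ξ : L.H → ℂ) w) = Fq p M c Q (ξ : L.H → ℂ) (w ^ k₀) := by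
  rw [Fq, L.f_secD h hf ξ hw, Fq, L.sup_zpowers_pow h w]

/-- A good exponent acting as the inverse on `P`. -/
theorem exists_good_inv : ∃ k₀ : ℕ, Good p G k₀ ∧ ∀ w ∈ P, w ^ k₀ = w⁻¹ := by
  have hp : p.Prime := Fact.out
  have hPp : IsPGroup p P := L.hmax.1.1.1
  haveI : Nontrivial P := (Subgroup.nontrivial_iff_ne_bot P).mpr L.hP1
  have hdvd : p ∣ Nat.card P := by
    obtain ⟨n, hn⟩ := hPp.exists_card_eq
    have hn0 : n ≠ 0 := by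
      rintro rfl
      rw [pow_zero, Subgroup.card_eq_one] at hn
      exact L.hP1 hn
    rw [hn]
    exact dvd_pow_self p hn0
  have hcop : (Nat.card P - 1).Coprime p := by
    rw [Nat.coprime_comm, Nat.Prime.coprime_iff_not_dvd hp]
    intro h1
    have h2 := (Nat.dvd_sub hdvd h1)
    have h3 : Nat.card P - (Nat.card P - 1) = 1 := by
      have := Nat.card_pos (α := P)
      omega
    rw [h3] at h2
    exact hp.one_lt.ne' (Nat.dvd_one.mp h2)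
  obtain ⟨k₀, h1, h2, h3⟩ := exists_good_exp (G := G) (p := p) _ hcop
  refine ⟨k₀, ⟨h1, h2⟩, fun w hw => ?_⟩
  rw [h3 w (Cfsg.Agent.Lib.Blocks.Third.orderOf_of_mem_isPGroup hPp hw)]
  have h4 : w ^ Nat.card P = 1 := by
    have := pow_card_eq_one' (x := (⟨w, hw⟩ : P))
    exact congrArg Subtype.val this
  apply eq_inv_of_mul_eq_one_left
  rw [← pow_succ, Nat.sub_add_cancel Nat.card_pos, h4]

/-- **The real base.** -/
theorem exists_real {ξ₀ : IrrCharacter L.H} (h₀ : ξ₀ ∈ L.f) :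
    ∃ ρ ∈ L.f, ∀ w ∈ P, Fq p M c Q (ρ : L.H → ℂ) w = 1 ∨ Fq p M c Q (ρ : L.H → ℂ) w = -1 := by
  obtain ⟨k₀, hk, hinv⟩ := L.exists_good_inv
  obtain ⟨g, hg⟩ := L.exists_tw_eq h₀ (L.powI_mem hk h₀)
  have hg' : L.tw g (ξ₀ : L.H → ℂ) = (powI hk L.H ξ₀ : L.H → ℂ) := congrArg Subtype.val hg
  have hnorm : ∀ w ∈ P, Fq p M c Q (ξ₀ : L.H → ℂ) w⁻¹ = (Fq p M c Q (ξ₀ : L.H → ℂ) w)⁻¹ := by
    intro w hw
    rw [← L.Fq_inv ξ₀ hw]
    exact eq_inv_of_mul_eq_one_right (L.Fq_norm h₀ (w := ⟨w, L.hDH hw⟩) hw)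
  have hgF : ∀ w (hw : w ∈ P), ((g ⟨w, hw⟩ : ℂˣ) : ℂ) * (Fq p M c Q (ξ₀ : L.H → ℂ) w * Fq p M c Q (ξ₀ : L.H → ℂ) w) = 1 := by
    intro w hw
    have h1 : ((g ⟨w, hw⟩ : ℂˣ) : ℂ) * Fq p M c Q (ξ₀ : L.H → ℂ) w = Fq p M c Q (L.tw g (ξ₀ : L.H → ℂ)) w :=
      (L.Fq_tw g h₀ (w := ⟨w, L.hDH hw⟩) hw).symm
    rw [hg', L.Fq_powI hk ξ₀ hw, hinv w hw, hnorm w hw] at h1
    have h0 := L.Fq_ne_zero h₀ (w := ⟨w, L.hDH hw⟩) hw
    change Fq p M c Q (ξ₀ : L.H → ℂ) w ≠ 0 at h0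
    rw [← mul_assoc, h1, inv_mul_cancel₀ h0]
  have hD : ∀ u v : P, u * v = v * u := fun u v => Subtype.ext (L.hab _ u.2 _ v.2)
  obtain ⟨h, hh⟩ := exists_sq_eq hD g (by
    intro a ha
    have hwP := a.2
    have h1 := hgF a a.2
    have h2 : ((a : P) : G)⁻¹ = a := by
      have : (a : G) * a = 1 := congrArg Subtype.val ha
      exact inv_eq_of_mul_eq_one_left this
    have h3 := hnorm a a.2
    rw [h2] at h3
    have h0 := L.Fq_ne_zero h₀ (w := ⟨a, L.hDH a.2⟩) a.2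
    change Fq p M c Q (ξ₀ : L.H → ℂ) a ≠ 0 at h0
    have h4 : Fq p M c Q (ξ₀ : L.H → ℂ) a * Fq p M c Q (ξ₀ : L.H → ℂ) a = 1 := by
      nth_rw 1 [h3]
      exact inv_mul_cancel₀ h0
    rw [h4, mul_one] at h1
    exact Units.ext h1)
  refine ⟨L.twI h h₀, L.twI_mem h h₀, fun w hw => ?_⟩
  rw [coe_twI]
  have h1 : Fq p M c Q (L.tw h (ξ₀ : L.H → ℂ)) w = ((h ⟨w, hw⟩ : ℂˣ) : ℂ) * Fq p M c Q (ξ₀ : L.H → ℂ) w :=
    L.Fq_tw h h₀ (w := ⟨w, L.hDH hw⟩) hw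
  rw [h1]
  have h2 := hgF w hw
  have h3 := congrArg Units.val (hh ⟨w, hw⟩)
  rw [Units.val_mul] at h3
  rw [← h3] at h2
  have h4 : (((h ⟨w, hw⟩ : ℂˣ) : ℂ) * Fq p M c Q (ξ₀ : L.H → ℂ) w) * (((h ⟨w, hw⟩ : ℂˣ) : ℂ) * Fq p M c Q (ξ₀ : L.H → ℂ) w) = 1 := by
    rw [← h2]
    ring
  exact mul_self_eq_one_iff.mp h4

/-- A member of the block is determined by its scalars. -/
theorem eq_of_Fq {ξ τ : IrrCharacter L.H} (hξ : ξ ∈ L.f) (hτ : τ ∈ L.f)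
    (h : ∀ w ∈ P, Fq p M c Q (τ : L.H → ℂ) w = Fq p M c Q (ξ : L.H → ℂ) w) : τ = ξ := by
  obtain ⟨g, hg⟩ := L.exists_tw_eq hξ hτ
  have hg1 : g = 1 := by
    refine MonoidHom.ext fun w => Units.ext ?_
    have h1 : Fq p M c Q (L.tw g (ξ : L.H → ℂ)) w = ((g w : ℂˣ) : ℂ) * Fq p M c Q (ξ : L.H → ℂ) w :=
      L.Fq_tw g hξ (w := ⟨w, L.hDH w.2⟩) w.2
    have hg' : L.tw g (ξ : L.H → ℂ) = τ := congrArg Subtype.val hg
    rw [hg', h w w.2] at h1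
    have h0 := L.Fq_ne_zero hξ (w := ⟨w, L.hDH w.2⟩) w.2
    change Fq p M c Q (ξ : L.H → ℂ) w ≠ 0 at h0
    have h2 : ((g w : ℂˣ) : ℂ) = 1 := by
      apply mul_right_cancel₀ h0
      rw [one_mul]
      exact h1.symm
    simpa using h2
  subst hg1
  rw [← hg]
  apply Subtype.ext
  rw [coe_twI, L.tw_one hξ]

omit L in
theorem f_sign (f : ℂ ≃+* ℂ) {z : ℂ} (h : z = 1 ∨ z = -1) : f z = z := by
  rcases h with rfl | rfl <;> simp

/-- A real base is fixed by the good exponents. -/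
theorem powI_eq_self {k₀ : ℕ} (h : Good p G k₀) {ρ : IrrCharacter L.H} (hρ : ρ ∈ L.f)
    (hr : ∀ w ∈ P, Fq p M c Q (ρ : L.H → ℂ) w = 1 ∨ Fq p M c Q (ρ : L.H → ℂ) w = -1) : powI h L.H ρ = ρ := by
  obtain ⟨f, hf⟩ := h.exists_aut
  refine L.eq_of_Fq hρ (L.powI_mem h hρ) fun w hw => ?_
  rw [L.Fq_powI h ρ hw, ← L.f_Fq h hf ρ hw]
  exact f_sign f (hr w hw)

/-- The power twist of a twist of a real base. -/
theorem powI_tw {k₀ : ℕ} (h : Good p G k₀) (γ : P →* ℂˣ) {ξ : IrrCharacter L.H} (hξ : ξ ∈ L.f)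
    (hr : ∀ w ∈ P, Fq p M c Q (ξ : L.H → ℂ) w = 1 ∨ Fq p M c Q (ξ : L.H → ℂ) w = -1) :
    powI h L.H (L.twI γ hξ) = L.twI (γ ^ k₀) hξ := by
  obtain ⟨f, hf⟩ := h.exists_aut
  refine L.eq_of_Fq (L.twI_mem _ hξ) (L.powI_mem h (L.twI_mem γ hξ)) fun w hw => ?_
  rw [L.Fq_powI h _ hw, coe_twI, coe_twI]
  have hw' : w ^ k₀ ∈ P := P.pow_mem hw k₀
  have h1 : Fq p M c Q (L.tw γ (ξ : L.H → ℂ)) (w ^ k₀) = ((γ ⟨w ^ k₀, hw'⟩ : ℂˣ) : ℂ) * Fq p M c Q (ξ : L.H → ℂ) (w ^ k₀) :=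
    L.Fq_tw γ hξ (w := ⟨w ^ k₀, L.hDH hw'⟩) hw'
  have h2 : Fq p M c Q (L.tw (γ ^ k₀) (ξ : L.H → ℂ)) w = (((γ ^ k₀) ⟨w, hw⟩ : ℂˣ) : ℂ) * Fq p M c Q (ξ : L.H → ℂ) w :=
    L.Fq_tw (γ ^ k₀) hξ (w := ⟨w, L.hDH hw⟩) hw
  rw [h1, h2, ← L.f_Fq h hf ξ hw, f_sign f (hr w hw)]
  congr 2
  rw [MonoidHom.pow_apply, ← map_pow]
  rfl

omit L in
/-- The restriction of a character of a larger centralizer. -/
theorem isChar_extZ_res {H K : Subgroup G} (hle : K ≤ H) (ρ : IrrCharacter H) :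
    IsCharacter K (fun h : K => extZ H (ρ : H → ℂ) (h : G)) := by
  have h1 : (fun h : K => extZ H (ρ : H → ℂ) (h : G)) = (ρ : H → ℂ) ∘ (Subgroup.inclusion hle) := by
    funext h
    exact extZ_coe (H := H) (ρ : H → ℂ) (Subgroup.inclusion hle h)
  rw [h1]
  exact isCharacter_comp _ (isCharacter_of_isIrrCharacter ρ.2)

omit L in
/-- The scalar product with a power twist. -/
theorem classInner_powI {K : Subgroup G} {k₀ : ℕ} (h : Good p G k₀) {θ : K → ℂ} (hθ : ∀ x : K, θ (x ^ k₀) = θ x)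
    (τ : IrrCharacter K) : classInner θ (powI h K τ : K → ℂ) = classInner θ (τ : K → ℂ) := by
  rw [classInner, classInner]
  congr 1
  have hb := pow_bijective_of_coprime (G := K) (h.coprime_sub K)
  refine Fintype.sum_bijective _ hb _ _ fun x => ?_
  rw [powI_apply, hθ]

end Lev

variable {R : Subgroup G}

/-- **The invariance of the multiplicities.** -/
theorem mult_good {k₀ : ℕ} (h : Good p G k₀) (L : Lev p M B P c Q) (LR : Lev p M B P c R) (hQR : Q ≤ R)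
    {ρ : IrrCharacter L.H} (hρ : ρ ∈ L.f)
    (hr : ∀ w ∈ P, Fq p M c Q (ρ : L.H → ℂ) w = 1 ∨ Fq p M c Q (ρ : L.H → ℂ) w = -1)
    {ξ : IrrCharacter LR.H} (hξ : ξ ∈ LR.f)
    (hr' : ∀ w ∈ P, Fq p M c R (ξ : LR.H → ℂ) w = 1 ∨ Fq p M c R (ξ : LR.H → ℂ) w = -1) (γ : P →* ℂˣ) :
    classInner (fun h : LR.H => extZ L.H (ρ : L.H → ℂ) (h : G)) (LR.tw (γ ^ k₀) (ξ : LR.H → ℂ)) =
      classInner (fun h : LR.H => extZ L.H (ρ : L.H → ℂ) (h : G)) (LR.tw γ (ξ : LR.H → ℂ)) := by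
  have hle : LR.H ≤ L.H := Subgroup.centralizer_le hQR
  have h1 := LR.powI_tw h γ hξ hr'
  have h2 : LR.tw (γ ^ k₀) (ξ : LR.H → ℂ) = (powI h LR.H (LR.twI γ hξ) : LR.H → ℂ) := by
    rw [h1, Lev.coe_twI]
  rw [h2]
  have h3 := L.powI_eq_self h hρ hr
  refine Lev.classInner_powI h (θ := fun h : LR.H => extZ L.H (ρ : L.H → ℂ) (h : G)) (fun x => ?_) (LR.twI γ hξ)
  have e1 := extZ_coe (H := L.H) (ρ : L.H → ℂ) ((Subgroup.inclusion hle x) ^ k₀)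
  have e2 := extZ_coe (H := L.H) (ρ : L.H → ℂ) (Subgroup.inclusion hle x)
  have e3 : ((ρ : L.H → ℂ) ((Subgroup.inclusion hle x) ^ k₀)) = (ρ : L.H → ℂ) (Subgroup.inclusion hle x) := by
    have := congrArg (fun τ : IrrCharacter L.H => (τ : L.H → ℂ) (Subgroup.inclusion hle x)) h3
    exact this
  exact e1.trans (e3.trans e2.symm)

/-- A good exponent for a power on the dual. -/
theorem exists_good_pow (hPp : IsPGroup p P) (j : ℕ) (hj : j.Coprime p) :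
    ∃ k₀ : ℕ, Good p G k₀ ∧ ∀ γ : P →* ℂˣ, γ ^ k₀ = γ ^ j := by
  obtain ⟨k₀, h1, h2, h3⟩ := exists_good_exp (G := G) (p := p) j hj
  refine ⟨k₀, ⟨h1, h2⟩, fun γ => MonoidHom.ext fun w => ?_⟩
  rw [MonoidHom.pow_apply, MonoidHom.pow_apply, ← map_pow, ← map_pow]
  congr 1
  apply Subtype.ext
  simp only [Subgroup.coe_pow]
  exact h3 _ (Cfsg.Agent.Lib.Blocks.Third.orderOf_of_mem_isPGroup hPp w.2)

end Cfsg.Agent.Lib.Dade.Fr
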