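import Mathlib

/-!
# Gluing signs on a lattice of subgroups
-/

set_option linter.unusedSectionVars false
set_option autoImplicit false

namespace Cfsg.Agent.Lib.Dade.Fr

variable {G : Type*} [Group G]

/-- The subgroup generated by a subgroup and an element. -/
abbrev sp (R : Subgroup G) (w : G) : Subgroup G := R ⊔ Subgroup.zpowers w

theorem le_sp (R : Subgroup G) (w : G) : R ≤ sp R w := le_sup_left

theorem mem_sp (R : Subgroup G) (w : G) : w ∈ sp R w := Subgroup.mem_sup_right (Subgroup.mem_zpowers w)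

theorem sp_le {R T : Subgroup G} {w : G} (h1 : R ≤ T) (h2 : w ∈ T) : sp R w ≤ T :=
  sup_le h1 ((Subgroup.zpowers_le).mpr h2)

theorem lt_sp {R : Subgroup G} {w : G} (h : w ∉ R) : R < sp R w :=
  lt_of_le_of_ne (le_sp R w) fun he => h (he ▸ mem_sp R w)

theorem sp_eq_of_mem {R : Subgroup G} {w : G} (h : w ∈ R) : sp R w = R := sup_eq_left.mpr ((Subgroup.zpowers_le).mpr h)

/-- Elements with a product in the subgroup. -/
theorem sp_eq_of_mul_mem {R : Subgroup G} {x y : G} (h : x * y ∈ R) : sp R x = sp R y := by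
  apply le_antisymm
  · refine sp_le (le_sp R y) ?_
    have e : x = (x * y) * y⁻¹ := by group
    rw [e]
    exact Subgroup.mul_mem _ (le_sp R y h) (Subgroup.inv_mem _ (mem_sp R y))
  · refine sp_le (le_sp R x) ?_
    have e : y = x⁻¹ * (x * y) := by group
    rw [e]
    exact Subgroup.mul_mem _ (Subgroup.inv_mem _ (mem_sp R x)) (le_sp R x h)

theorem sp_mul_left {R : Subgroup G} {y : G} (h : y ∈ R) (w : G) : sp R (y * w) = sp R w := by
  apply le_antisymm
  · exact sp_le (le_sp R w) (Subgroup.mul_mem _ (le_sp R w h) (mem_sp R w))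
  · refine sp_le (le_sp R _) ?_
    have h2 : y⁻¹ * (y * w) ∈ sp R (y * w) := Subgroup.mul_mem _ (le_sp R _ (Subgroup.inv_mem _ h)) (mem_sp R _)
    rwa [inv_mul_cancel_left] at h2

theorem sp_comm (R : Subgroup G) (a b : G) : sp (sp R a) b = sp (sp R b) a := sup_right_comm _ _ _

theorem sp_mul_sp (R : Subgroup G) (a b : G) : sp (sp R (a * b)) a = sp (sp R a) b := by
  apply le_antisymm
  · refine sp_le (sp_le ?_ ?_) ?_
    · exact (le_sp R a).trans (le_sp _ b)
    · exact Subgroup.mul_mem _ (le_sp _ b (mem_sp R a)) (mem_sp _ b)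
    · exact le_sp _ b (mem_sp R a)
  · refine sp_le (sp_le ?_ ?_) ?_
    · exact (le_sp R _).trans (le_sp _ a)
    · exact mem_sp _ a
    · have h2 : a⁻¹ * (a * b) ∈ sp (sp R (a * b)) a :=
        Subgroup.mul_mem _ (Subgroup.inv_mem _ (mem_sp _ a)) (le_sp _ a (mem_sp R _))
      rwa [inv_mul_cancel_left] at h2

/-- Reaching a subgroup by adding elements. -/
theorem reach [Finite G] {A : Subgroup G → Prop} {T R : Subgroup G} (hTR : T ≤ R) (hT : A T)
    (hstep : ∀ T', T ≤ T' → T' ≤ R → A T' → ∀ w ∈ R, w ∉ T' → A (sp T' w)) : A R := by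
  suffices h : ∀ (n : ℕ) (T' : Subgroup G), T ≤ T' → T' ≤ R → A T' → Nat.card R - Nat.card T' = n → A R from
    h _ T le_rfl hTR hT rfl
  intro n
  induction n using Nat.strong_induction_on with
  | _ n ih =>
    intro T' h1 h2 h3 h4
    by_cases he : T' = R
    · rwa [he] at h3
    obtain ⟨w, hw, hw'⟩ := SetLike.exists_of_lt (lt_of_le_of_ne h2 he)
    have hlt : T' < sp T' w := lt_sp hw'
    have hle : sp T' w ≤ R := sp_le h2 hw
    have hc1 : Nat.card T' < Nat.card (sp T' w : Subgroup G) := by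
      refine lt_of_le_of_ne (Subgroup.card_le_of_le hlt.le) ?_
      intro hc
      exact hlt.ne (Subgroup.eq_of_le_of_card_ge hlt.le hc.ge)
    have hc2 : Nat.card (sp T' w : Subgroup G) ≤ Nat.card R := Subgroup.card_le_of_le hle
    exact ih (Nat.card R - Nat.card (sp T' w : Subgroup G)) (by omega) _ (h1.trans hlt.le) hle
      (hstep T' h1 h2 h3 w hw hw') rfl

theorem units_mul_self (u : ℤˣ) : u * u = 1 := Int.units_mul_self u

theorem slot_id (A D B X Y Z W : ℤˣ) :
    A * D * B * (A * X * Y) * (A * Z * W) = A * D * B * (D * X * Z) * (D * Y * W) := by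
  calc A * D * B * (A * X * Y) * (A * Z * W) = (A * A) * (A * D * B * X * Y * Z * W) := by
        simp only [mul_comm, mul_left_comm, mul_assoc]
    _ = (D * D) * (A * D * B * X * Y * Z * W) := by rw [units_mul_self, units_mul_self]
    _ = _ := by simp only [mul_comm, mul_left_comm, mul_assoc]

section Glue

variable [Finite G] {P Q : Subgroup G}

/-- **The gluing lemma.** -/
theorem glue (hab : ∀ x ∈ P, ∀ y ∈ P, x * y = y * x) (hQP : Q ≤ P) (hlt : ∃ w ∈ P, w ∉ Q) (C : Subgroup G → ℤˣ)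
    (hE : ∀ R : Subgroup G, Q < R → R ≤ P → ∀ a ∈ P, ∀ b ∈ P, C (sp R a) * C (sp R b) * C (sp R (a * b)) = C R) :
    ∃ (t : ℤˣ) (τ : P →* ℤˣ), (∀ w : P, (w : G) ∉ Q → τ w = C (sp Q w) * t) ∧ (∀ w : P, (w : G) ∈ Q → τ w = 1) ∧
      ((∀ a ∈ P, ∀ b ∈ P, a ∉ Q → b ∉ Q → a * b ∈ Q) → t = 1) := by
  classical
  letI : CommGroup P := { (inferInstance : Group P) with mul_comm := fun u v => Subtype.ext (hab _ u.2 _ v.2) }
  let c : P → ℤˣ := fun w => C (sp Q (w : G))
  have hcmul : ∀ {x y : P}, ((x * y : P) : G) ∈ Q → c x = c y := fun h => by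
    simp only [c]
    rw [sp_eq_of_mul_mem h]
  have hcmm : ∀ {y : P}, (y : G) ∈ Q → ∀ w : P, c (y * w) = c w := fun h w => by
    simp only [c]
    exact congrArg C (sp_mul_left h (w : G))
  have hmQ : ∀ {x y : P}, (x : G) ∈ Q → (y : G) ∈ Q → ((x * y : P) : G) ∈ Q := fun h1 h2 => Q.mul_mem h1 h2
  have hcom : ∀ x y : P, x * y = y * x := mul_comm
  have hRa : ∀ {a : P}, (a : G) ∉ Q → Q < sp Q (a : G) ∧ sp Q (a : G) ≤ P := fun {a} h2 => ⟨lt_sp h2, sp_le hQP a.2⟩
  -- the first slot rule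
  have hslot : ∀ {a b d : P}, (a : G) ∉ Q → (b : G) ∉ Q → (d : G) ∉ Q → ((a * b : P) : G) ∉ Q → ((a * d : P) : G) ∉ Q →
      c a * c b * c (a * b) = c a * c d * c (a * d) := by
    intro a b d ha' hb' hd' hab' had'
    have e1 := hE _ (hRa ha').1 (hRa ha').2 b b.2 d d.2
    have e2 := hE _ (hRa hb').1 (hRa hb').2 a a.2 d d.2
    have e3 := hE _ (hRa hab').1 (hRa hab').2 a a.2 d d.2
    have e4 := hE _ (hRa hd').1 (hRa hd').2 a a.2 b b.2
    have e5 := hE _ (hRa had').1 (hRa had').2 a a.2 b b.2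
    -- the identifications
    have i1 : sp (sp Q (b : G)) (a : G) = sp (sp Q (a : G)) (b : G) := sp_comm _ _ _
    have i2 : sp (sp Q ((a * b : P) : G)) (a : G) = sp (sp Q (a : G)) (b : G) := sp_mul_sp _ _ _
    have i3 : sp (sp Q (d : G)) (a : G) = sp (sp Q (a : G)) (d : G) := sp_comm _ _ _
    have i4 : sp (sp Q ((a * d : P) : G)) (a : G) = sp (sp Q (a : G)) (d : G) := sp_mul_sp _ _ _
    have i5 : sp (sp Q (d : G)) (b : G) = sp (sp Q (b : G)) (d : G) := sp_comm _ _ _
    have i6 : sp (sp Q ((a * d : P) : G)) (b : G) = sp (sp Q (b : G)) ((a * d : P) : G) := sp_comm _ _ _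
    have i7 : sp (sp Q (d : G)) ((a * b : P) : G) = sp (sp Q ((a * b : P) : G)) (d : G) := sp_comm _ _ _
    have i8 : sp (sp Q ((a * d : P) : G)) ((a * b : P) : G) = sp (sp Q ((a * b : P) : G)) ((a * d : P) : G) := sp_comm _ _ _
    change C (sp (sp Q (a : G)) (b : G)) * C (sp (sp Q (a : G)) (d : G)) * C (sp (sp Q (a : G)) ((b : G) * d)) = c a at e1
    change C (sp (sp Q (b : G)) (a : G)) * C (sp (sp Q (b : G)) (d : G)) * C (sp (sp Q (b : G)) ((a : G) * d)) = c b at e2
    change C (sp (sp Q ((a * b : P) : G)) (a : G)) * C (sp (sp Q ((a * b : P) : G)) (d : G)) *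
      C (sp (sp Q ((a * b : P) : G)) ((a : G) * d)) = c (a * b) at e3
    change C (sp (sp Q (d : G)) (a : G)) * C (sp (sp Q (d : G)) (b : G)) * C (sp (sp Q (d : G)) ((a : G) * b)) = c d at e4
    change C (sp (sp Q ((a * d : P) : G)) (a : G)) * C (sp (sp Q ((a * d : P) : G)) (b : G)) *
      C (sp (sp Q ((a * d : P) : G)) ((a : G) * b)) = c (a * d) at e5
    change _ * _ * C (sp (sp Q ((a * d : P) : G)) ((a * b : P) : G)) = _ at e5
    change _ * _ * C (sp (sp Q (d : G)) ((a * b : P) : G)) = _ at e4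
    change _ * _ * C (sp (sp Q ((a * b : P) : G)) ((a * d : P) : G)) = _ at e3
    change _ * _ * C (sp (sp Q (b : G)) ((a * d : P) : G)) = _ at e2
    rw [i1] at e2
    rw [i2] at e3
    rw [i3, i5, i7] at e4
    rw [i4, i6, i8] at e5
    rw [← e1, ← e2, ← e3, ← e4, ← e5]
    exact slot_id _ _ _ _ _ _ _
  have hsym : ∀ a b : P, c a * c b * c (a * b) = c b * c a * c (b * a) := fun a b => by
    rw [hcom b a, mul_comm (c a)]
  -- independence
  have hconn : ∀ {a b a' b' : P}, (a : G) ∉ Q → (b : G) ∉ Q → ((a * b : P) : G) ∉ Q → (a' : G) ∉ Q → (b' : G) ∉ Q →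
      ((a' * b' : P) : G) ∉ Q → c a * c b * c (a * b) = c a' * c b' * c (a' * b') := by
    intro a b a' b' ha hb hab' ha' hb' hab2
    by_cases h1 : ((a * a' : P) : G) ∈ Q
    · by_cases h2 : ((a * b' : P) : G) ∈ Q
      · have e1 : c a = c a' := hcmul h1
        have e2 : c a = c b' := hcmul h2
        have e3 : a' * b' * (a * a) = (a * a') * (a * b') := by
          simp only [mul_comm, mul_left_comm, mul_assoc]
        have h3 : ((a * a : P) : G) ∉ Q := by
          intro h
          apply hab2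
          have h4 : ((a' * b' * (a * a) : P) : G) ∈ Q := by
            rw [e3]
            exact hmQ h1 h2
          have h5 : ((a' * b' : P) : G) * ((a * a : P) : G) ∈ Q := h4
          exact (Subgroup.mul_mem_cancel_right _ h).mp h5
        have e4 : c (a' * b') = c (a * a) := hcmul (by
          rw [e3]
          exact hmQ h1 h2)
        rw [hslot ha hb ha hab' h3, ← e1, ← e2, e4]
      · have hc1 : ((b' * a : P) : G) ∉ Q := by rwa [hcom]
        have hc2 : ((b' * a' : P) : G) ∉ Q := by rwa [hcom]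
        rw [hslot ha hb hb' hab' h2, hsym a b', hslot hb' ha ha' hc1 hc2, hsym b' a']
    · have hc1 : ((a' * a : P) : G) ∉ Q := by rwa [hcom]
      rw [hslot ha hb ha' hab' h1, hsym a a', hslot ha' ha hb' hc1 hab2]
  -- the sign
  have ht : ∃ t : ℤˣ, (∀ u v : P, (u : G) ∉ Q → (v : G) ∉ Q → ((u * v : P) : G) ∉ Q → c u * c v * c (u * v) = t) ∧
      ((∀ a ∈ P, ∀ b ∈ P, a ∉ Q → b ∉ Q → a * b ∈ Q) → t = 1) := by
    by_cases hv : ∃ a b : P, (a : G) ∉ Q ∧ (b : G) ∉ Q ∧ ((a * b : P) : G) ∉ Q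
    · obtain ⟨a, b, h1, h2, h3⟩ := hv
      exact ⟨_, fun u v hu hv huv => hconn hu hv huv h1 h2 h3, fun h => absurd (h _ a.2 _ b.2 h1 h2) h3⟩
    · refine ⟨1, fun u v hu hv' huv => absurd ⟨u, v, hu, hv', huv⟩ hv, fun _ => rfl⟩
  obtain ⟨t, ht1, ht2⟩ := ht
  let f : P → ℤˣ := fun w => if (w : G) ∈ Q then 1 else c w * t
  have hf : ∀ u v : P, f (u * v) = f u * f v := by
    intro u v
    simp only [f]
    by_cases hu : (u : G) ∈ Q
    · by_cases hv : (v : G) ∈ Q
      · rw [if_pos hu, if_pos hv, if_pos (hmQ hu hv), one_mul]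
      · have huv : ((u * v : P) : G) ∉ Q := fun h => hv ((Subgroup.mul_mem_cancel_left _ hu).mp h)
        rw [if_pos hu, if_neg hv, if_neg huv, one_mul, hcmm hu]
    · by_cases hv : (v : G) ∈ Q
      · have huv : ((u * v : P) : G) ∉ Q := fun h => hu ((Subgroup.mul_mem_cancel_right _ hv).mp h)
        rw [if_neg hu, if_pos hv, if_neg huv, mul_one, hcom u v, hcmm hv]
      · by_cases huv : ((u * v : P) : G) ∈ Q
        · rw [if_neg hu, if_neg hv, if_pos huv, hcmul huv]
          calc (1 : ℤˣ) = (c v * c v) * (t * t) := by rw [units_mul_self, units_mul_self, one_mul]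
            _ = _ := by simp only [mul_comm, mul_left_comm, mul_assoc]
        · rw [if_neg hu, if_neg hv, if_neg huv, ← ht1 u v hu hv huv]
          calc c (u * v) * (c u * c v * c (u * v)) = (c (u * v) * c (u * v)) * (c u * c v) := by
                simp only [mul_comm, mul_left_comm, mul_assoc]
            _ = c u * c v := by rw [units_mul_self, one_mul]
            _ = (c u * c v) * ((c u * c v * c (u * v)) * (c u * c v * c (u * v))) := by
                rw [units_mul_self, mul_one]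
            _ = _ := by simp only [mul_comm, mul_left_comm, mul_assoc]
  refine ⟨t, MonoidHom.mk' f hf, fun w hw => ?_, fun w hw => ?_, ht2⟩
  · change f w = _
    simp only [f, if_neg hw]
    rfl
  · change f w = _
    simp only [f, if_pos hw]

end Glue

end Cfsg.Agent.Lib.Dade.Fr
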