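import Mathlib

/-!
# A congruence modulo four for Galois-stable combinations of characters of a finite commutative `2`-group
-/

set_option linter.unusedSectionVars false
set_option autoImplicit false

namespace Cfsg.Agent.Lib.Dade.Fr.T4

/-- The free Klein lemma: a sum of an invariant function over a set with a free action of the Klein group is divisible
by `4`. -/
theorem klein {X : Type*} [DecidableEq X] (σ τ : X → X) (f : X → ℤ) :
    ∀ (n : ℕ) (S : Finset X), S.card = n → (∀ x ∈ S, σ x ∈ S ∧ τ x ∈ S) →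
      (∀ x ∈ S, σ (σ x) = x ∧ τ (τ x) = x ∧ σ (τ x) = τ (σ x) ∧ σ x ≠ x ∧ τ x ≠ x ∧ σ x ≠ τ x) →
      (∀ x ∈ S, f (σ x) = f x ∧ f (τ x) = f x) → (4 : ℤ) ∣ ∑ x ∈ S, f x := by
  intro n
  induction n using Nat.strong_induction_on with
  | _ n ih =>
    intro S hn hst hS hf
    rcases S.eq_empty_or_nonempty with rfl | ⟨x, hx⟩
    · simp
    obtain ⟨h1, h2, h3, h4, h5, h6⟩ := hS x hx
    obtain ⟨hs, ht⟩ := hst x hx
    have hst' := hst _ ht
    have hf1 := hf x hx
    have hf2 := hf _ ht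
    obtain ⟨h1', h2', h3', h4', h5', h6'⟩ := hS _ ht
    have hst2 := hst _ hs
    obtain ⟨h1'', h2'', h3'', h4'', h5'', h6''⟩ := hS _ hs
    -- the four elements
    let y := σ (τ x)
    have hy : y ∈ S := hst'.1
    have hne1 : y ≠ x := by
      intro h
      apply h6
      have : σ (σ (τ x)) = σ x := congrArg σ h
      rw [h1'] at this
      exact this.symm
    have hne2 : y ≠ σ x := by
      intro h
      apply h5
      have : σ (σ (τ x)) = σ (σ x) := congrArg σ h
      rwa [h1', h1] at this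
    have hne3 : y ≠ τ x := h4'
    set T : Finset X := {x, σ x, τ x, y} with hT
    have hTS : T ⊆ S := by
      intro z hz
      simp only [hT, Finset.mem_insert, Finset.mem_singleton] at hz
      rcases hz with rfl | rfl | rfl | rfl
      · exact hx
      · exact hs
      · exact ht
      · exact hy
    have hTc : T.card = 4 := by
      rw [hT, Finset.card_insert_of_notMem, Finset.card_insert_of_notMem, Finset.card_insert_of_notMem,
        Finset.card_singleton]
      · simp only [Finset.mem_singleton]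
        exact fun h => hne3 h.symm
      · simp only [Finset.mem_insert, Finset.mem_singleton, not_or]
        exact ⟨h6, fun h => hne2 h.symm⟩
      · simp only [Finset.mem_insert, Finset.mem_singleton, not_or]
        exact ⟨fun h => h4 h.symm, fun h => h5 h.symm, fun h => hne1 h.symm⟩
    have hsum : ∑ z ∈ S, f z = ∑ z ∈ S \ T, f z + ∑ z ∈ T, f z := (Finset.sum_sdiff hTS).symm
    have hsumT : ∑ z ∈ T, f z = 4 * f x := by
      rw [hT, Finset.sum_insert, Finset.sum_insert, Finset.sum_insert, Finset.sum_singleton]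
      · have e1 : f (σ x) = f x := hf1.1
        have e2 : f (τ x) = f x := hf1.2
        have e3 : f y = f x := by
          change f (σ (τ x)) = f x
          rw [hf2.1, e2]
        rw [e1, e2, e3]
        ring
      · simp only [Finset.mem_singleton]
        exact fun h => hne3 h.symm
      · simp only [Finset.mem_insert, Finset.mem_singleton, not_or]
        exact ⟨h6, fun h => hne2 h.symm⟩
      · simp only [Finset.mem_insert, Finset.mem_singleton, not_or]
        exact ⟨fun h => h4 h.symm, fun h => h5 h.symm, fun h => hne1 h.symm⟩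
    rw [hsum, hsumT]
    refine dvd_add ?_ (dvd_mul_right _ _)
    have hcard : (S \ T).card < n := by
      rw [Finset.card_sdiff_of_subset hTS, hTc, hn]
      have : T.card ≤ S.card := Finset.card_le_card hTS
      omega
    -- the complement is stable
    have hcomp : ∀ z ∈ S \ T, σ z ∈ S \ T ∧ τ z ∈ S \ T := by
      intro z hz
      obtain ⟨hzS, hzT⟩ := Finset.mem_sdiff.mp hz
      obtain ⟨hz1, hz2, hz3, -, -, -⟩ := hS z hzS
      simp only [hT, Finset.mem_insert, Finset.mem_singleton, not_or] at hzT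
      obtain ⟨n1, n2, n3, n4⟩ := hzT
      refine ⟨Finset.mem_sdiff.mpr ⟨(hst z hzS).1, ?_⟩, Finset.mem_sdiff.mpr ⟨(hst z hzS).2, ?_⟩⟩
      · simp only [hT, Finset.mem_insert, Finset.mem_singleton, not_or]
        refine ⟨fun h => n2 ?_, fun h => n1 ?_, fun h => n4 ?_, fun h => n3 ?_⟩
        · have := congrArg σ h
          rwa [hz1] at this
        · have := congrArg σ h
          rwa [hz1, h1] at this
        · have := congrArg σ h
          rwa [hz1] at this
        · have := congrArg σ h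
          rw [hz1] at this
          change z = σ (σ (τ x)) at this
          rwa [h1'] at this
      · simp only [hT, Finset.mem_insert, Finset.mem_singleton, not_or]
        refine ⟨fun h => n3 ?_, fun h => n4 ?_, fun h => n1 ?_, fun h => n2 ?_⟩
        · have := congrArg τ h
          rwa [hz2] at this
        · have := congrArg τ h
          rw [hz2, ← h3] at this
          exact this
        · have := congrArg τ h
          rwa [hz2, h2] at this
        · have := congrArg τ h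
          rw [hz2] at this
          change z = τ (σ (τ x)) at this
          rwa [← h3', h2] at this
    exact ih _ hcard _ rfl hcomp
      (fun z hz => hS z (Finset.mem_sdiff.mp hz).1) (fun z hz => hf z (Finset.mem_sdiff.mp hz).1)

/-- A sum of an invariant function over a set with a free involution is even. -/
theorem sum_even {X : Type*} (σ : X → X) (f : X → ℤ) (S : Finset X) (hst : ∀ x ∈ S, σ x ∈ S)
    (hinv : ∀ x ∈ S, σ (σ x) = x) (hne : ∀ x ∈ S, σ x ≠ x) (hf : ∀ x ∈ S, f (σ x) = f x) :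
    (2 : ℤ) ∣ ∑ x ∈ S, f x := by
  have h1 : ((∑ x ∈ S, f x : ℤ) : ZMod 2) = 0 := by
    push_cast
    refine Finset.sum_involution (fun x _ => σ x) ?_ ?_ ?_ ?_
    · intro x hx
      rw [hf x hx]
      have : ∀ a : ZMod 2, a + a = 0 := by decide
      exact this _
    · intro x hx _ h
      exact hne x hx h
    · intro x hx
      exact hst x hx
    · intro x hx
      exact hinv x hx
  exact (ZMod.intCast_zmod_eq_zero_iff_dvd _ 2).mp h1

/-- The sign of a unit: `1` at `1`, `-1` at `-1` and `0` elsewhere. -/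
noncomputable def cc (z : ℂˣ) : ℤ := open Classical in if z = 1 then 1 else if z = -1 then -1 else 0

@[simp] theorem cc_one : cc 1 = 1 := by simp [cc]

@[simp] theorem cc_neg_one : cc (-1) = -1 := by
  have h : (-1 : ℂˣ) ≠ 1 := by
    intro h
    have := congrArg Units.val h
    norm_num at this
  simp [cc, h]

theorem cc_of_ne {z : ℂˣ} (h1 : z ≠ 1) (h2 : z ≠ -1) : cc z = 0 := by simp [cc, h1, h2]

theorem sq_eq_one_units {z : ℂˣ} (h : z * z = 1) : z = 1 ∨ z = -1 := by
  have h1 : (z : ℂ) * z = 1 := by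
    have := congrArg Units.val h
    simpa using this
  rcases mul_self_eq_one_iff.mp h1 with h2 | h2
  · exact Or.inl (Units.ext h2)
  · exact Or.inr (Units.ext (by simpa using h2))

/-- Odd powers of a root of unity of `2`-power order. -/
theorem pow_eq_one_iff_odd {z : ℂˣ} {n j : ℕ} (hz : z ^ 2 ^ n = 1) (hj : Odd j) : z ^ j = 1 ↔ z = 1 := by
  constructor
  · intro h
    have h1 : orderOf z ∣ j := orderOf_dvd_of_pow_eq_one h
    have h2 : orderOf z ∣ 2 ^ n := orderOf_dvd_of_pow_eq_one hz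
    have h3 : Nat.Coprime (2 ^ n) j := Nat.Coprime.pow_left n (Nat.coprime_two_left.mpr hj)
    have h4 : orderOf z = 1 := Nat.eq_one_of_dvd_coprimes h3 h2 h1
    exact orderOf_eq_one_iff.mp h4
  · rintro rfl
    simp

theorem cc_pow_odd {z : ℂˣ} {n j : ℕ} (hz : z ^ 2 ^ n = 1) (hj : Odd j) : cc (z ^ j) = cc z := by
  by_cases h1 : z = 1
  · subst h1
    simp
  by_cases h2 : z = -1
  · subst h2
    rw [hj.neg_one_pow]
  rw [cc_of_ne h1 h2]
  apply cc_of_ne
  · exact fun h => h1 ((pow_eq_one_iff_odd hz hj).mp h)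
  · intro h
    have h3 : (z * z) ^ j = 1 := by
      rw [mul_pow, h]
      simp
    have h4 : (z * z) ^ 2 ^ n = 1 := by
      rw [mul_pow, hz, one_mul]
    have h5 := (pow_eq_one_iff_odd h4 hj).mp h3
    rcases sq_eq_one_units h5 with h6 | h6
    · exact h1 h6
    · exact h2 h6

theorem cc_inv (z : ℂˣ) : cc z⁻¹ = cc z := by
  by_cases h1 : z = 1
  · subst h1
    simp
  by_cases h2 : z = -1
  · subst h2
    simp
  rw [cc_of_ne h1 h2, cc_of_ne]
  · intro h
    exact h1 (inv_eq_one.mp h)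
  · intro h
    apply h2
    have := congrArg (·⁻¹) h
    simpa using this

/-- The geometric sum. -/
theorem sum_odd_pow {z : ℂˣ} {n : ℕ} (hz : z ^ 2 ^ n = 1) :
    ∑ i ∈ Finset.range (2 ^ n), ((z : ℂ)) ^ (2 * i + 1) = ((2 ^ n : ℕ) : ℂ) * (cc z : ℂ) := by
  have hz' : (z : ℂ) ^ 2 ^ n = 1 := by
    have := congrArg Units.val hz
    simpa using this
  by_cases h1 : z = 1
  · subst h1
    simp
  by_cases h2 : z = -1
  · subst h2
    have : ∀ i : ℕ, (((-1 : ℂˣ) : ℂˣ) : ℂ) ^ (2 * i + 1) = -1 := by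
      intro i
      simp [pow_succ, pow_mul]
    simp only [this]
    simp
  rw [cc_of_ne h1 h2]
  simp only [Int.cast_zero, mul_zero]
  have h3 : (z : ℂ) * z ≠ 1 := by
    intro h
    rcases sq_eq_one_units (z := z) (Units.ext (by simpa using h)) with h4 | h4
    · exact h1 h4
    · exact h2 h4
  have h4 : ∀ i : ℕ, (z : ℂ) ^ (2 * i + 1) = (z : ℂ) * ((z : ℂ) * z) ^ i := by
    intro i
    rw [pow_succ, pow_mul, pow_two, mul_comm]
  simp only [h4]
  rw [← Finset.mul_sum]
  have h5 := geom_sum_mul ((z : ℂ) * z) (2 ^ n)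
  have h6 : (((z : ℂ) * z) ^ 2 ^ n) = 1 := by
    rw [mul_pow, hz', one_mul]
  rw [h6, sub_self] at h5
  rcases mul_eq_zero.mp h5 with h7 | h7
  · rw [h7, mul_zero]
  · exact absurd (sub_eq_zero.mp h7) h3

/-- The combinatorial core of the congruence modulo four. -/
theorem core {A : Type*} [CommGroup A] [Fintype A] {n : ℕ} (hexp : ∀ x : A, x ^ 2 ^ n = 1) (f : A → ℤ)
    (hinv : ∀ j : ℕ, Odd j → ∀ x : A, f (x ^ j) = f x) (h4 : ∀ x : A, x * x = 1 → (4 : ℤ) ∣ f x)
    (h2' : ∀ x : A, (x * x) * (x * x) = 1 → (2 : ℤ) ∣ f x) : (4 : ℤ) ∣ ∑ x : A, f x := by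
  classical
  have hfinv : ∀ γ : A, f γ⁻¹ = f γ := by
    intro γ
    have hodd : Odd (2 ^ n * 2 - 1) := by
      have : 2 ^ n * 2 - 1 = 2 * (2 ^ n - 1) + 1 := by
        have : 0 < 2 ^ n := by positivity
        omega
      rw [this]
      exact odd_two_mul_add_one _
    rw [← hinv _ hodd γ]
    congr 1
    apply inv_eq_of_mul_eq_one_left
    rw [← pow_succ, Nat.sub_add_cancel (Nat.mul_pos (by positivity) two_pos), pow_mul, hexp, one_pow]
  -- the partition
  let A₁ : Finset A := Finset.univ.filter fun γ => γ * γ = 1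
  let A₂ : Finset A := Finset.univ.filter fun γ => γ * γ ≠ 1 ∧ (γ * γ) * (γ * γ) = 1
  let A₃ : Finset A := Finset.univ.filter fun γ => (γ * γ) * (γ * γ) ≠ 1
  have hsplit : ∑ γ : A, f γ = ∑ γ ∈ A₁, f γ + ∑ γ ∈ A₂, f γ + ∑ γ ∈ A₃, f γ := by
    have h1 : ∀ γ : A, f γ = (if γ * γ = 1 then f γ else 0) +
        (if γ * γ ≠ 1 ∧ (γ * γ) * (γ * γ) = 1 then f γ else 0) + (if (γ * γ) * (γ * γ) ≠ 1 then f γ else 0) := by
      intro γ
      by_cases h2 : γ * γ = 1
      · simp [h2]
      · by_cases h3 : (γ * γ) * (γ * γ) = 1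
        · simp [h2, h3]
        · simp [h2, h3]
    simp only [A₁, A₂, A₃, Finset.sum_filter]
    rw [← Finset.sum_add_distrib, ← Finset.sum_add_distrib]
    exact Finset.sum_congr rfl fun γ _ => h1 γ
  rw [hsplit]
  refine dvd_add (dvd_add ?_ ?_) ?_
  · refine Finset.dvd_sum fun γ hγ => ?_
    exact h4 γ (Finset.mem_filter.mp hγ).2
  · -- order four
    have h2 : ∀ γ ∈ A₂, ∃ b : ℤ, f γ = 2 * b := fun γ hγ => h2' γ (Finset.mem_filter.mp hγ).2.2
    choose! b hb using h2
    have h3 : ∑ γ ∈ A₂, f γ = 2 * ∑ γ ∈ A₂, b γ := by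
      rw [Finset.mul_sum]
      exact Finset.sum_congr rfl fun γ hγ => hb γ hγ
    rw [h3]
    have hA₂ : ∀ γ ∈ A₂, γ⁻¹ ∈ A₂ := by
      intro γ hγ
      obtain ⟨-, h4, h5⟩ := Finset.mem_filter.mp hγ
      refine Finset.mem_filter.mpr ⟨Finset.mem_univ _, ?_, ?_⟩
      · intro h
        apply h4
        rw [← mul_inv_rev, inv_eq_one] at h
        exact h
      · rw [← mul_inv_rev, ← mul_inv_rev, inv_eq_one]
        exact h5
    have h4 : (2 : ℤ) ∣ ∑ γ ∈ A₂, b γ := by
      refine sum_even (fun γ => γ⁻¹) _ A₂ hA₂ (fun γ _ => inv_inv γ) ?_ ?_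
      · intro γ hγ h
        apply (Finset.mem_filter.mp hγ).2.1
        nth_rw 1 [← h]
        exact inv_mul_cancel γ
      · intro γ hγ
        have h5 := hb _ (hA₂ γ hγ)
        rw [hfinv, hb γ hγ] at h5
        omega
    obtain ⟨d, hd⟩ := h4
    rw [hd]
    exact ⟨d, by ring⟩
  · -- the rest
    have e4 : ∀ γ : A, (γ * γ) * (γ * γ) = γ ^ 4 := fun γ => by
      simp only [pow_succ, pow_zero, one_mul, mul_assoc]
    have hord : ∀ γ ∈ A₃, ∃ k : ℕ, orderOf γ = 2 ^ (k + 3) := by
      intro γ hγ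
      have h4 : orderOf γ ∣ 2 ^ n := orderOf_dvd_of_pow_eq_one (hexp γ)
      obtain ⟨k, -, hk⟩ := (Nat.dvd_prime_pow Nat.prime_two).mp h4
      have hk3 : 3 ≤ k := by
        by_contra hlt
        have h5 : 2 ^ k ∣ 4 := by
          have : k ≤ 2 := by omega
          exact pow_dvd_pow 2 this
        have h6 : γ ^ 4 = 1 := by
          apply orderOf_dvd_iff_pow_eq_one.mp
          rw [hk]
          exact h5
        apply (Finset.mem_filter.mp hγ).2
        rw [e4, h6]
      obtain ⟨k', rfl⟩ := Nat.exists_eq_add_of_le' hk3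
      exact ⟨k', hk⟩
    let τ : A → A := fun γ => γ ^ (1 + orderOf γ / 2)
    have hτodd : ∀ γ ∈ A₃, Odd (1 + orderOf γ / 2) := by
      intro γ hγ
      obtain ⟨k, hk⟩ := hord γ hγ
      rw [hk]
      have : 2 ^ (k + 3) / 2 = 2 * 2 ^ (k + 1) := by
        rw [pow_succ, pow_succ, pow_succ]
        omega
      rw [this, add_comm]
      exact odd_two_mul_add_one _
    have hτord : ∀ γ ∈ A₃, orderOf (τ γ) = orderOf γ := by
      intro γ hγ
      refine Nat.Coprime.orderOf_pow ?_
      obtain ⟨k, hk⟩ := hord γ hγ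
      have h5 := hτodd γ hγ
      rw [hk] at h5 ⊢
      exact Nat.Coprime.pow_left _ (Nat.coprime_two_left.mpr h5)
    have hA₃ord : ∀ γ : A, 8 ∣ orderOf γ → γ ∈ A₃ := by
      intro γ h
      refine Finset.mem_filter.mpr ⟨Finset.mem_univ _, fun h1 => ?_⟩
      rw [e4] at h1
      have h2 := orderOf_dvd_of_pow_eq_one h1
      have h3 := h.trans h2
      norm_num at h3
    have h8 : ∀ γ ∈ A₃, 8 ∣ orderOf γ := by
      intro γ hγ
      obtain ⟨k, hk⟩ := hord γ hγ
      rw [hk]
      exact ⟨2 ^ k, by rw [pow_add]; ring⟩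
    refine klein (fun γ => γ⁻¹) τ f _ A₃ rfl ?_ ?_ ?_
    · intro γ hγ
      refine ⟨hA₃ord _ ?_, hA₃ord _ ?_⟩
      · rw [orderOf_inv]
        exact h8 γ hγ
      · rw [hτord γ hγ]
        exact h8 γ hγ
    · intro γ hγ
      obtain ⟨k, hk⟩ := hord γ hγ
      have hhalf : orderOf γ / 2 = 4 * 2 ^ k := by
        rw [hk, pow_add]
        omega
      have ho : orderOf γ = 8 * 2 ^ k := by
        rw [hk, pow_add]
        ring
      have hpow : γ ^ orderOf γ = 1 := pow_orderOf_eq_one γ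
      have hne : ∀ m : ℕ, 0 < m → m < orderOf γ → γ ^ m ≠ 1 := fun m h0 h1 h =>
        pow_ne_one_of_lt_orderOf h0.ne' h1 h
      have hP : 0 < 2 ^ k := by positivity
      refine ⟨inv_inv γ, ?_, ?_, ?_, ?_, ?_⟩
      · simp only [τ]
        rw [hτord γ hγ, ← pow_mul, hhalf]
        have e : (1 + 4 * 2 ^ k) * (1 + 4 * 2 ^ k) = 1 + orderOf γ * (1 + 2 * 2 ^ k) := by
          rw [ho]
          ring
        rw [e, pow_add, pow_mul, hpow, one_pow, pow_one, mul_one]
      · simp only [τ]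
        rw [orderOf_inv, inv_pow]
      · intro h
        have h2 : γ * γ = 1 := by
          nth_rw 1 [← h]
          exact inv_mul_cancel γ
        have h3 : γ ^ 2 = 1 := by rw [pow_two, h2]
        exact hne 2 (by norm_num) (by omega) h3
      · intro h
        simp only [τ] at h
        rw [hhalf, pow_add, pow_one] at h
        have h3 : γ ^ (4 * 2 ^ k) = 1 := mul_eq_left.mp h
        exact hne _ (by omega) (by omega) h3
      · intro h
        simp only [τ] at h
        rw [hhalf] at h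
        have h3 : γ ^ (2 + 4 * 2 ^ k) = 1 := by
          have e : 2 + 4 * 2 ^ k = (1 + 4 * 2 ^ k) + 1 := by ring
          rw [e, pow_succ, ← h, inv_mul_cancel]
        exact hne _ (by omega) (by omega) h3
    · intro γ hγ
      exact ⟨hfinv γ, hinv _ (hτodd γ hγ) γ⟩

section Main

variable {V : Type*} [Group V] [Fintype V] [Fintype (V →* ℂˣ)]

theorem card_dual (hcomm : ∀ a b : V, a * b = b * a) {n : ℕ} (hcard : Nat.card V = 2 ^ n) : Nat.card (V →* ℂˣ) = 2 ^ n := by
  letI : CommGroup V := { (inferInstance : Group V) with mul_comm := hcomm }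
  have hne : NeZero (Monoid.exponent V) := ⟨Monoid.exponent_ne_zero_of_finite⟩
  exact (CommGroup.card_monoidHom_of_hasEnoughRootsOfUnity V ℂ).trans hcard

/-- The value of a Galois-stable combination. -/
theorem sum_eq_sum_cc (hcomm : ∀ a b : V, a * b = b * a) {n : ℕ} (hcard : Nat.card V = 2 ^ n) (a : (V →* ℂˣ) → ℤ)
    (hinv : ∀ (j : ℕ) (γ : V →* ℂˣ), Odd j → a (γ ^ j) = a γ) (v : V) :
    ∑ γ : V →* ℂˣ, (a γ : ℂ) * ((γ v : ℂˣ) : ℂ) = ∑ γ : V →* ℂˣ, (a γ : ℂ) * (cc (γ v) : ℂ) := by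
  classical
  have hN : ((2 ^ n : ℕ) : ℂ) ≠ 0 := Nat.cast_ne_zero.mpr (pow_ne_zero _ two_ne_zero)
  have hzv : ∀ γ : V →* ℂˣ, (γ v) ^ 2 ^ n = 1 := by
    intro γ
    rw [← map_pow, ← hcard, pow_card_eq_one', map_one]
  have hcardD : Nat.card (V →* ℂˣ) = 2 ^ n := card_dual hcomm hcard
  have h1 : ∀ i : ℕ, ∑ γ : V →* ℂˣ, (a γ : ℂ) * ((γ v : ℂˣ) : ℂ) ^ (2 * i + 1) =
      ∑ γ : V →* ℂˣ, (a γ : ℂ) * ((γ v : ℂˣ) : ℂ) := by
    intro i
    have hodd : Odd (2 * i + 1) := odd_two_mul_add_one i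
    have hcop : Nat.Coprime (Nat.card (V →* ℂˣ)) (2 * i + 1) := by
      rw [hcardD]
      exact Nat.Coprime.pow_left n (Nat.coprime_two_left.mpr hodd)
    refine Fintype.sum_equiv (powCoprime hcop) _ _ fun γ => ?_
    rw [powCoprime_apply, hinv _ _ hodd]
    congr 1
  have h2 : ((2 ^ n : ℕ) : ℂ) * ∑ γ : V →* ℂˣ, (a γ : ℂ) * ((γ v : ℂˣ) : ℂ) =
      ((2 ^ n : ℕ) : ℂ) * ∑ γ : V →* ℂˣ, (a γ : ℂ) * (cc (γ v) : ℂ) := by
    have h3 : ((2 ^ n : ℕ) : ℂ) * ∑ γ : V →* ℂˣ, (a γ : ℂ) * ((γ v : ℂˣ) : ℂ) =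
        ∑ i ∈ Finset.range (2 ^ n), ∑ γ : V →* ℂˣ, (a γ : ℂ) * ((γ v : ℂˣ) : ℂ) ^ (2 * i + 1) := by
      simp only [h1]
      rw [Finset.sum_const, Finset.card_range, nsmul_eq_mul]
    rw [h3, Finset.sum_comm, Finset.mul_sum]
    refine Finset.sum_congr rfl fun γ _ => ?_
    rw [← Finset.mul_sum, sum_odd_pow (hzv γ)]
    ring
  exact mul_left_cancel₀ hN h2

/-- The coefficient in the mod four relation. -/
noncomputable def cf (u v : V) (γ : V →* ℂˣ) : ℤ := 1 - cc (γ u) - cc (γ v) + cc (γ (u * v))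

theorem cf_inv (hcomm : ∀ a b : V, a * b = b * a) (u v : V) (γ : V →* ℂˣ) : cf u v γ⁻¹ = cf u v γ := by
  simp only [cf, MonoidHom.inv_apply, cc_inv]

theorem cf_pow {n j : ℕ} (hcard : Nat.card V = 2 ^ n) (hj : Odd j) (u v : V) (γ : V →* ℂˣ) : cf u v (γ ^ j) = cf u v γ := by
  have hz : ∀ x : V, (γ x) ^ 2 ^ n = 1 := by
    intro x
    rw [← map_pow, ← hcard, pow_card_eq_one', map_one]
  simp only [cf, MonoidHom.pow_apply, cc_pow_odd (hz _) hj]

theorem four_dvd_of_sq (u v : V) {γ : V →* ℂˣ} (h : γ * γ = 1) : (4 : ℤ) ∣ cf u v γ := by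
  have h1 : ∀ x : V, γ x * γ x = 1 := fun x => DFunLike.congr_fun h x
  rw [cf, map_mul]
  rcases sq_eq_one_units (h1 u) with h2 | h2 <;> rcases sq_eq_one_units (h1 v) with h3 | h3 <;> rw [h2, h3] <;> simp [cc_neg_one]
  all_goals norm_num

theorem two_dvd_of_sq_sq (u v : V) {γ : V →* ℂˣ} (h : (γ * γ) * (γ * γ) = 1) : (2 : ℤ) ∣ cf u v γ := by
  have hc : ∀ z : ℂˣ, (z * z = 1 → cc z % 2 = 1) ∧ (z * z = -1 → cc z = 0) := by
    intro z
    constructor
    · intro h1
      rcases sq_eq_one_units h1 with h2 | h2 <;> rw [h2] <;> simp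
    · intro h1
      apply cc_of_ne
      · rintro rfl
        have := congrArg Units.val h1
        norm_num at this
      · rintro rfl
        have := congrArg Units.val h1
        norm_num at this
  have h1 : ∀ x : V, (γ x * γ x) * (γ x * γ x) = 1 := fun x => DFunLike.congr_fun h x
  rw [cf, map_mul]
  have hu := sq_eq_one_units (h1 u)
  have hv := sq_eq_one_units (h1 v)
  have e : (γ u * γ v) * (γ u * γ v) = (γ u * γ u) * (γ v * γ v) := by
    rw [mul_mul_mul_comm]
  rcases hu with hu | hu <;> rcases hv with hv | hv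
  · have a1 := (hc (γ u)).1 hu
    have a2 := (hc (γ v)).1 hv
    have a3 := (hc (γ u * γ v)).1 (by rw [e, hu, hv, one_mul])
    omega
  · have a1 := (hc (γ u)).1 hu
    have a2 := (hc (γ v)).2 hv
    have a3 := (hc (γ u * γ v)).2 (by rw [e, hu, hv, one_mul])
    omega
  · have a1 := (hc (γ u)).2 hu
    have a2 := (hc (γ v)).1 hv
    have a3 := (hc (γ u * γ v)).2 (by rw [e, hu, hv, mul_one])
    omega
  · have a1 := (hc (γ u)).2 hu
    have a2 := (hc (γ v)).2 hv
    have a3 := (hc (γ u * γ v)).1 (by rw [e, hu, hv]; simp)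
    omega

/-- **The congruence modulo four.** -/
theorem four_dvd (hcomm : ∀ a b : V, a * b = b * a) {n : ℕ} (hcard : Nat.card V = 2 ^ n) (a : (V →* ℂˣ) → ℤ)
    (hinv : ∀ (j : ℕ) (γ : V →* ℂˣ), Odd j → a (γ ^ j) = a γ) (u v : V) :
    (4 : ℤ) ∣ ∑ γ : V →* ℂˣ, a γ * cf u v γ := by
  have hcardD : Nat.card (V →* ℂˣ) = 2 ^ n := card_dual hcomm hcard
  refine core (A := V →* ℂˣ) (n := n) (fun γ => ?_) (fun γ => a γ * cf u v γ) (fun j hj γ => ?_) (fun γ h => ?_) (fun γ h => ?_)
  · rw [← hcardD]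
    exact pow_card_eq_one'
  · change a (γ ^ j) * cf u v (γ ^ j) = a γ * cf u v γ
    rw [hinv j γ hj, cf_pow hcard hj]
  · exact Dvd.dvd.mul_left (four_dvd_of_sq u v h) _
  · exact Dvd.dvd.mul_left (two_dvd_of_sq_sq u v h) _

end Main

end Cfsg.Agent.Lib.Dade.Fr.T4
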