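import Mathlib
import Cfsg.Agent.Lib.Dade.Fr.Gl
import Cfsg.Agent.Lib.Dade.Fr.T4
import Cfsg.Agent.Lib.Blocks.Eigen

/-!
# The inductive step for the signs
-/

set_option linter.unusedSectionVars false
set_option autoImplicit false

namespace Cfsg.Agent.Lib.Dade.Fr

open Cfsg
open Cfsg.Agent.Lib.Blocks.Local

/-- The complex number of a sign. -/
noncomputable abbrev sc (u : ℤˣ) : ℂ := ((u : ℤ) : ℂ)

theorem sc_mul (u v : ℤˣ) : sc (u * v) = sc u * sc v := by simp [sc]

theorem sc_mul_self (u : ℤˣ) : sc u * sc u = 1 := by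
  rw [← sc_mul, units_mul_self]
  simp [sc]

section Root

variable {p : ℕ} {M : Ideal AlgInt}

/-- A root of unity of `p`-power order is congruent to `1`. -/
theorem memLocal_root (hM : IsPModular p M) {z : ℂ} {n : ℕ} (hz : z ^ p ^ n = 1) : MemLocalIdeal M (z - 1) := by
  have hprime := isPrime_of_pModular hM
  have hp := prime_of_pModular hM
  haveI : Fact p.Prime := ⟨hp⟩
  have hint : IsIntegral ℤ z := by
    apply IsIntegral.of_pow (pow_pos hp.pos n)
    rw [hz]
    exact isIntegral_one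
  let ε : AlgInt := ⟨z, hint⟩
  have hε : ε ^ p ^ n = 1 := by
    apply Subtype.ext
    push_cast
    exact hz
  have h1 : ε - 1 ∈ M := by
    let q : AlgInt →+* (AlgInt ⧸ M) := Ideal.Quotient.mk M
    have hqp : ((p : ℕ) : AlgInt ⧸ M) = 0 := by
      have : q (p : AlgInt) = 0 := Ideal.Quotient.eq_zero_iff_mem.mpr (p_mem_of_pModular hM)
      simpa using this
    have hnt : Nontrivial (AlgInt ⧸ M) := Ideal.Quotient.nontrivial_iff.mpr hprime.ne_top
    haveI hchar : CharP (AlgInt ⧸ M) p := (CharP.charP_iff_prime_eq_zero hp).mpr hqp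
    haveI : IsDomain (AlgInt ⧸ M) := Ideal.Quotient.isDomain M
    have h2 : (q ε - 1) ^ p ^ n = 0 := by
      rw [sub_pow_char_pow, one_pow, ← map_pow, hε, map_one, sub_self]
    have h3 : q ε - 1 = 0 := eq_zero_of_pow_eq_zero h2
    apply Ideal.Quotient.eq_zero_iff_mem.mp
    simpa [q] using h3
  have h2 := (memLocalIdeal_coe_iff (M := M)).mpr h1
  simpa using h2

end Root

/-- The sign of an odd integer modulo four. -/
def rr (z : ℤ) : ℤˣ := if z % 4 = 1 then 1 else -1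

theorem rr_spec {z : ℤ} (hz : Odd z) : (4 : ℤ) ∣ z - (rr z : ℤ) := by
  obtain ⟨k, rfl⟩ := hz
  unfold rr
  split_ifs with h
  · simp only [Units.val_one]
    omega
  · simp only [Units.val_neg, Units.val_one]
    omega

theorem rr_units (u : ℤˣ) : rr (u : ℤ) = u := by
  rcases Int.units_eq_one_or u with rfl | rfl <;> decide

theorem rr_mul (u : ℤˣ) {z : ℤ} (hz : Odd z) : rr ((u : ℤ) * z) = u * rr z := by
  obtain ⟨k, rfl⟩ := hz
  rcases Int.units_eq_one_or u with rfl | rfl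
  · simp
  · simp only [Units.val_neg, Units.val_one, rr]
    by_cases h : (2 * k + 1) % 4 = 1
    · have h1 : ¬ (-1 * (2 * k + 1)) % 4 = 1 := by omega
      rw [if_pos h, if_neg h1]
      rfl
    · have h1 : (-1 * (2 * k + 1)) % 4 = 1 := by omega
      rw [if_neg h, if_pos h1]
      rfl

theorem aff (a b c d : ℤˣ) (h : (4 : ℤ) ∣ (a : ℤ) - (b : ℤ) - (c : ℤ) + (d : ℤ)) : a * b * c * d = 1 := by
  revert h
  revert a b c d
  decide

theorem aff_mul (a b c d : ℤˣ) (h : a * b * c * d = 1) : a * d = (a * b) * (a * c) := by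
  revert h
  revert a b c d
  decide

variable {G : Type*} [Group G] [Finite G] {p : ℕ} {M : Ideal AlgInt} {P Q : Subgroup G}
  [Fintype P] [Fintype (P →* ℂˣ)]

/-- The value of a combination of characters. -/
noncomputable def YY (m : (P →* ℂˣ) → ℕ) (v : P) : ℂ := ∑ γ : P →* ℂˣ, (m γ : ℂ) * ((γ v : ℂˣ) : ℂ)

theorem YY_one (m : (P →* ℂˣ) → ℕ) : YY m 1 = ((∑ γ : P →* ℂˣ, m γ : ℕ) : ℂ) := by
  simp [YY]

theorem YY_cong (hM : IsPModular p M) {n : ℕ} (hcard : Nat.card P = p ^ n) (m : (P →* ℂˣ) → ℕ) (v : P) :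
    MemLocalIdeal M (YY m v - YY m 1) := by
  haveI := isPrime_of_pModular hM
  have h1 : YY m v - YY m 1 = ∑ γ : P →* ℂˣ, (m γ : ℂ) * (((γ v : ℂˣ) : ℂ) - 1) := by
    simp only [YY, map_one, Units.val_one, mul_one, mul_sub]
    rw [Finset.sum_sub_distrib]
  rw [h1]
  refine memLocalIdeal_sum _ _ fun γ _ => memLocalIdeal_mul_left (memLocalRing_natCast _) ?_
  refine memLocal_root hM (n := n) ?_
  have h2 : (γ v) ^ p ^ n = 1 := by
    rw [← map_pow, ← hcard, pow_card_eq_one', map_one]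
  have h3 := congrArg Units.val h2
  simpa using h3

/-- The data of the inductive step. -/
structure StepD (p : ℕ) (M : Ideal AlgInt) (Q : Subgroup G) (s : Subgroup G → ℤˣ) (m : Subgroup G → (P →* ℂˣ) → ℕ)
    (F : P → ℤˣ) : Prop where
  hM : IsPModular p M
  hQP : Q ≤ P
  hlt : ∃ w ∈ P, w ∉ Q
  hab : ∀ x ∈ P, ∀ y ∈ P, x * y = y * x
  hcard : ∃ n, Nat.card P = p ^ n
  hK2 : ∀ R : Subgroup G, Q < R → R ≤ P → ∀ w : P, YY (m (sp R w)) w = YY (m R) w * sc (s R) * sc (s (sp R w))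
  hK1 : ∀ w : P, (w : G) ∉ Q → YY (m (sp Q w)) w = sc (F w)
  hK3 : ∀ R : Subgroup G, Q < R → R ≤ P → ∀ w : P, (w : G) ∈ Q → YY (m R) w = sc (F w) * YY (m R) 1
  hGal : ∀ R : Subgroup G, Q < R → R ≤ P → ∀ (γ : P →* ℂˣ) (j : ℕ), j.Coprime p → m R (γ ^ j) = m R γ
  hFQ : ∀ u v : P, (u : G) ∈ Q → (v : G) ∈ Q → F (u * v) = F u * F v

variable {s : Subgroup G → ℤˣ} {m : Subgroup G → (P →* ℂˣ) → ℕ} {F : P → ℤˣ}

namespace StepD

variable (D : StepD p M Q s m F)

include D

theorem lt_sp_Q {w : P} (hw : (w : G) ∉ Q) : Q < sp Q w := lt_sp hw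

theorem sp_le_P {R : Subgroup G} (hR : R ≤ P) (w : P) : sp R w ≤ P := sp_le hR w.2

theorem lt_sp_of_lt {R : Subgroup G} (hR : Q < R) (w : G) : Q < sp R w := lt_of_lt_of_le hR (le_sp R w)

/-- The sign of a subgroup and the sum of the multiplicities. -/
theorem odd_case (hp2 : p ≠ 2) :
    ∃ (t : ℤˣ) (τ : P →* ℤˣ), (∀ w : P, (w : G) ∉ Q → τ w * F w = t * s (sp Q w)) ∧
      (∀ w : P, (w : G) ∈ Q → τ w * F w = 1) ∧ ((∀ a ∈ P, ∀ b ∈ P, a ∉ Q → b ∉ Q → a * b ∈ Q) → t = 1) := by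
  classical
  have hM := D.hM
  haveI := isPrime_of_pModular hM
  have hp := prime_of_pModular hM
  obtain ⟨n, hn⟩ := D.hcard
  have hodd : Odd (p ^ n) := (hp.odd_of_ne_two hp2).pow
  let y : Subgroup G → ℤ := fun R => ((∑ γ : P →* ℂˣ, m R γ : ℕ) : ℤ)
  let C : Subgroup G → ℤ := fun R => (s R : ℤ) * y R
  have hcast : ∀ R, ((C R : ℤ) : ℂ) = sc (s R) * YY (m R) 1 := by
    intro R
    simp only [C, y]
    rw [YY_one]
    push_cast
    rfl
  have hcong := fun R (v : P) => YY_cong hM hn (m R) v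
  have hstep : ∀ R : Subgroup G, Q < R → R ≤ P → ∀ w : P,
      MemLocalIdeal M (((C (sp R w) : ℤ) : ℂ) - ((C R : ℤ) : ℂ)) := by
    intro R hR hRP w
    have h1 := D.hK2 R hR hRP w
    have h2 : sc (s (sp R w)) * YY (m (sp R w)) w = sc (s R) * YY (m R) w := by
      rw [h1]
      linear_combination (YY (m R) w * sc (s R)) * sc_mul_self (s (sp R w))
    rw [hcast, hcast]
    have h3 : sc (s (sp R w)) * YY (m (sp R w)) 1 - sc (s R) * YY (m R) 1 =
        -(sc (s (sp R w)) * (YY (m (sp R w)) w - YY (m (sp R w)) 1)) + sc (s R) * (YY (m R) w - YY (m R) 1) := by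
      linear_combination h2
    rw [h3]
    exact memLocalIdeal_add (memLocalIdeal_neg (memLocalIdeal_mul_left (memLocalRing_intCast _) (hcong _ _)))
      (memLocalIdeal_mul_left (memLocalRing_intCast _) (hcong _ _))
  have hall : ∀ R : Subgroup G, Q < R → R ≤ P → MemLocalIdeal M (((C P : ℤ) : ℂ) - ((C R : ℤ) : ℂ)) := by
    intro R hR hRP
    refine reach (A := fun T => MemLocalIdeal M (((C T : ℤ) : ℂ) - ((C R : ℤ) : ℂ))) hRP (by
      simp only [sub_self]
      exact memLocalIdeal_zero) ?_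
    intro T' h1 h2 h3 w hw _
    have h4 := hstep T' (lt_of_lt_of_le hR h1) h2 ⟨w, hw⟩
    have h5 := memLocalIdeal_add h4 h3
    have e : ((C (sp T' w) : ℤ) : ℂ) - ((C T' : ℤ) : ℂ) + (((C T' : ℤ) : ℂ) - ((C R : ℤ) : ℂ)) =
        ((C (sp T' w) : ℤ) : ℂ) - ((C R : ℤ) : ℂ) := by ring
    rw [e] at h5
    exact h5
  have hkey : ∀ w : P, (w : G) ∉ Q → MemLocalIdeal M (sc (F w) * sc (s (sp Q w)) - ((C P : ℤ) : ℂ)) := by
    intro w hw
    have h1 := D.hK1 w hw
    have h2 := hall _ (D.lt_sp_Q hw) (D.sp_le_P D.hQP w)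
    have h3 := hcong (sp Q (w : G)) w
    have e : sc (F w) * sc (s (sp Q w)) - ((C P : ℤ) : ℂ) =
        sc (s (sp Q w)) * (YY (m (sp Q w)) w - YY (m (sp Q w)) 1) -
          (((C P : ℤ) : ℂ) - ((C (sp Q (w : G)) : ℤ) : ℂ)) := by
      rw [hcast (sp Q (w : G)), h1]
      ring
    rw [e]
    exact memLocalIdeal_sub (memLocalIdeal_mul_left (memLocalRing_intCast _) h3) h2
  obtain ⟨w₀, hw₀, hw₀'⟩ := D.hlt
  let w₁ : P := ⟨w₀, hw₀⟩
  refine ⟨F w₁ * s (sp Q w₀), 1, fun w hw => ?_, fun w hw => ?_, fun hmax => ?_⟩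
  · -- outside `Q`
    have h1 := memLocalIdeal_sub (hkey w hw) (hkey w₁ hw₀')
    have e : sc (F w) * sc (s (sp Q w)) - ((C P : ℤ) : ℂ) - (sc (F w₁) * sc (s (sp Q w₁)) - ((C P : ℤ) : ℂ)) =
        (((((F w * s (sp Q w) : ℤˣ) : ℤ) - ((F w₁ * s (sp Q w₀) : ℤˣ) : ℤ) : ℤ)) : ℂ) := by
      push_cast
      simp only [sc]
      ring
    rw [e, intCast_memLocalIdeal_iff hM] at h1
    have h2 : ∀ a b : ℤˣ, (p : ℤ) ∣ ((a : ℤ) - (b : ℤ)) → a = b := by
      intro a b hd
      have hp' : ¬ (p : ℤ) ∣ 2 := by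
        intro h
        have h3 : p ∣ 2 := by exact_mod_cast h
        exact hp2 ((Nat.prime_dvd_prime_iff_eq hp Nat.prime_two).mp h3)
      rcases Int.units_eq_one_or a with rfl | rfl <;> rcases Int.units_eq_one_or b with rfl | rfl
      · rfl
      · exfalso
        apply hp'
        simpa using hd
      · exfalso
        apply hp'
        have h3 : (p : ℤ) ∣ -2 := by simpa using hd
        simpa using h3
      · rfl
    have h3 := h2 _ _ h1
    simp only [MonoidHom.one_apply, one_mul]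
    calc F w = (F w * s (sp Q w)) * s (sp Q w) := by
          rw [mul_assoc, units_mul_self, mul_one]
      _ = _ := by rw [h3]
  · -- inside `Q`
    simp only [MonoidHom.one_apply, one_mul]
    have h1 : F 1 = 1 := by
      have h2 := D.hFQ 1 1 Q.one_mem Q.one_mem
      rw [mul_one] at h2
      exact (mul_eq_left.mp h2.symm)
    have hpow : ∀ k : ℕ, F (w ^ k) = F w ^ k := by
      intro k
      induction k with
      | zero => simpa using h1
      | succ k ih =>
        rw [pow_succ, pow_succ, D.hFQ _ _ (Subgroup.pow_mem _ hw k) hw, ih]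
    have h2 := hpow (p ^ n)
    rw [← hn, pow_card_eq_one', h1, hn] at h2
    rcases Int.units_eq_one_or (F w) with h3 | h3
    · exact h3
    · rw [h3, hodd.neg_one_pow] at h2
      exact absurd h2 (by decide)
  · -- the gauge
    exfalso
    have h2 : w₀ * w₀ ∈ Q := hmax _ hw₀ _ hw₀ hw₀' hw₀'
    obtain ⟨k, hk⟩ := hodd
    have h3 : w₁ ^ (p ^ n) = 1 := by
      rw [← hn]
      exact pow_card_eq_one'
    have h4 : w₀ ^ (2 * k + 1) = 1 := by
      rw [← hk]
      exact congrArg Subtype.val h3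
    apply hw₀'
    have h5 : w₀ = ((w₀ * w₀) ^ k)⁻¹ := by
      apply eq_inv_of_mul_eq_one_left
      rw [← pow_two, ← pow_mul, ← pow_succ']
      exact h4
    rw [h5]
    exact Q.inv_mem (Q.pow_mem h2 k)

/-- **The case `p = 2`.** -/
theorem even_case (hp2 : p = 2) :
    ∃ (t : ℤˣ) (τ : P →* ℤˣ), (∀ w : P, (w : G) ∉ Q → τ w * F w = t * s (sp Q w)) ∧
      (∀ w : P, (w : G) ∈ Q → τ w * F w = 1) ∧ ((∀ a ∈ P, ∀ b ∈ P, a ∉ Q → b ∉ Q → a * b ∈ Q) → t = 1) := by
  classical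
  have hM := D.hM
  haveI := isPrime_of_pModular hM
  obtain ⟨N, hN⟩ := D.hcard
  have hN2 : Nat.card P = 2 ^ N := by rw [hN, hp2]
  have hcomm : ∀ a b : P, a * b = b * a := fun a b => Subtype.ext (D.hab _ a.2 _ b.2)
  have hQlt : Q < P := by
    obtain ⟨w, hw, hw'⟩ := D.hlt
    exact lt_of_le_of_ne D.hQP fun h => hw' (h ▸ hw)
  let n : Subgroup G → P → ℤ := fun R v => ∑ γ : P →* ℂˣ, (m R γ : ℤ) * T4.cc (γ v)
  have hY : ∀ R : Subgroup G, Q < R → R ≤ P → ∀ v : P, ((n R v : ℤ) : ℂ) = YY (m R) v := by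
    intro R hR hRP v
    have h1 := T4.sum_eq_sum_cc hcomm hN2 (fun γ => (m R γ : ℤ)) (fun j γ hj => by
      rw [D.hGal R hR hRP γ j (by rw [hp2]; exact Nat.coprime_two_right.mpr hj)]) v
    simp only [n, YY]
    push_cast at h1 ⊢
    exact h1.symm
  have hfour : ∀ R : Subgroup G, Q < R → R ≤ P → ∀ u v : P, (4 : ℤ) ∣ n R 1 - n R u - n R v + n R (u * v) := by
    intro R hR hRP u v
    have h1 := T4.four_dvd hcomm hN2 (fun γ => (m R γ : ℤ)) (fun j γ hj => by
      rw [D.hGal R hR hRP γ j (by rw [hp2]; exact Nat.coprime_two_right.mpr hj)]) u v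
    have e : ∑ γ : P →* ℂˣ, (m R γ : ℤ) * T4.cf u v γ = n R 1 - n R u - n R v + n R (u * v) := by
      simp only [n, T4.cf, map_one, T4.cc_one, mul_add, mul_sub, mul_one, Finset.sum_add_distrib, Finset.sum_sub_distrib]
    rwa [e] at h1
  have hcong2 : ∀ R : Subgroup G, Q < R → R ≤ P → ∀ v w : P, (2 : ℤ) ∣ n R v - n R w := by
    intro R hR hRP v w
    have h1 := memLocalIdeal_sub (YY_cong hM hN (m R) v) (YY_cong hM hN (m R) w)
    have e : YY (m R) v - YY (m R) 1 - (YY (m R) w - YY (m R) 1) = ((n R v - n R w : ℤ) : ℂ) := by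
      push_cast
      rw [hY R hR hRP, hY R hR hRP]
      ring
    rw [e, intCast_memLocalIdeal_iff hM] at h1
    rw [hp2] at h1
    exact_mod_cast h1
  have hK2' : ∀ R : Subgroup G, Q < R → R ≤ P → ∀ w : P, n (sp R w) w = ((s R * s (sp R w) : ℤˣ) : ℤ) * n R w := by
    intro R hR hRP w
    have h1 := D.hK2 R hR hRP w
    rw [← hY _ (D.lt_sp_of_lt hR w) (D.sp_le_P hRP w), ← hY R hR hRP] at h1
    have h2 : ((n (sp R w) w : ℤ) : ℂ) = ((((s R * s (sp R w) : ℤˣ) : ℤ) * n R w : ℤ) : ℂ) := by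
      rw [h1]
      push_cast
      simp only [sc]
      ring
    exact_mod_cast h2
  have hoddall : ∀ R : Subgroup G, Q < R → R ≤ P → ∀ w : P, Odd (n R w) → ∀ v : P, Odd (n R v) := by
    intro R hR hRP w hw v
    obtain ⟨d, hd⟩ := hcong2 R hR hRP v w
    obtain ⟨k, hk⟩ := hw
    exact ⟨d + k, by linarith⟩
  have hunit_odd : ∀ u : ℤˣ, Odd (u : ℤ) := fun u => by
    rcases Int.units_eq_one_or u with rfl | rfl <;> decide
  have hodd : ∀ R : Subgroup G, Q < R → R ≤ P → ∀ v : P, Odd (n R v) := by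
    intro R hR hRP
    obtain ⟨w₀, hw₀, hw₀'⟩ := SetLike.exists_of_lt hR
    let w₁ : P := ⟨w₀, hRP hw₀⟩
    have hS : sp Q w₀ ≤ R := sp_le hR.le hw₀
    refine reach (A := fun T => ∀ v : P, Odd (n T v)) hS ?_ ?_
    · have hlt : Q < sp Q w₀ := lt_sp hw₀'
      refine hoddall _ hlt (hS.trans hRP) w₁ ?_
      have h1 := D.hK1 w₁ hw₀'
      rw [← hY _ hlt (hS.trans hRP)] at h1
      have h2 : n (sp Q w₀) w₁ = (F w₁ : ℤ) := by exact_mod_cast h1
      rw [h2]
      exact hunit_odd _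
    · intro T' h1 h2 h3 w hw hw'
      have hT'Q : Q < T' := lt_of_lt_of_le (lt_sp hw₀') h1
      have hT'P : T' ≤ P := h2.trans hRP
      refine hoddall _ (D.lt_sp_of_lt hT'Q w) (sp_le hT'P (hRP hw)) ⟨w, hRP hw⟩ ?_
      rw [hK2' T' hT'Q hT'P ⟨w, hRP hw⟩]
      exact (hunit_odd _).mul (h3 _)
  let g : Subgroup G → P → ℤˣ := fun R v => rr (n R v)
  let l : Subgroup G → P → ℤˣ := fun R v => g R 1 * g R v
  have haff : ∀ R : Subgroup G, Q < R → R ≤ P → ∀ u v : P, g R 1 * g R u * g R v * g R (u * v) = 1 := by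
    intro R hR hRP u v
    apply aff
    have h1 := hfour R hR hRP u v
    have a1 := rr_spec (hodd R hR hRP 1)
    have a2 := rr_spec (hodd R hR hRP u)
    have a3 := rr_spec (hodd R hR hRP v)
    have a4 := rr_spec (hodd R hR hRP (u * v))
    simp only [g]
    omega
  have hlmul : ∀ R : Subgroup G, Q < R → R ≤ P → ∀ u v : P, l R (u * v) = l R u * l R v := by
    intro R hR hRP u v
    exact aff_mul _ _ _ _ (haff R hR hRP u v)
  have hgl : ∀ R v, g R v = g R 1 * l R v := fun R v => by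
    simp only [l]
    rw [← mul_assoc, units_mul_self, one_mul]
  have hly : ∀ R : Subgroup G, Q < R → R ≤ P → ∀ y w : P, l R y = g R (y * w) * g R w := by
    intro R hR hRP y w
    rw [hgl R (y * w), hgl R w, hlmul R hR hRP]
    generalize l R y = a
    generalize l R w = b
    generalize g R 1 = c
    revert a b c
    decide
  have hK2g : ∀ R : Subgroup G, Q < R → R ≤ P → ∀ w : P, g (sp R w) w = (s R * s (sp R w)) * g R w := by
    intro R hR hRP w
    simp only [g]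
    rw [hK2' R hR hRP w, rr_mul _ (hodd R hR hRP w)]
  -- restriction
  have hres : ∀ R : Subgroup G, Q < R → R ≤ P → ∀ w y : P, (y : G) ∈ R → l (sp R w) y = l R y := by
    intro R hR hRP w y hy
    have hT := D.lt_sp_of_lt hR w
    have hTP := D.sp_le_P hRP w
    rw [hly _ hT hTP y w, hly R hR hRP y w]
    have h1 := hK2g R hR hRP w
    have h2 := hK2g R hR hRP (y * w)
    have h3 : sp R ((y * w : P) : G) = sp R (w : G) := sp_mul_left hy (w : G)
    rw [h3] at h2
    rw [h1, h2]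
    generalize g R (y * w) = a
    generalize g R w = b
    generalize s R = c
    generalize s (sp R (w : G)) = d
    revert a b c d
    decide
  have hLres : ∀ R : Subgroup G, Q < R → R ≤ P → ∀ y : P, (y : G) ∈ R → l P y = l R y := by
    intro R hR hRP y hy
    refine reach (A := fun T => l T y = l R y) hRP rfl ?_
    intro T' h1 h2 h3 w hw _
    have hT'Q : Q < T' := lt_of_lt_of_le hR h1
    have := hres T' hT'Q h2 ⟨w, hw⟩ y (h1 hy)
    exact this.trans h3
  let C : Subgroup G → ℤˣ := fun R => g R 1 * s R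
  have hC : ∀ R : Subgroup G, Q < R → R ≤ P → ∀ w : P, C (sp R w) = C R * l R w * l P w := by
    intro R hR hRP w
    have hT := D.lt_sp_of_lt hR w
    have hTP := D.sp_le_P hRP w
    have h1 := hK2g R hR hRP w
    rw [hgl _ w, hgl R w, ← hLres _ hT hTP w (mem_sp R (w : G)) ] at h1
    simp only [C]
    generalize g (sp R (w : G)) 1 = a at h1 ⊢
    generalize l P w = b at h1 ⊢
    generalize s R = c at h1 ⊢
    generalize s (sp R (w : G)) = d at h1 ⊢
    generalize g R 1 = e at h1 ⊢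
    generalize l R w = f at h1 ⊢
    revert a b c d e f
    decide
  have hE : ∀ R : Subgroup G, Q < R → R ≤ P → ∀ a ∈ P, ∀ b ∈ P, C (sp R a) * C (sp R b) * C (sp R (a * b)) = C R := by
    intro R hR hRP a ha b hb
    have h1 := hC R hR hRP ⟨a, ha⟩
    have h2 := hC R hR hRP ⟨b, hb⟩
    have h3 := hC R hR hRP (⟨a, ha⟩ * ⟨b, hb⟩)
    rw [hlmul R hR hRP, hlmul P hQlt le_rfl] at h3
    have h4 : sp R (((⟨a, ha⟩ : P) * (⟨b, hb⟩ : P) : P) : G) = sp R (a * b) := rfl
    rw [h4] at h3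
    change C (sp R a) = _ at h1
    change C (sp R b) = _ at h2
    rw [h1, h2, h3]
    generalize C R = x
    generalize l R ⟨a, ha⟩ = y
    generalize l R ⟨b, hb⟩ = z
    generalize l P ⟨a, ha⟩ = u
    generalize l P ⟨b, hb⟩ = v
    revert x y z u v
    decide
  obtain ⟨t, τ', h1, h2, h3⟩ := glue D.hab D.hQP D.hlt C hE
  let L : P →* ℤˣ := MonoidHom.mk' (l P) (hlmul P hQlt le_rfl)
  have hL : ∀ w, L w = l P w := fun w => rfl
  refine ⟨t, L * τ', fun w hw => ?_, fun w hw => ?_, h3⟩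
  · have hT := lt_sp (R := Q) hw
    have hTP := D.sp_le_P D.hQP w
    have e1 := D.hK1 w hw
    rw [← hY _ hT hTP] at e1
    have e2 : n (sp Q (w : G)) w = (F w : ℤ) := by exact_mod_cast e1
    have e3 : g (sp Q (w : G)) w = F w := by
      simp only [g]
      rw [e2, rr_units]
    have e4 := hLres _ hT hTP w (mem_sp Q (w : G))
    rw [MonoidHom.mul_apply, hL, h1 w hw, ← e3, hgl _ w, ← e4]
    simp only [C]
    have key : ∀ a b c d : ℤˣ, b * (a * c * d) * (a * b) = d * c := by decide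
    exact key _ _ _ _
  · have e1 := D.hK3 P hQlt le_rfl w hw
    rw [← hY P hQlt le_rfl, ← hY P hQlt le_rfl] at e1
    have e2 : n P w = (F w : ℤ) * n P 1 := by exact_mod_cast e1
    have e3 : g P w = F w * g P 1 := by
      simp only [g]
      rw [e2, rr_mul _ (hodd P hQlt le_rfl 1)]
    rw [MonoidHom.mul_apply, h2 w hw, hL, mul_one]
    simp only [l]
    rw [e3]
    generalize g P 1 = a
    generalize F w = b
    revert a b
    decide

/-- **The inductive step.** -/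
theorem step :
    ∃ (t : ℤˣ) (τ : P →* ℤˣ), (∀ w : P, (w : G) ∉ Q → τ w * F w = t * s (sp Q w)) ∧
      (∀ w : P, (w : G) ∈ Q → τ w * F w = 1) ∧ ((∀ a ∈ P, ∀ b ∈ P, a ∉ Q → b ∉ Q → a * b ∈ Q) → t = 1) := by
  by_cases hp2 : p = 2
  · exact D.even_case hp2
  · exact D.odd_case hp2

end StepD

end Cfsg.Agent.Lib.Dade.Fr
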