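import Mathlib
import Cfsg.Agent.Lib.Dade.Fr.Re
import Cfsg.Agent.Lib.Dade.Fr.St

/-!
# Abelian defect groups with a free inertial quotient: the signs

There are signs `s Q` for the subgroups `1 ≠ Q ≤ P` and members `ξ` of the blocks `f_Q` with
`Fq Q ξ w = s Q * s (Q ⟨w⟩)` for all `w ∈ P`.
-/

set_option linter.unusedSectionVars false
set_option linter.style.haveILetI false
set_option autoImplicit false

namespace Cfsg.Agent.Lib.Dade.Fr

open Cfsg MonoidAlgebra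
open Cfsg.Agent.Lib.Blocks.Local Cfsg.Agent.Lib.Blocks.Central Cfsg.Agent.Lib.Blocks.Brauer
open Cfsg.Agent.Lib.BlockH.Transport Cfsg.Agent.Lib.BlockH.Subpair Cfsg.Agent.Lib.BlockH.SubpairLE
open Cfsg.Agent.Lib.BlockH.ConjPair Cfsg.Agent.Lib.BlockH.Descent Cfsg.Agent.Lib.BlockH.MaxPair
open Cfsg.Agent.Lib.BlockH.InducedPairs Cfsg.Agent.Lib.BlockH.AbelianDefect
open Cfsg.Agent.Lib.BP.Cj Cfsg.Agent.Lib.BP.MIS
open Cfsg.Agent.Lib.BP.StarDefs Cfsg.Agent.Lib.BP.Star1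
open Cfsg.Agent.Lib.BP.Star2 Cfsg.Agent.Lib.BP.Star3 Cfsg.Agent.Lib.BP.Rob1 Cfsg.Agent.Lib.BP.Rob2
open Cfsg.Agent.Lib.BP.Nil1 Cfsg.Agent.Lib.BP.Nil2 Cfsg.Agent.Lib.BP.Nil3 Cfsg.Agent.Lib.BP.Nil4
open Cfsg.Agent.Lib.Contrib.Section
open Cfsg.Agent.Lib.Blocks.Main
open Cfsg.Agent.Lib.Char.Basic Cfsg.Agent.Lib.Char.Complete Cfsg.Agent.Lib.Char.Ortho Cfsg.Agent.Lib.Char.GenLattice
open Cfsg.Agent.Lib.Char.Degree
open Cfsg.Agent.Lib.OddChar.GaloisConj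
open Cfsg.Agent.Lib.Dade.Base Cfsg.Agent.Lib.Dade.NilDual Cfsg.Agent.Lib.Dade.Gen Cfsg.Agent.Lib.Dade.Loc
open scoped ComplexConjugate

universe u

theorem sc_eq_or (u : ℤˣ) : sc u = 1 ∨ sc u = -1 := by
  rcases Int.units_eq_one_or u with rfl | rfl
  · left; simp [sc]
  · right; simp [sc]

theorem sc_injective : Function.Injective sc := by
  intro u v h
  apply Units.ext
  exact_mod_cast h

theorem sc_ne_zero (u : ℤˣ) : sc u ≠ 0 := by
  rcases sc_eq_or u with h | h <;> rw [h] <;> norm_num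

open Classical in
/-- The sign of a real number of absolute value one. -/
noncomputable def sgnC (z : ℂ) : ℤˣ := if z = 1 then 1 else -1

theorem sc_sgnC {z : ℂ} (h : z = 1 ∨ z = -1) : sc (sgnC z) = z := by
  unfold sgnC
  rcases h with rfl | rfl
  · simp [sc]
  · have h1 : (-1 : ℂ) ≠ 1 := by norm_num
    rw [if_neg h1]
    simp [sc]

/-- Signs as complex units. -/
noncomputable def castU : ℤˣ →* ℂˣ := Units.map (Int.castRingHom ℂ).toMonoidHom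

@[simp] theorem coe_castU (u : ℤˣ) : ((castU u : ℂˣ) : ℂ) = sc u := rfl

variable {G : Type u} [Group G] [Fintype G] {p : ℕ} {M : Ideal AlgInt} [Fact p.Prime]

attribute [local instance] fK fIrr fBl fDual

variable {B : Set (IrrCharacter G)} {P Q R : Subgroup G} {c : Set (IrrCharacter (Subgroup.centralizer (P : Set G)))}

variable (p M c) in
/-- A solution of the equations of the signs at a subgroup. -/
def GoodS (s : Subgroup G → ℤˣ) (R : Subgroup G) : Prop :=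
  ∃ ξ ∈ fbS p M c R, ∀ w ∈ P, Fq p M c R (ξ : Subgroup.centralizer (R : Set G) → ℂ) w = sc (s R) * sc (s (sp R w))

/-- Subgroups of index at most two. -/
def Max2 (P Q : Subgroup G) : Prop := ∀ a ∈ P, ∀ b ∈ P, a ∉ Q → b ∉ Q → a * b ∈ Q

namespace Lev

variable (L : Lev p M B P c Q)

include L

theorem memH {w : G} (hw : w ∈ P) : w ∈ L.H := L.hDH hw

/-- The scalars on `Q` are multiplicative. -/
theorem Fq_mul {ξ : IrrCharacter L.H} (hξ : ξ ∈ L.f) {u v : G} (hu : u ∈ Q) (hv : v ∈ Q) :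
    Fq p M c Q (ξ : L.H → ℂ) (u * v) = Fq p M c Q (ξ : L.H → ℂ) u * Fq p M c Q (ξ : L.H → ℂ) v := by
  have hu' := L.memH (L.hQP hu)
  have hv' := L.memH (L.hQP hv)
  have h1 := L.Fq_of_mem hξ (w := (⟨u, hu'⟩ * ⟨v, hv'⟩ : L.H)) (Q.mul_mem hu hv)
  have h2 := L.Fq_of_mem hξ (w := (⟨u, hu'⟩ : L.H)) hu
  have h3 := L.Fq_of_mem hξ (w := (⟨v, hv'⟩ : L.H)) hv
  have hz : ∀ g : L.H, (⟨u, hu'⟩ : L.H) * g = g * ⟨u, hu'⟩ := fun g =>
    Subtype.ext (Subgroup.mem_centralizer_iff.mp g.2 _ hu)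
  rw [irr_central_mul ξ hz] at h1
  change Fq p M c Q (ξ : L.H → ℂ) (u * v) = _ at h1
  change Fq p M c Q (ξ : L.H → ℂ) u = _ at h2
  change Fq p M c Q (ξ : L.H → ℂ) v = _ at h3
  rw [h1, h2, h3]
  ring

/-- The function of the level at a central element. -/
theorem secD_central {ρ : IrrCharacter L.H} (hρ : ρ ∈ L.f) {w : G} (hw : w ∈ Q) (hQR : Q ≤ R) :
    secD p M c R (extZ L.H (ρ : L.H → ℂ)) w =
      Fq p M c Q (ρ : L.H → ℂ) w * secD p M c R (extZ L.H (ρ : L.H → ℂ)) 1 := by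
  have hw' := L.memH (L.hQP hw)
  have h1 := secC_sum (p := p) (M := M) (c := c) {()} (fun _ => Fq p M c Q (ρ : L.H → ℂ) w) R
    (fun _ k => extZ L.H (ρ : L.H → ℂ) (1 * k))
  simp only [Finset.sum_singleton] at h1
  simp only [secD]
  rw [← h1]
  refine secC_congr fun k _ => ?_
  have hk : (k : G) ∈ L.H := Subgroup.centralizer_le hQR k.2
  have e1 := extZ_coe (H := L.H) (ρ : L.H → ℂ) ((⟨w, hw'⟩ : L.H) * ⟨k, hk⟩)
  have e2 := extZ_coe (H := L.H) (ρ : L.H → ℂ) (⟨k, hk⟩ : L.H)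
  have hz : ∀ g : L.H, (⟨w, hw'⟩ : L.H) * g = g * ⟨w, hw'⟩ := fun g =>
    Subtype.ext (Subgroup.mem_centralizer_iff.mp g.2 _ hw)
  rw [irr_central_mul ρ hz] at e1
  have e3 := L.Fq_of_mem hρ (w := (⟨w, hw'⟩ : L.H)) hw
  change Fq p M c Q (ρ : L.H → ℂ) w = _ at e3
  rw [one_mul, e3]
  rw [← e2] at e1
  exact e1

/-- The relation at a larger subgroup. -/
theorem exists_rel {ρ : IrrCharacter L.H} (hρ : ρ ∈ L.f)
    (hr : ∀ w ∈ P, Fq p M c Q (ρ : L.H → ℂ) w = 1 ∨ Fq p M c Q (ρ : L.H → ℂ) w = -1) {s : Subgroup G → ℤˣ}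
    (hQR : Q ≤ R) (hRP : R ≤ P) (hR : GoodS p M c s R) :
    ∃ m : (P →* ℂˣ) → ℕ, (∀ w (hw : w ∈ P), secD p M c (sp R w) (extZ L.H (ρ : L.H → ℂ)) w =
      YY m ⟨w, hw⟩ * (sc (s R) * sc (s (sp R w)))) ∧ ∀ (γ : P →* ℂˣ) (j : ℕ), j.Coprime p → m (γ ^ j) = m γ := by
  have LR : Lev p M B P c R :=
    { L.toGl with
      hQP := hRP
      hQ1 := fun h => L.hQ1 (le_bot_iff.mp (h ▸ hQR)) }
  obtain ⟨ξ, hξ, hFq⟩ := hR
  have hle : LR.H ≤ L.H := Subgroup.centralizer_le hQR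
  obtain ⟨m, hm1, hm2⟩ := LR.exists_mult_secD hξ (isChar_extZ_res hle ρ)
  refine ⟨m, fun w hw => ?_, fun γ j hj => ?_⟩
  · rw [← hFq w hw]
    exact hm2 w hw
  · obtain ⟨k₀, hk, hpow⟩ := exists_good_pow (G := G) (P := P) L.hmax.1.1.1 j hj
    have h1 := mult_good hk L LR hQR hρ hr hξ (fun w hw => by
      rw [hFq w hw]
      rcases sc_eq_or (s R) with h1 | h1 <;> rcases sc_eq_or (s (sp R w)) with h2 | h2 <;> rw [h1, h2] <;> norm_num) γ
    have h2 := hm1 (γ ^ k₀)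
    have h3 := hm1 γ
    rw [← hpow]
    have h4 : (m (γ ^ k₀) : ℂ) = m γ := by
      rw [h2, h3]
      exact h1
    exact_mod_cast h4

/-- **The step for the signs.** -/
theorem stepQ {s : Subgroup G → ℤˣ} (hs : ∀ R, Q < R → R ≤ P → GoodS p M c s R) :
    ∃ t : ℤˣ, (∃ ξ ∈ L.f, (∀ w ∈ P, w ∉ Q → Fq p M c Q (ξ : L.H → ℂ) w = sc t * sc (s (sp Q w))) ∧
      (∀ w ∈ Q, Fq p M c Q (ξ : L.H → ℂ) w = 1)) ∧ (Max2 P Q → t = 1) := by
  classical
  letI := Fintype.ofFinite P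
  obtain ⟨ρ₀, hρ₀, -⟩ := L.exists_base
  obtain ⟨ρ, hρ, hr⟩ := L.exists_real hρ₀
  let F : P → ℤˣ := fun w => sgnC (Fq p M c Q (ρ : L.H → ℂ) w)
  have hF : ∀ w : P, sc (F w) = Fq p M c Q (ρ : L.H → ℂ) w := fun w => sc_sgnC (hr w w.2)
  have hFQ : ∀ u v : P, (u : G) ∈ Q → (v : G) ∈ Q → F (u * v) = F u * F v := by
    intro u v hu hv
    apply sc_injective
    rw [sc_mul, hF, hF, hF]
    exact L.Fq_mul hρ hu hv
  have hfin : ∀ (t : ℤˣ) (τ : P →* ℤˣ), (∀ w : P, (w : G) ∉ Q → τ w * F w = t * s (sp Q w)) →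
      (∀ w : P, (w : G) ∈ Q → τ w * F w = 1) →
      ∃ ξ ∈ L.f, (∀ w ∈ P, w ∉ Q → Fq p M c Q (ξ : L.H → ℂ) w = sc t * sc (s (sp Q w))) ∧
        (∀ w ∈ Q, Fq p M c Q (ξ : L.H → ℂ) w = 1) := by
    intro t τ h1 h2
    have h3 : ∀ (w : G) (hw : w ∈ P), Fq p M c Q (L.twI (castU.comp τ) hρ : L.H → ℂ) w = sc (τ ⟨w, hw⟩ * F ⟨w, hw⟩) := by
      intro w hw
      rw [coe_twI, sc_mul, hF]
      exact L.Fq_tw (castU.comp τ) hρ (w := ⟨w, L.memH hw⟩) hw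
    refine ⟨L.twI (castU.comp τ) hρ, L.twI_mem _ hρ, fun w hw hwQ => ?_, fun w hw => ?_⟩
    · rw [h3 w hw, h1 ⟨w, hw⟩ hwQ, sc_mul]
    · rw [h3 w (L.hQP hw), h2 ⟨w, L.hQP hw⟩ hw]
      simp [sc]
  by_cases hlt : ∃ w ∈ P, w ∉ Q
  · have hex : ∀ R, ∃ m : (P →* ℂˣ) → ℕ, Q < R → R ≤ P →
        (∀ w (hw : w ∈ P), secD p M c (sp R w) (extZ L.H (ρ : L.H → ℂ)) w =
          YY m ⟨w, hw⟩ * (sc (s R) * sc (s (sp R w)))) ∧ ∀ (γ : P →* ℂˣ) (j : ℕ), j.Coprime p → m (γ ^ j) = m γ := by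
      intro R
      by_cases hR : Q < R ∧ R ≤ P
      · obtain ⟨m, hm⟩ := L.exists_rel hρ hr hR.1.le hR.2 (hs R hR.1 hR.2)
        exact ⟨m, fun _ _ => hm⟩
      · exact ⟨fun _ => 0, fun h1 h2 => absurd ⟨h1, h2⟩ hR⟩
    choose m hm using hex
    have hkey : ∀ R, Q < R → R ≤ P → ∀ (w : G) (hw : w ∈ P), w ∈ R →
        secD p M c R (extZ L.H (ρ : L.H → ℂ)) w = YY (m R) ⟨w, hw⟩ := by
      intro R h1 h2 w hw hwR
      have h3 := (hm R h1 h2).1 w hw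
      rw [sp_eq_of_mem hwR, sc_mul_self, mul_one] at h3
      exact h3
    have hD : StepD p M Q s m F :=
      { hM := L.hM
        hQP := L.hQP
        hlt := hlt
        hab := L.hab
        hcard := by
          obtain ⟨n, hn⟩ := (L.hmax.1.1.1 : IsPGroup p P).exists_card_eq
          exact ⟨n, hn⟩
        hK2 := by
          intro R h1 h2 w
          have h3 : Q < sp R w := lt_of_lt_of_le h1 (le_sp R w)
          have h4 : sp R w ≤ P := sp_le h2 w.2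
          have h5 := hkey (sp R w) h3 h4 w w.2 (mem_sp R w)
          have h6 := (hm R h1 h2).1 w w.2
          rw [h5] at h6
          rw [h6, mul_assoc]
        hK1 := by
          intro w hw
          have h3 : Q < sp Q w := lt_sp hw
          have h5 := hkey (sp Q w) h3 (sp_le L.hQP w.2) w w.2 (mem_sp Q w)
          rw [hF]
          exact h5.symm
        hK3 := by
          intro R h1 h2 w hw
          have h3 := hkey R h1 h2 w w.2 (h1.le hw)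
          have h4 := hkey R h1 h2 1 P.one_mem R.one_mem
          have h5 := L.secD_central hρ hw h1.le
          rw [hF]
          rw [h3, h4] at h5
          exact h5
        hGal := fun R h1 h2 γ j hj => (hm R h1 h2).2 γ j hj
        hFQ := hFQ }
    obtain ⟨t, τ, h1, h2, h3⟩ := hD.step
    exact ⟨t, hfin t τ h1 h2, h3⟩
  · have hPQ : ∀ w : P, (w : G) ∈ Q := fun w => by
      by_contra h
      exact hlt ⟨w, w.2, h⟩
    let τ : P →* ℤˣ := MonoidHom.mk' F (fun u v => hFQ u v (hPQ u) (hPQ v))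
    refine ⟨1, hfin 1 τ (fun w hw => absurd (hPQ w) hw) (fun w _ => ?_), fun _ => rfl⟩
    exact units_mul_self (F w)

end Lev

/-- **The signs.** -/
theorem exists_signs (g : Gl p M B P c) :
    ∃ s : Subgroup G → ℤˣ, ∀ Q : Subgroup G, Q ≤ P → Q ≠ ⊥ → GoodS p M c s Q ∧ (Max2 P Q → s Q = 1) := by
  classical
  have hlev : ∀ Q : Subgroup G, Q ≤ P → Q ≠ ⊥ → Lev p M B P c Q := fun Q h1 h2 =>
    { g with
      hQP := h1
      hQ1 := h2 }
  have hgap : ∀ {Q R : Subgroup G}, Q < R → R ≤ P → Nat.card P - Nat.card R < Nat.card P - Nat.card Q := by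
    intro Q R h1 h2
    have h3 : Nat.card Q < Nat.card R := Set.ncard_lt_ncard h1
    have h4 : Nat.card R ≤ Nat.card P := Subgroup.card_le_of_le h2
    omega
  have hind : ∀ n : ℕ, ∃ s : Subgroup G → ℤˣ, ∀ Q : Subgroup G, Q ≤ P → Q ≠ ⊥ → Nat.card P - Nat.card Q < n →
      GoodS p M c s Q ∧ (Max2 P Q → s Q = 1) := by
    intro n
    induction n with
    | zero => exact ⟨fun _ => 1, fun Q _ _ h => absurd h (Nat.not_lt_zero _)⟩
    | succ n ih =>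
      obtain ⟨s, hs⟩ := ih
      have hstep : ∀ Q : Subgroup G, Q ≤ P → Q ≠ ⊥ → Nat.card P - Nat.card Q = n → ∃ t : ℤˣ,
          (∃ ξ ∈ fbS p M c Q, (∀ w ∈ P, w ∉ Q → Fq p M c Q (ξ : Subgroup.centralizer (Q : Set G) → ℂ) w = sc t * sc (s (sp Q w))) ∧
            (∀ w ∈ Q, Fq p M c Q (ξ : Subgroup.centralizer (Q : Set G) → ℂ) w = 1)) ∧ (Max2 P Q → t = 1) := by
        intro Q h1 h2 h3
        exact (hlev Q h1 h2).stepQ (fun R h4 h5 => (hs R h5 (fun h => h2 (le_bot_iff.mp (h ▸ h4.le))) (h3 ▸ hgap h4 h5)).1)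
      let s' : Subgroup G → ℤˣ := fun Q => if h : Q ≤ P ∧ Q ≠ ⊥ ∧ Nat.card P - Nat.card Q = n then
        (hstep Q h.1 h.2.1 h.2.2).choose else s Q
      have hs'1 : ∀ Q : Subgroup G, Nat.card P - Nat.card Q ≠ n → s' Q = s Q := by
        intro Q h
        exact dif_neg (fun h1 => h h1.2.2)
      refine ⟨s', fun Q h1 h2 h3 => ?_⟩
      by_cases h4 : Nat.card P - Nat.card Q = n
      · have h5 : Q ≤ P ∧ Q ≠ ⊥ ∧ Nat.card P - Nat.card Q = n := ⟨h1, h2, h4⟩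
        have h6 : s' Q = (hstep Q h1 h2 h4).choose := dif_pos h5
        obtain ⟨⟨ξ, hξ, hw1, hw2⟩, h7⟩ := (hstep Q h1 h2 h4).choose_spec
        refine ⟨⟨ξ, hξ, fun w hw => ?_⟩, fun h8 => by rw [h6]; exact h7 h8⟩
        by_cases hwQ : w ∈ Q
        · rw [hw2 w hwQ, sp_eq_of_mem hwQ, sc_mul_self]
        · rw [hw1 w hw hwQ, h6, hs'1 _ (h4 ▸ (hgap (lt_sp hwQ) (sp_le h1 hw)).ne)]
      · have h5 : Nat.card P - Nat.card Q < n := by omega
        obtain ⟨⟨ξ, hξ, hw⟩, h7⟩ := hs Q h1 h2 h5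
        refine ⟨⟨ξ, hξ, fun w hw' => ?_⟩, fun h8 => by rw [hs'1 Q h4]; exact h7 h8⟩
        rw [hw w hw', hs'1 Q h4]
        congr 2
        by_cases hwQ : w ∈ Q
        · rw [sp_eq_of_mem hwQ, hs'1 Q h4]
        · have h9 := hgap (lt_sp hwQ) (sp_le h1 hw')
          rw [hs'1 _ (by omega)]
  obtain ⟨s, hs⟩ := hind (Nat.card P + 1)
  exact ⟨s, fun Q h1 h2 => hs Q h1 h2 (by omega)⟩

end Cfsg.Agent.Lib.Dade.Fr
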