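import Mathlib
import Cfsg.Agent.Lib.Dade.Fr.Sg

/-!
# Abelian defect groups with a free inertial quotient: uniqueness and invariance of the signs
-/

set_option linter.unusedSectionVars false
set_option linter.style.haveILetI false
set_option autoImplicit false

namespace Cfsg.Agent.Lib.Dade.Fr

open Cfsg MonoidAlgebra
open Cfsg.Agent.Lib.Blocks.Local Cfsg.Agent.Lib.Blocks.Central Cfsg.Agent.Lib.Blocks.Brauer
open Cfsg.Agent.Lib.BlockH.Transport Cfsg.Agent.Lib.BlockH.Subpair Cfsg.Agent.Lib.BlockH.SubpairLE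
open Cfsg.Agent.Lib.BlockH.ConjPair Cfsg.Agent.Lib.BlockH.Descent Cfsg.Agent.Lib.BlockH.MaxPair
open Cfsg.Agent.Lib.BlockH.InducedPairs Cfsg.Agent.Lib.BlockH.AbelianDefect
open Cfsg.Agent.Lib.BP.Cj Cfsg.Agent.Lib.BP.MIS
open Cfsg.Agent.Lib.BP.StarDefs Cfsg.Agent.Lib.BP.Star1
open Cfsg.Agent.Lib.BP.Star2 Cfsg.Agent.Lib.BP.Star3 Cfsg.Agent.Lib.BP.Rob1 Cfsg.Agent.Lib.BP.Rob2
open Cfsg.Agent.Lib.BP.Nil1 Cfsg.Agent.Lib.BP.Nil2 Cfsg.Agent.Lib.BP.Nil3 Cfsg.Agent.Lib.BP.Nil4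
open Cfsg.Agent.Lib.Contrib.Section
open Cfsg.Agent.Lib.Blocks.Main
open Cfsg.Agent.Lib.Char.Basic Cfsg.Agent.Lib.Char.Complete Cfsg.Agent.Lib.Char.Ortho Cfsg.Agent.Lib.Char.GenLattice
open Cfsg.Agent.Lib.Char.Degree
open Cfsg.Agent.Lib.OddChar.GaloisConj
open Cfsg.Agent.Lib.Dade.Base Cfsg.Agent.Lib.Dade.NilDual Cfsg.Agent.Lib.Dade.Gen Cfsg.Agent.Lib.Dade.Loc
open scoped ComplexConjugate

universe u

variable {G : Type u} [Group G] [Fintype G] {p : ℕ} {M : Ideal AlgInt} [Fact p.Prime]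

attribute [local instance] fK fIrr fBl fDual

variable {B : Set (IrrCharacter G)} {P Q R Q' R' : Subgroup G} {c : Set (IrrCharacter (Subgroup.centralizer (P : Set G)))}

variable (p M c) in
/-- A solution of the equations of the signs. -/
def Sol (s : Subgroup G → ℤˣ) : Prop :=
  ∀ Q : Subgroup G, Q ≤ P → Q ≠ ⊥ → GoodS p M c s Q ∧ (Max2 P Q → s Q = 1)

theorem sc_neg (u : ℤˣ) : sc (-u) = - sc u := by simp [sc]

theorem Gl.lev (g : Gl p M B P c) (hQP : Q ≤ P) (hQ1 : Q ≠ ⊥) : Lev p M B P c Q :=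
  { g with
    hQP := hQP
    hQ1 := hQ1 }

/-- **The signs are unique.** -/
theorem signs_unique (g : Gl p M B P c) {s s' : Subgroup G → ℤˣ} (hs : Sol p M c s) (hs' : Sol p M c s') :
    ∀ Q : Subgroup G, Q ≤ P → Q ≠ ⊥ → s Q = s' Q := by
  have hgap : ∀ {Q R : Subgroup G}, Q < R → R ≤ P → Nat.card P - Nat.card R < Nat.card P - Nat.card Q := by
    intro Q R h1 h2
    have h3 : Nat.card Q < Nat.card R := Set.ncard_lt_ncard h1
    have h4 : Nat.card R ≤ Nat.card P := Subgroup.card_le_of_le h2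
    omega
  have key : ∀ n : ℕ, ∀ Q : Subgroup G, Nat.card P - Nat.card Q = n → Q ≤ P → Q ≠ ⊥ → s Q = s' Q := by
    intro n
    induction n using Nat.strong_induction_on with
    | _ n ih =>
      intro Q hn hQP hQ1
      have L := g.lev hQP hQ1
      obtain ⟨⟨ξ, hξ, hF⟩, hg⟩ := hs Q hQP hQ1
      obtain ⟨⟨ξ', hξ', hF'⟩, hg'⟩ := hs' Q hQP hQ1
      obtain ⟨γ, hγ⟩ := L.exists_tw_eq hξ hξ'
      by_contra hne
      have hne' : s' Q = - s Q := by
        rcases Int.units_eq_one_or (s Q) with h1 | h1 <;> rcases Int.units_eq_one_or (s' Q) with h2 | h2 <;>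
          simp_all
      have hw : ∀ (w : G) (hw : w ∈ P), w ∉ Q → ((γ ⟨w, hw⟩ : ℂˣ) : ℂ) = -1 := by
        intro w hw hwQ
        have h1 := L.Fq_tw γ hξ (w := ⟨w, L.memH hw⟩) hw
        have hlt : Q < sp Q w := lt_sp hwQ
        have h2 : s (sp Q w) = s' (sp Q w) :=
          ih _ (hn ▸ hgap hlt (sp_le hQP hw)) (sp Q w) rfl (sp_le hQP hw)
            (fun h => hQ1 (le_bot_iff.mp (h ▸ hlt.le)))
        have e1 : Fq p M c Q (L.tw γ (ξ : L.H → ℂ)) w = ((γ ⟨w, hw⟩ : ℂˣ) : ℂ) * Fq p M c Q (ξ : L.H → ℂ) w := h1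
        have hγ' : L.tw γ (ξ : L.H → ℂ) = ξ' := congrArg Subtype.val hγ
        rw [hγ', hF' w hw, hF w hw, hne', ← h2, sc_neg] at e1
        have h3 := sc_mul_self (s Q)
        have h4 := sc_mul_self (s (sp Q w))
        have h5 : (-1 : ℂ) * (sc (s Q) * sc (s (sp Q w))) = ((γ ⟨w, hw⟩ : ℂˣ) : ℂ) * (sc (s Q) * sc (s (sp Q w))) := by
          rw [← e1]
          ring
        exact (mul_right_cancel₀ (mul_ne_zero (sc_ne_zero _) (sc_ne_zero _)) h5).symm
      have hmax2 : Max2 P Q := by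
        intro a ha b hb haQ hbQ
        by_contra habQ
        have h1 := hw a ha haQ
        have h2 := hw b hb hbQ
        have h3 := hw (a * b) (P.mul_mem ha hb) habQ
        have h4 : (⟨a * b, P.mul_mem ha hb⟩ : P) = ⟨a, ha⟩ * ⟨b, hb⟩ := rfl
        rw [h4, map_mul, Units.val_mul, h1, h2] at h3
        norm_num at h3
      exact hne ((hg hmax2).trans (hg' hmax2).symm)
  exact fun Q hQP hQ1 => key _ Q rfl hQP hQ1

/-! ### Conjugation -/

theorem map_conj_P {x : G} (hx : x ∈ stabSub P c) : P.map (MulAut.conj x).toMonoidHom = P :=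
  map_conj_eq_of_mem_normalizer hx.1

theorem conj_le_P {x : G} (hx : x ∈ stabSub P c) (hQP : Q ≤ P) (h : Q.map (MulAut.conj x).toMonoidHom = Q') : Q' ≤ P := by
  rw [← h, ← map_conj_P hx]
  exact Subgroup.map_mono hQP

theorem conj_ne_bot {x : G} (hQ1 : Q ≠ ⊥) (h : Q.map (MulAut.conj x).toMonoidHom = Q') : Q' ≠ ⊥ := by
  intro h0
  rw [h0] at h
  apply hQ1
  exact (Subgroup.map_eq_bot_iff_of_injective _ (MulAut.conj x).injective).mp h

/-- The block at a conjugate. -/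
theorem fbS_conj (hM : IsPModular p M) (hmax : IsMaximalBrauerPair p M B P c) {x : G} (hx : x ∈ stabSub P c)
    (hQP : Q ≤ P) (h : Q.map (MulAut.conj x).toMonoidHom = Q') :
    blockMap (conjEquivOf x h) (fbS p M c Q) = fbS p M c Q' := by
  haveI := isPrime_of_pModular hM
  obtain ⟨h1, h2⟩ := fbS_spec hM hmax hQP
  have h3 := subpairLE_conj h (map_conj_P hx) h2
  rw [blockMap_eq_of_stabilizes (map_conj_P hx) hmax.1.1.2 hx.2] at h3
  exact (fbS_eq hM hmax (conj_le_P hx hQP h) (isPBlock_blockMap _ h1) h3).symm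

/-- The common regular part at a conjugate. -/
theorem baseS_conj (LR : Lev p M B P c R) {x : G} (hx : x ∈ stabSub P c) (h : R.map (MulAut.conj x).toMonoidHom = R')
    (k : Subgroup.centralizer (R : Set G)) (hk : ¬ p ∣ orderOf k) :
    baseS p M c R' (conjEquivOf x h k) = baseS p M c R k := by
  have LR' : Lev p M B P c R' := LR.toGl.lev (conj_le_P hx LR.hQP h) (conj_ne_bot LR.hQ1 h)
  obtain ⟨τ, hτ, hb⟩ := LR.exists_base
  have h1 : irrMap (conjEquivOf x h) τ ∈ LR'.f := by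
    change _ ∈ fbS p M c R'
    rw [← fbS_conj LR.hM LR.hmax hx LR.hQP h]
    exact irrMap_mem_blockMap _ _ hτ
  rw [LR'.base_regular h1 (by rwa [MulEquiv.orderOf_eq]), ← hb, irrMap_apply_map]

/-- The scalar of the block part at a conjugate. -/
theorem secC_conj (LR : Lev p M B P c R) {x : G} (hx : x ∈ stabSub P c) (h : R.map (MulAut.conj x).toMonoidHom = R')
    (φ : Subgroup.centralizer (R' : Set G) → ℂ) :
    secC p M c R' φ = secC p M c R (φ ∘ conjEquivOf x h) := by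
  classical
  simp only [secC]
  rw [Nat.card_congr (conjEquivOf x h).toEquiv]
  congr 1
  symm
  refine Fintype.sum_equiv (conjEquivOf x h).toEquiv _ _ fun k => ?_
  simp only [MulEquiv.toEquiv_eq_coe, EquivLike.coe_coe, Function.comp, MulEquiv.orderOf_eq]
  by_cases hk : ¬ p ∣ orderOf k
  · rw [if_pos hk, if_pos hk, baseS_conj LR hx h k hk]
  · rw [if_neg hk, if_neg hk]

/-- The scalar of a class function at a conjugate. -/
theorem secD_conj (LR : Lev p M B P c R) {x : G} (hx : x ∈ stabSub P c) (h : R.map (MulAut.conj x).toMonoidHom = R')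
    {θ : G → ℂ} (hθ : IsClassFunction G θ) (w : G) :
    secD p M c R' θ (x * w * x⁻¹) = secD p M c R θ w := by
  rw [secD, secC_conj LR hx h, secD]
  congr 1
  funext k
  simp only [Function.comp, coe_conjEquivOf]
  have h1 : x * w * x⁻¹ * (x * (k : G) * x⁻¹) = x * (w * k) * x⁻¹ := by group
  rw [h1]
  exact hθ (w * k) x

theorem map_conj_sp (x w : G) (h : Q.map (MulAut.conj x).toMonoidHom = Q') :
    (sp Q w).map (MulAut.conj x).toMonoidHom = sp Q' (x * w * x⁻¹) := by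
  rw [sp, Subgroup.map_sup, h, MonoidHom.map_zpowers]
  rfl

/-- The scalar of a function of the level at a conjugate. -/
theorem Fq_conj (L : Lev p M B P c Q) {x : G} (hx : x ∈ stabSub P c) (h : Q.map (MulAut.conj x).toMonoidHom = Q')
    (ξ : IrrCharacter (Subgroup.centralizer (Q : Set G))) {w : G} (hw : w ∈ P) :
    Fq p M c Q' (irrMap (conjEquivOf x h) ξ : Subgroup.centralizer (Q' : Set G) → ℂ) (x * w * x⁻¹) =
      Fq p M c Q (ξ : Subgroup.centralizer (Q : Set G) → ℂ) w := by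
  have hLR := L.up hw
  have hR := map_conj_sp x w h
  rw [Fq, Fq]
  change secC p M c (sp Q' (x * w * x⁻¹)) _ = secC p M c (sp Q w) _
  rw [secC_conj hLR hx hR]
  congr 1
  funext k
  simp only [Function.comp, coe_conjEquivOf]
  have hk : (k : G) ∈ Subgroup.centralizer (Q : Set G) := (mem_cent_sup.mp k.2).1
  have hwk : w * (k : G) ∈ Subgroup.centralizer (Q : Set G) := Subgroup.mul_mem _ (L.memH hw) hk
  have h1 : x * w * x⁻¹ * (x * (k : G) * x⁻¹) = x * (w * k) * x⁻¹ := by group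
  rw [h1]
  have e1 := extZ_coe (H := Subgroup.centralizer (Q : Set G)) (ξ : Subgroup.centralizer (Q : Set G) → ℂ) ⟨_, hwk⟩
  have e2 := extZ_coe (H := Subgroup.centralizer (Q' : Set G))
    (irrMap (conjEquivOf x h) ξ : Subgroup.centralizer (Q' : Set G) → ℂ) (conjEquivOf x h ⟨_, hwk⟩)
  rw [irrMap_apply_map] at e2
  rw [coe_conjEquivOf] at e2
  exact e2.trans e1.symm

/-- The index-two condition at a conjugate. -/
theorem Max2_conj {x : G} (hx : x ∈ stabSub P c) (h : Q.map (MulAut.conj x).toMonoidHom = Q') (hQ : Max2 P Q) :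
    Max2 P Q' := by
  have hN := hx.1
  have hconj : ∀ a ∈ P, x⁻¹ * a * x ∈ P := by
    intro a ha
    refine (Subgroup.mem_normalizer_iff.mp hN _).mpr ?_
    have : x * (x⁻¹ * a * x) * x⁻¹ = a := by group
    rwa [this]
  have hmem : ∀ a, x⁻¹ * a * x ∈ Q → a ∈ Q' := by
    intro a ha
    rw [← h]
    exact ⟨_, ha, by
      change x * (x⁻¹ * a * x) * x⁻¹ = a
      group⟩
  have hmem' : ∀ a, a ∈ Q → x * a * x⁻¹ ∈ Q' := by
    intro a ha
    rw [← h]
    exact ⟨_, ha, rfl⟩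
  intro a ha b hb haQ hbQ
  have h1 := hQ _ (hconj a ha) _ (hconj b hb) (fun h2 => haQ (hmem a h2)) (fun h2 => hbQ (hmem b h2))
  have h2 := hmem' _ h1
  have h3 : x * (x⁻¹ * a * x * (x⁻¹ * b * x)) * x⁻¹ = a * b := by group
  rwa [h3] at h2

/-- **A conjugate of a solution is a solution.** -/
theorem sol_conj (g : Gl p M B P c) {s : Subgroup G → ℤˣ} (hs : Sol p M c s) {x : G} (hx : x ∈ stabSub P c) :
    Sol p M c (fun Q => s (Q.map (MulAut.conj x).toMonoidHom)) := by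
  intro Q hQP hQ1
  have L := g.lev hQP hQ1
  have h : Q.map (MulAut.conj x).toMonoidHom = Q.map (MulAut.conj x).toMonoidHom := rfl
  obtain ⟨⟨ξ', hξ', hF⟩, hg⟩ := hs _ (conj_le_P hx hQP h) (conj_ne_bot hQ1 h)
  refine ⟨⟨irrMap (conjEquivOf x h).symm ξ', ?_, fun w hw => ?_⟩, fun hQ => hg (Max2_conj hx h hQ)⟩
  · rw [← fbS_conj L.hM L.hmax hx hQP h] at hξ'
    exact (mem_blockMap_iff _ _ _).mp hξ'
  · have h1 := Fq_conj L hx h (irrMap (conjEquivOf x h).symm ξ') hw
    have h2 : irrMap (conjEquivOf x h) (irrMap (conjEquivOf x h).symm ξ') = ξ' :=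
      (irrEquiv (conjEquivOf x h)).right_inv ξ'
    rw [h2] at h1
    have hw' : x * w * x⁻¹ ∈ P := (Subgroup.mem_normalizer_iff.mp hx.1 w).mp hw
    rw [← h1, hF _ hw']
    simp only
    rw [map_conj_sp x w h]

/-- **The signs are invariant.** -/
theorem signs_conj (g : Gl p M B P c) {s : Subgroup G → ℤˣ} (hs : Sol p M c s) {x : G} (hx : x ∈ stabSub P c)
    (hQP : Q ≤ P) (hQ1 : Q ≠ ⊥) : s (Q.map (MulAut.conj x).toMonoidHom) = s Q :=
  (signs_unique g hs (sol_conj g hs hx) Q hQP hQ1).symm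

end Cfsg.Agent.Lib.Dade.Fr
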