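import Mathlib
import Cfsg.Agent.Lib.Dade.Fr.Un
import Cfsg.Agent.Lib.Dade.Fr.Mob
import Cfsg.Agent.Lib.Dade.Num

/-!
# Abelian defect groups with a free inertial quotient: the sections of the characters of `G`
-/

set_option linter.unusedSectionVars false
set_option linter.style.haveILetI false
set_option autoImplicit false

namespace Cfsg.Agent.Lib.Dade.Fr

open Cfsg MonoidAlgebra
open Cfsg.Agent.Lib.Blocks.Local Cfsg.Agent.Lib.Blocks.Central Cfsg.Agent.Lib.Blocks.Brauer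
open Cfsg.Agent.Lib.BlockH.Transport Cfsg.Agent.Lib.BlockH.Subpair Cfsg.Agent.Lib.BlockH.SubpairLE
open Cfsg.Agent.Lib.BlockH.ConjPair Cfsg.Agent.Lib.BlockH.Descent Cfsg.Agent.Lib.BlockH.MaxPair
open Cfsg.Agent.Lib.BlockH.InducedPairs Cfsg.Agent.Lib.BlockH.AbelianDefect
open Cfsg.Agent.Lib.BP.Cj Cfsg.Agent.Lib.BP.MIS
open Cfsg.Agent.Lib.BP.StarDefs Cfsg.Agent.Lib.BP.Star1
open Cfsg.Agent.Lib.BP.Star2 Cfsg.Agent.Lib.BP.Star3 Cfsg.Agent.Lib.BP.Rob1 Cfsg.Agent.Lib.BP.Rob2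
open Cfsg.Agent.Lib.BP.Nil1 Cfsg.Agent.Lib.BP.Nil2 Cfsg.Agent.Lib.BP.Nil3 Cfsg.Agent.Lib.BP.Nil4
open Cfsg.Agent.Lib.Contrib.Section
open Cfsg.Agent.Lib.Blocks.Main
open Cfsg.Agent.Lib.Char.Basic Cfsg.Agent.Lib.Char.Complete Cfsg.Agent.Lib.Char.Ortho Cfsg.Agent.Lib.Char.GenLattice
open Cfsg.Agent.Lib.Char.Degree
open Cfsg.Agent.Lib.OddChar.GaloisConj
open Cfsg.Agent.Lib.Dade.Base Cfsg.Agent.Lib.Dade.NilDual Cfsg.Agent.Lib.Dade.Gen Cfsg.Agent.Lib.Dade.Loc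
open Cfsg.Agent.Lib.Dade.Num
open scoped ComplexConjugate

universe u

/-- A combination of the homomorphisms vanishing off the identity has constant coefficients. -/
theorem coeff_const {A : Type*} [Group A] [Fintype A] [Fintype (A →* ℂˣ)] (d : (A →* ℂˣ) → ℂ)
    (h : ∀ w : A, w ≠ 1 → ∑ γ : A →* ℂˣ, d γ * ((γ w : ℂˣ) : ℂ) = 0) (γ₀ : A →* ℂˣ) :
    (Nat.card A : ℂ) * d γ₀ = ∑ γ : A →* ℂˣ, d γ := by
  classical
  have h1 : ∑ w : A, (∑ γ : A →* ℂˣ, d γ * ((γ w : ℂˣ) : ℂ)) * conj ((γ₀ w : ℂˣ) : ℂ) = ∑ γ : A →* ℂˣ, d γ := by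
    rw [Finset.sum_eq_single (1 : A)]
    · simp
    · intro w _ hw
      rw [h w hw, zero_mul]
    · intro h0
      exact absurd (Finset.mem_univ _) h0
  rw [← h1]
  simp only [Finset.sum_mul]
  rw [Finset.sum_comm]
  have h2 : ∀ γ : A →* ℂˣ, (∑ w : A, d γ * ((γ w : ℂˣ) : ℂ) * conj ((γ₀ w : ℂˣ) : ℂ)) =
      d γ * if γ = γ₀ then (Nat.card A : ℂ) else 0 := by
    intro γ
    rw [← sum_hom_mul_conj, Finset.mul_sum]
    refine Finset.sum_congr rfl fun w _ => ?_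
    ring
  simp_rw [h2]
  rw [Finset.sum_eq_single γ₀]
  · rw [if_pos rfl]
    ring
  · intro γ _ hγ
    rw [if_neg hγ, mul_zero]
  · intro h0
    exact absurd (Finset.mem_univ _) h0

variable {G : Type u} [Group G] [Fintype G] {p : ℕ} {M : Ideal AlgInt} [Fact p.Prime]

attribute [local instance] fK fIrr fBl fDual

variable {B : Set (IrrCharacter G)} {P Q R Q' R' : Subgroup G} {c : Set (IrrCharacter (Subgroup.centralizer (P : Set G)))}

/-- The action on the dual as an equivalence. -/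
noncomputable def dAEquiv (t : stabSub P c) : (P →* ℂˣ) ≃ (P →* ℂˣ) where
  toFun := Data.dA t
  invFun := Data.dA t⁻¹
  left_inv γ := by
    refine MonoidHom.ext fun w => ?_
    rw [Data.dA_apply, Data.dA_apply]
    congr 1
    apply Subtype.ext
    rw [Data.coe_actD, Data.coe_actD]
    simp only [InvMemClass.coe_inv, inv_inv]
    group
  right_inv γ := by
    refine MonoidHom.ext fun w => ?_
    rw [Data.dA_apply, Data.dA_apply]
    congr 1
    apply Subtype.ext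
    rw [Data.coe_actD, Data.coe_actD]
    simp only [InvMemClass.coe_inv, inv_inv]
    group

/-- Invariance of the coefficients. -/
theorem coeff_invariant (t : stabSub P c) (n : (P →* ℂˣ) → ℤ)
    (h : ∀ w : P, w ≠ 1 → ∑ γ : P →* ℂˣ, (n γ : ℂ) * ((γ (Data.actD t w) : ℂˣ) : ℂ) = ∑ γ : P →* ℂˣ, (n γ : ℂ) * ((γ w : ℂˣ) : ℂ))
    (γ₀ : P →* ℂˣ) : n (Data.dA t γ₀) = n γ₀ := by
  classical
  have h1 : ∀ w : P, w ≠ 1 → ∑ γ : P →* ℂˣ, (((n (Data.dA t γ) : ℂ) - (n γ : ℂ))) * ((γ w : ℂˣ) : ℂ) = 0 := by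
    intro w hw
    have h2 : ∑ γ : P →* ℂˣ, (n (Data.dA t γ) : ℂ) * ((γ w : ℂˣ) : ℂ) =
        ∑ γ : P →* ℂˣ, (n γ : ℂ) * ((γ (Data.actD t w) : ℂˣ) : ℂ) := by
      refine Fintype.sum_equiv (dAEquiv t) _ _ fun γ => ?_
      have h3 : Data.dA t γ (Data.actD t w) = γ w := by
        rw [Data.dA_apply]
        congr 1
        apply Subtype.ext
        rw [Data.coe_actD, Data.coe_actD]
        simp only [InvMemClass.coe_inv]
        group
      change (n (Data.dA t γ) : ℂ) * _ = (n (Data.dA t γ) : ℂ) * ((Data.dA t γ (Data.actD t w) : ℂˣ) : ℂ)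
      rw [h3]
    simp only [sub_mul]
    rw [Finset.sum_sub_distrib, h2, h w hw, sub_self]
  have h2 := coeff_const _ h1 γ₀
  have h3 : ∑ γ : P →* ℂˣ, ((n (Data.dA t γ) : ℂ) - (n γ : ℂ)) = 0 := by
    rw [Finset.sum_sub_distrib, sub_eq_zero]
    exact Fintype.sum_equiv (dAEquiv t) _ _ fun γ => rfl
  rw [h3] at h2
  have hP : (Nat.card P : ℂ) ≠ 0 := by exact_mod_cast Nat.card_pos.ne'
  have h4 := (mul_eq_zero.mp h2).resolve_left hP
  have h5 : (n (Data.dA t γ₀) : ℂ) = n γ₀ := sub_eq_zero.mp h4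
  exact_mod_cast h5

theorem zpowers_ne_bot {w : G} (h : w ≠ 1) : Subgroup.zpowers w ≠ ⊥ := by
  intro h1
  rw [Subgroup.zpowers_eq_bot] at h1
  exact h h1

/-- The section at an element of the defect group. -/
theorem Fs_eq_secD_zpowers (g : Gl p M B P c) {θ : G → ℂ} (hθ : IsClassFunction G θ) {w : G} (hw : w ∈ P) (h1 : w ≠ 1)
    {y : G} (hy : y ∈ cZ w) (hyr : ¬ p ∣ orderOf y) :
    Fs θ w (bb p M c w) y = secD p M c (Subgroup.zpowers w) θ w * baseS p M c (Subgroup.zpowers w) ⟨y, hy⟩ := by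
  have L : Lev p M B P c (Subgroup.zpowers w) := g.lev ((Subgroup.zpowers_le).mpr hw) (zpowers_ne_bot h1)
  have h2 := Fs_eq_blockPart hθ w (bb p M c w) ⟨y, hy⟩
  rw [show Fs θ w (bb p M c w) y = _ from h2, ← fbS_zpowers g.hM g.hmax hw]
  exact L.blockPart_eq _ (y := ⟨y, hy⟩) (by rwa [Subgroup.orderOf_mk])

open Classical in
/-- **The section package.** -/
theorem exists_section_package (g : Gl p M B P c) :
    ∃ (m : IrrCharacter G → (P →* ℂˣ) → ℤ) (Ξ : G → G → ℂ),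
      (∀ (χ : IrrCharacter G) w (hw : w ∈ P), w ≠ 1 → ∀ y ∈ cZ w, ¬ p ∣ orderOf y →
        Fs (χ : G → ℂ) w (bb p M c w) y = (∑ γ : P →* ℂˣ, (m χ γ : ℂ) * ((γ ⟨w, hw⟩ : ℂˣ) : ℂ)) * Ξ w y) ∧
      (∀ w ∈ P, w ≠ 1 → (∑ y : G, if y ∈ cZ w ∧ ¬ p ∣ orderOf y then Ξ w y * conj (Ξ w y) else 0) =
        (Nat.card (cZ w) : ℂ) / Nat.card P) ∧
      (∀ (χ : IrrCharacter G) (t : stabSub P c) (γ : P →* ℂˣ), m χ (Data.dA t γ) = m χ γ) := by
  obtain ⟨s, hs⟩ := exists_signs g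
  obtain ⟨μ, hμ⟩ := exists_moebius (X := Subgroup G)
  letI := Fintype.ofFinite (Subgroup G)
  letI := Fintype.ofFinite P
  have hex : ∀ (χ : IrrCharacter G) (Q : Subgroup G), ∃ m : (P →* ℂˣ) → ℕ, Q ≤ P → Q ≠ ⊥ →
      ∀ w (hw : w ∈ P), secD p M c (sp Q w) (χ : G → ℂ) w = YY m ⟨w, hw⟩ * (sc (s Q) * sc (s (sp Q w))) := by
    intro χ Q
    by_cases hQ : Q ≤ P ∧ Q ≠ ⊥
    · have L := g.lev hQ.1 hQ.2
      obtain ⟨ξ, hξ, hF⟩ := (hs Q hQ.1 hQ.2).1
      obtain ⟨m, -, hm⟩ := L.exists_mult_secD hξ (isCharacter_restrict L.H (isCharacter_of_isIrrCharacter χ.2))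
      refine ⟨m, fun _ _ w hw => ?_⟩
      rw [← hF w hw]
      exact hm w hw
    · exact ⟨fun _ => 0, fun h1 h2 => absurd ⟨h1, h2⟩ hQ⟩
  choose mm hmm using hex
  let S : Finset (Subgroup G) := Finset.univ.filter (fun Q : Subgroup G => Q ≤ P ∧ Q ≠ ⊥)
  let n : IrrCharacter G → (P →* ℂˣ) → ℤ := fun χ γ => ∑ Q ∈ S, (-(μ Q)) * ((s Q : ℤ) * (mm χ Q γ : ℤ))
  have hkey : ∀ (χ : IrrCharacter G) w (hw : w ∈ P), w ≠ 1 →
      ∑ γ : P →* ℂˣ, (n χ γ : ℂ) * ((γ ⟨w, hw⟩ : ℂˣ) : ℂ) =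
        sc (s (Subgroup.zpowers w)) * secD p M c (Subgroup.zpowers w) (χ : G → ℂ) w := by
    intro χ w hw h1
    have h2 := moebius_glue hμ (zpowers_ne_bot h1) ((Subgroup.zpowers_le).mpr hw)
      (fun R => sc (s R) * secD p M c R (χ : G → ℂ) w)
    rw [← h2]
    simp only [n]
    push_cast
    simp only [Finset.sum_mul]
    rw [Finset.sum_comm]
    refine Finset.sum_congr rfl fun Q hQ => ?_
    have hQ' := (Finset.mem_filter.mp hQ).2
    have h3 := hmm χ Q hQ'.1 hQ'.2 w hw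
    have h4 := sc_mul_self (s (sp Q w))
    have h5 : sc (s (Q ⊔ Subgroup.zpowers w)) * secD p M c (Q ⊔ Subgroup.zpowers w) (χ : G → ℂ) w =
        sc (s Q) * YY (mm χ Q) ⟨w, hw⟩ := by
      change sc (s (sp Q w)) * secD p M c (sp Q w) (χ : G → ℂ) w = _
      rw [h3]
      linear_combination (sc (s Q) * YY (mm χ Q) ⟨w, hw⟩) * h4
    rw [h5, YY, Finset.mul_sum, Finset.mul_sum]
    refine Finset.sum_congr rfl fun γ _ => ?_
    have e1 : (((s Q : ℤˣ) : ℤ) : ℂ) = sc (s Q) := rfl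
    rw [e1]
    ring
  let Ξ : G → G → ℂ := fun w y => if h : y ∈ cZ w then
    sc (s (Subgroup.zpowers w)) * baseS p M c (Subgroup.zpowers w) ⟨y, h⟩ else 0
  refine ⟨n, Ξ, ?_, ?_, ?_⟩
  · intro χ w hw h1 y hy hyr
    rw [hkey χ w hw h1, Fs_eq_secD_zpowers g (class_irr χ) hw h1 hy hyr]
    simp only [Ξ]
    rw [dif_pos hy]
    have h4 := sc_mul_self (s (Subgroup.zpowers w))
    linear_combination (-(secD p M c (Subgroup.zpowers w) (χ : G → ℂ) w * baseS p M c (Subgroup.zpowers w) ⟨y, hy⟩)) * h4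
  · intro w hw h1
    have L : Lev p M B P c (Subgroup.zpowers w) := g.lev ((Subgroup.zpowers_le).mpr hw) (zpowers_ne_bot h1)
    have h2 := L.secC_base
    rw [secC] at h2
    have h3 : (∑ y : G, if y ∈ cZ w ∧ ¬ p ∣ orderOf y then Ξ w y * conj (Ξ w y) else 0) =
        ∑ k : Subgroup.centralizer ((Subgroup.zpowers w : Subgroup G) : Set G), if ¬ p ∣ orderOf k then
          baseS p M c (Subgroup.zpowers w) k * conj (baseS p M c (Subgroup.zpowers w) k) else 0 := by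
      rw [Cfsg.Agent.Lib.Blocks.Induced.sum_eq_sum_subgroup (cZ w) _ (fun y hy => by
        rw [if_neg (fun h => hy h.1)])]
      refine Finset.sum_congr rfl fun k _ => ?_
      have hk : (k : G) ∈ cZ w := k.2
      have hu : sc (s (Subgroup.zpowers w)) * conj (sc (s (Subgroup.zpowers w))) = 1 := by
        have h4 : conj (sc (s (Subgroup.zpowers w))) = sc (s (Subgroup.zpowers w)) := by
          simp [sc]
        rw [h4, sc_mul_self]
      have hΞ : Ξ w k = sc (s (Subgroup.zpowers w)) * baseS p M c (Subgroup.zpowers w) k := by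
        simp only [Ξ]
        rw [dif_pos hk]
      by_cases hr : ¬ p ∣ orderOf k
      · rw [if_pos ⟨hk, by rwa [Subgroup.orderOf_coe]⟩, if_pos hr, hΞ, map_mul]
        linear_combination (baseS p M c (Subgroup.zpowers w) k * conj (baseS p M c (Subgroup.zpowers w) k)) * hu
      · rw [if_neg (fun h => hr (by rw [← Subgroup.orderOf_coe]; exact h.2)), if_neg hr]
    rw [h3]
    have hH : (Nat.card (cZ w) : ℂ) ≠ 0 := by exact_mod_cast Nat.card_pos.ne'
    have hP : (Nat.card P : ℂ) ≠ 0 := by exact_mod_cast Nat.card_pos.ne'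
    field_simp at h2 ⊢
    exact h2
  · intro χ t γ
    refine coeff_invariant t (n χ) (fun w hw => ?_) γ
    have hw1 : (w : G) ≠ 1 := fun h => hw (Subtype.ext h)
    have h1 := hkey χ w w.2 hw1
    have h2 := hkey χ (Data.actD t w : P) (Data.actD t w : P).2 (by
      intro h
      apply hw
      have h3 : Data.actD t w = 1 := Subtype.ext h
      exact (map_eq_one_iff _ (MulEquiv.injective _)).mp h3)
    have h1' : ∑ γ : P →* ℂˣ, (n χ γ : ℂ) * ((γ w : ℂˣ) : ℂ) = _ := h1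
    have h2' : ∑ γ : P →* ℂˣ, (n χ γ : ℂ) * ((γ (Data.actD t w) : ℂˣ) : ℂ) = _ := h2
    rw [h1', h2']
    have hz : (Subgroup.zpowers (w : G)).map (MulAut.conj (t : G)).toMonoidHom = Subgroup.zpowers ((Data.actD t w : P) : G) :=
      map_zpowers_conj _ _
    have L : Lev p M B P c (Subgroup.zpowers (w : G)) := g.lev ((Subgroup.zpowers_le).mpr w.2) (zpowers_ne_bot hw1)
    have h3 := signs_conj g hs t.2 L.hQP L.hQ1
    rw [hz] at h3
    rw [h3]
    congr 1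
    exact secD_conj L t.2 hz (class_irr χ) (w : G)

end Cfsg.Agent.Lib.Dade.Fr
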