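import Mathlib
import Cfsg.Agent.Lib.Dade.Fr.Pk
import Cfsg.Agent.Lib.KleinBlock.Fusion

/-!
# Abelian defect groups with a free inertial quotient: the count of the characters
-/

set_option linter.unusedSectionVars false
set_option linter.style.haveILetI false
set_option autoImplicit false

namespace Cfsg.Agent.Lib.Dade.Fr

open Cfsg MonoidAlgebra
open Cfsg.Agent.Lib.Blocks.Local Cfsg.Agent.Lib.Blocks.Central Cfsg.Agent.Lib.Blocks.Brauer
open Cfsg.Agent.Lib.BlockH.Transport Cfsg.Agent.Lib.BlockH.Subpair Cfsg.Agent.Lib.BlockH.SubpairLE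
open Cfsg.Agent.Lib.BlockH.ConjPair Cfsg.Agent.Lib.BlockH.Descent Cfsg.Agent.Lib.BlockH.MaxPair
open Cfsg.Agent.Lib.BlockH.InducedPairs Cfsg.Agent.Lib.BlockH.AbelianDefect
open Cfsg.Agent.Lib.BP.StarDefs Cfsg.Agent.Lib.BP.Star1
open Cfsg.Agent.Lib.BP.Star2 Cfsg.Agent.Lib.BP.Star3 Cfsg.Agent.Lib.BP.Rob1 Cfsg.Agent.Lib.BP.Rob2
open Cfsg.Agent.Lib.BP.Nil1 Cfsg.Agent.Lib.BP.Nil2 Cfsg.Agent.Lib.BP.Nil3 Cfsg.Agent.Lib.BP.Nil4
open Cfsg.Agent.Lib.Contrib.Section
open Cfsg.Agent.Lib.BlockOne.Count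
open Cfsg.Agent.Lib.Dade.Base Cfsg.Agent.Lib.Dade.NilDual Cfsg.Agent.Lib.Dade.Gen Cfsg.Agent.Lib.Dade.Loc
open Cfsg.Agent.Lib.Dade.Row Cfsg.Agent.Lib.Dade.Count
open Cfsg.Agent.Lib.KleinBlock.Fusion
open scoped ComplexConjugate

universe u

variable {G : Type u} [Group G] [Fintype G] {p : ℕ} {M : Ideal AlgInt} [Fact p.Prime]

attribute [local instance] fK fIrr fBl fDual

variable {B : Set (IrrCharacter G)} {D : Subgroup G} {c : Set (IrrCharacter (Subgroup.centralizer (D : Set G)))}

/-- The action on the dual is free outside the centralizer. -/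
theorem dA_free (L : Gl p M B D c) {t : stabSub D c} (ht : (t : G) ∉ Subgroup.centralizer (D : Set G)) {a : D →* ℂˣ}
    (h : Data.dA t a = a) : a = 1 := by
  classical
  have hD : ∀ u v : D, u * v = v * u := fun u v => Subtype.ext (L.hab _ u.2 _ v.2)
  obtain ⟨σ, hσ⟩ : ∃ σ : MulAut D, σ = Data.actD t⁻¹ := ⟨_, rfl⟩
  have hσt : ∀ v : D, ((σ v : D) : G) = (t : G)⁻¹ * v * (t : G) := fun v => by
    rw [hσ, Data.coe_actD_inv]
  let φ : D → D := fun w => w * (σ w)⁻¹
  have hφ : Function.Injective φ := by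
    intro w w' he
    have h1 : w * w'⁻¹ = σ (w * w'⁻¹) := by
      have h2 : w * (σ w)⁻¹ = w' * (σ w')⁻¹ := he
      have h3 : σ (w * w'⁻¹) = σ w * (σ w')⁻¹ := by
        rw [map_mul, map_inv]
      rw [h3]
      have h4 : w = w' * (σ w')⁻¹ * σ w := by
        rw [← h2]
        group
      calc w * w'⁻¹ = w' * (σ w')⁻¹ * σ w * w'⁻¹ := by
            nth_rw 1 [h4]
        _ = w'⁻¹ * w' * ((σ w')⁻¹ * σ w) := by
            rw [hD _ w'⁻¹]
            group
        _ = _ := by
            rw [inv_mul_cancel, one_mul, hD]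
    by_contra hne
    have hu : ((w * w'⁻¹ : D) : G) ≠ 1 := by
      intro h2
      apply hne
      have h3 : w * w'⁻¹ = 1 := Subtype.ext h2
      exact mul_inv_eq_one.mp h3
    apply ht
    refine L.hfree t t.2 _ (w * w'⁻¹).2 hu ?_
    have h2 := congrArg Subtype.val h1
    rw [hσt] at h2
    calc (t : G) * ((w * w'⁻¹ : D) : G) * (t : G)⁻¹ =
        (t : G) * ((t : G)⁻¹ * ((w * w'⁻¹ : D) : G) * (t : G)) * (t : G)⁻¹ := by rw [← h2]
      _ = _ := by group
  have hsurj : Function.Surjective φ := Finite.surjective_of_injective hφ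
  refine MonoidHom.ext fun w => ?_
  obtain ⟨v, rfl⟩ := hsurj w
  have h1 : a (σ v) = a v := by
    have := DFunLike.congr_fun h v
    rwa [Data.dA_apply, ← hσ] at this
  change a (v * (σ v)⁻¹) = 1
  rw [map_mul, map_inv, h1, mul_inv_cancel]


section

variable (L : Gl p M B D c)

include L

/-- The stabilizers of the action on the nontrivial elements. -/
theorem stabilizer_sh (w : Sh D) :
    MulAction.stabilizer (stabSub D c) w = (Subgroup.centralizer (D : Set G)).subgroupOf (stabSub D c) := by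
  ext t
  rw [MulAction.mem_stabilizer_iff, Subgroup.mem_subgroupOf]
  constructor
  · intro h
    have h1 := congrArg (fun a : Sh D => ((a.1 : D) : G)) h
    simp only [coe_smul_sh] at h1
    exact L.hfree t t.2 _ w.1.2 (fun h2 => w.2 (Subtype.ext h2)) h1
  · intro h
    apply Subtype.ext
    apply Subtype.ext
    rw [coe_smul_sh, ← Subgroup.mem_centralizer_iff.mp h _ w.1.2]
    group

/-- The stabilizers of the action on the nontrivial elements of the dual. -/
theorem stabilizer_dsh (γ : DSh D) :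
    MulAction.stabilizer (stabSub D c) γ = (Subgroup.centralizer (D : Set G)).subgroupOf (stabSub D c) := by
  ext t
  rw [MulAction.mem_stabilizer_iff, Subgroup.mem_subgroupOf]
  constructor
  · intro h
    by_contra hn
    have h1 := congrArg Subtype.val h
    rw [coe_smul_dsh] at h1
    exact γ.2 (dA_free L hn h1)
  · intro h
    apply Subtype.ext
    rw [coe_smul_dsh]
    refine MonoidHom.ext fun w => ?_
    rw [Data.dA_apply]
    congr 1
    apply Subtype.ext
    rw [Data.coe_actD_inv]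
    have h2 : (w : G) * (t : G) = t * w := Subgroup.mem_centralizer_iff.mp h _ w.2
    rw [mul_assoc, h2]
    group

theorem card_sh : Nat.card (Sh D) = Nat.card D - 1 := by
  classical
  letI := Fintype.ofFinite D
  rw [Nat.card_eq_fintype_card, Nat.card_eq_fintype_card, Fintype.card_subtype_compl, Fintype.card_subtype_eq]

theorem card_dsh : Nat.card (DSh D) = Nat.card D - 1 := by
  classical
  letI := Fintype.ofFinite D
  have hD : ∀ u v : D, u * v = v * u := fun u v => Subtype.ext (L.hab _ u.2 _ v.2)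
  rw [← (Cfsg.Agent.Lib.Glauberman.Act.dual_facts hD).2.1]
  rw [Nat.card_eq_fintype_card, Nat.card_eq_fintype_card, Fintype.card_subtype_compl, Fintype.card_subtype_eq]

/-- The number of orbits on the nontrivial elements. -/
theorem relIndex_mul_card_sh :
    (Subgroup.centralizer (D : Set G)).relIndex (stabSub D c) * Nat.card (MulAction.orbitRel.Quotient (stabSub D c) (Sh D)) =
      Nat.card D - 1 := by
  rw [← card_sh L]
  exact index_mul_card_orbits _ (stabilizer_sh L)

/-- The number of orbits on the nontrivial elements of the dual. -/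
theorem relIndex_mul_card_dsh :
    (Subgroup.centralizer (D : Set G)).relIndex (stabSub D c) * Nat.card (MulAction.orbitRel.Quotient (stabSub D c) (DSh D)) =
      Nat.card D - 1 := by
  rw [← card_dsh L]
  exact index_mul_card_orbits _ (stabilizer_dsh L)

/-- **Two conjugates of an element below the maximal pair are conjugate under the stabilizer.** -/
theorem exists_stab_of_under {x : G} {c₁ : Set (IrrCharacter (cZ x))} (hc₁ : IsPBlock M c₁) {t s : G}
    (ht : IsUnder p M c x c₁ t) (hs : IsUnder p M c x c₁ s) :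
    ∃ τ ∈ stabSub D c, τ * (t * x * t⁻¹) * τ⁻¹ = s * x * s⁻¹ := by
  have h₀ : Rel p M D c x (t * x * t⁻¹) c₁ := ⟨t, rfl, (isUnder_iff (conj_zpowers rfl)).mp ht⟩
  have h' : Rel p M D c x (s * x * s⁻¹) c₁ := ⟨s, rfl, (isUnder_iff (conj_zpowers rfl)).mp hs⟩
  exact exists_stab_of_rel L.hM L.hmax L.hab (conj_mem_of_isUnder ht) (conj_mem_of_isUnder hs) hc₁ h₀ h'

/-- The blocks under the maximal pair at `x`, and the induced blocks. -/
theorem card_under_le (x : G) :
    Nat.card {c₁ : {c₁ : Set (IrrCharacter (cZ x)) // IsPBlock M c₁} // ∃ t, IsUnder p M c x c₁.1 t} ≤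
      subT M p B x := by
  classical
  haveI := isPrime_of_pModular L.hM
  haveI : Finite (Subgroup.centralizer ({x} : Set G)) := inferInstance
  haveI := Cfsg.Agent.Lib.Char.Ortho.finite_irrCharacter (G := Subgroup.centralizer ({x} : Set G))
  let sg : Subgroup.centralizer ({x} : Set G) ≃* cZ x := MulEquiv.subgroupCongr (cZ_eq x).symm
  have hfin : {b : Set (IrrCharacter ↥(Subgroup.centralizer ({x} : Set G))) |
      IsInducedBlock M (Subgroup.centralizer ({x} : Set G)) b B}.Finite := Set.toFinite _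
  rw [subT, finsum_mem_eq_finite_toFinset_sum _ hfin]
  have h1 : hfin.toFinset.card ≤ ∑ b ∈ hfin.toFinset, blockRank p b := by
    rw [Finset.card_eq_sum_ones]
    refine Finset.sum_le_sum fun b hb => ?_
    have hb' := hfin.mem_toFinset.mp hb
    exact one_le_blockRank (isPBlock_nonempty hb'.1)
  refine le_trans ?_ h1
  rw [← Nat.card_eq_card_finite_toFinset hfin]
  refine Nat.card_le_card_of_injective (fun c₁ => ⟨blockMap sg.symm c₁.1.1, ?_⟩) ?_
  · obtain ⟨⟨c₁, hc₁⟩, t, ht⟩ := c₁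
    have h2 := induced_of_under L.hM L.hmax ht
    have h3 := Cfsg.Agent.Lib.BlockCoverN.Tau.isInducedBlock_map (MulEquiv.refl G) sg.symm (fun _ => rfl) h2
    have e : blockMap (MulEquiv.refl G) B = B := blockMap_refl B
    rwa [e] at h3
  · intro c₁ c₂ h
    have h2 := congrArg Subtype.val h
    simp only at h2
    have h3 := congrArg (blockMap sg) h2
    rw [blockMap_blockMap_symm, blockMap_blockMap_symm] at h3
    exact Subtype.ext (Subtype.ext h3)

/-- A conjugate of an element of the defect group carries a block below the maximal pair. -/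
theorem exists_block_under {w x g : G} (hw : w ∈ D) (hg : g * w * g⁻¹ = x) :
    ∃ c₁ : {c₁ : Set (IrrCharacter (cZ x)) // IsPBlock M c₁}, IsUnder p M c x c₁.1 g⁻¹ := by
  haveI := isPrime_of_pModular L.hM
  subst hg
  obtain ⟨h2, h3⟩ := bb_spec L.hM L.hmax hw
  refine ⟨⟨cjBl g w (bb p M c w), isPBlock_cjBl h2⟩, ?_⟩
  change IsUnder p M c (g * w * g⁻¹) (cjBl g w (bb p M c w)) g⁻¹
  rw [isUnder_cjBl, inv_mul_cancel]
  exact h3

/-- **The lower bound for the number of characters.** -/
theorem add_card_sh_le :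
    blockRank p B + Nat.card (MulAction.orbitRel.Quotient (stabSub D c) (Sh D)) ≤ Nat.card B := by
  classical
  haveI := isPrime_of_pModular L.hM
  haveI := Cfsg.Agent.Lib.Char.Ortho.finite_irrCharacter (G := G)
  letI : Fintype (IrrCharacter G) := Fintype.ofFinite _
  obtain ⟨X, h1, hX, hXrep⟩ := exists_reps (G := G) p
  rw [card_eq_add L.hM L.hmax.1.2.1 X h1 hX hXrep]
  refine Nat.add_le_add_left ?_ _
  letI := Fintype.ofFinite (MulAction.orbitRel.Quotient (stabSub D c) (Sh D))
  -- the element of `X` of an orbit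
  have hord : ∀ w ∈ D, ∃ k : ℕ, orderOf w = p ^ k := fun w hw =>
    Cfsg.Agent.Lib.Blocks.Third.orderOf_of_mem_isPGroup L.hmax.1.1.1 hw
  have hrep : ∀ ω : MulAction.orbitRel.Quotient (stabSub D c) (Sh D),
      ∃ x, (x ∈ X ∧ IsConj ((Quotient.out ω : Sh D).1 : G) x) ∧ x ≠ 1 := by
    intro ω
    obtain ⟨x, hx, -⟩ := hXrep _ (hord _ (Quotient.out ω : Sh D).1.2)
    refine ⟨x, hx, ?_⟩
    rintro rfl
    exact (Quotient.out ω : Sh D).2 (Subtype.ext (isConj_one_right.mp hx.2.symm))
  choose F hF hF1 using hrep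
  rw [Nat.card_eq_fintype_card, ← Finset.card_univ,
    Finset.card_eq_sum_card_fiberwise (f := F) (t := X.erase 1)
      (fun ω _ => Finset.mem_coe.mpr (Finset.mem_erase.mpr ⟨hF1 ω, (hF ω).1⟩))]
  refine Finset.sum_le_sum fun x _ => ?_
  refine le_trans ?_ (card_under_le L x)
  rw [← Fintype.card_subtype, ← Nat.card_eq_fintype_card]
  -- the block of an orbit
  have hb : ∀ ω : {ω // F ω = x}, ∃ (g : G) (c₁ : {c₁ : Set (IrrCharacter (cZ x)) // IsPBlock M c₁}),
      IsUnder p M c x c₁.1 g ∧ g * x * g⁻¹ = ((Quotient.out ω.1 : Sh D).1 : G) := by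
    rintro ⟨ω, rfl⟩
    obtain ⟨g, hg⟩ := isConj_iff.mp (hF ω).2
    obtain ⟨c₁, h2⟩ := exists_block_under L (Quotient.out ω : Sh D).1.2 hg
    refine ⟨g⁻¹, c₁, h2, ?_⟩
    have h3 : g⁻¹ * (g * ((Quotient.out ω : Sh D).1 : G) * g⁻¹) * g⁻¹⁻¹ = ((Quotient.out ω : Sh D).1 : G) := by group
    rw [hg] at h3
    exact h3
  choose g c₁ hg1 hg2 using hb
  refine Nat.card_le_card_of_injective (fun ω => ⟨c₁ ω, g ω, hg1 ω⟩) ?_
  intro ω ω' he
  have h2 : c₁ ω = c₁ ω' := congrArg Subtype.val he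
  have h3 := hg1 ω'
  rw [← h2] at h3
  obtain ⟨τ, hτ, h4⟩ := exists_stab_of_under L (c₁ ω).2 (hg1 ω) h3
  rw [hg2, hg2] at h4
  apply Subtype.ext
  have h5 : ((⟨τ, hτ⟩ : stabSub D c) • (Quotient.out ω.1 : Sh D) : Sh D) = (Quotient.out ω'.1 : Sh D) :=
    Subtype.ext (Subtype.ext h4)
  rw [← Quotient.out_eq ω.1, ← Quotient.out_eq ω'.1]
  exact Quotient.sound ⟨(⟨τ, hτ⟩ : stabSub D c)⁻¹, by
    rw [← h5]
    simp⟩

end



end Cfsg.Agent.Lib.Dade.Fr
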