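import Mathlib
import Cfsg.Agent.Lib.Dade.Fr.Cnt

/-!
# Abelian defect groups with a free inertial quotient: the numerical structure
-/

set_option linter.unusedSectionVars false
set_option linter.style.haveILetI false
set_option autoImplicit false

namespace Cfsg.Agent.Lib.Dade.Fr

open Cfsg MonoidAlgebra
open Cfsg.Agent.Lib.Blocks.Local Cfsg.Agent.Lib.Blocks.Central Cfsg.Agent.Lib.Blocks.Brauer
open Cfsg.Agent.Lib.BlockH.Transport Cfsg.Agent.Lib.BlockH.Subpair Cfsg.Agent.Lib.BlockH.SubpairLE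
open Cfsg.Agent.Lib.BlockH.ConjPair Cfsg.Agent.Lib.BlockH.Descent Cfsg.Agent.Lib.BlockH.MaxPair
open Cfsg.Agent.Lib.BlockH.InducedPairs Cfsg.Agent.Lib.BlockH.AbelianDefect
open Cfsg.Agent.Lib.BP.StarDefs Cfsg.Agent.Lib.BP.Star1
open Cfsg.Agent.Lib.BP.Star2 Cfsg.Agent.Lib.BP.Star3 Cfsg.Agent.Lib.BP.Rob1 Cfsg.Agent.Lib.BP.Rob2
open Cfsg.Agent.Lib.BP.Nil1 Cfsg.Agent.Lib.BP.Nil2 Cfsg.Agent.Lib.BP.Nil3 Cfsg.Agent.Lib.BP.Nil4
open Cfsg.Agent.Lib.Contrib.Section
open Cfsg.Agent.Lib.Char.Basic Cfsg.Agent.Lib.Char.Complete Cfsg.Agent.Lib.Char.Ortho Cfsg.Agent.Lib.Char.GenLattice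
open Cfsg.Agent.Lib.Char.Degree
open Cfsg.Agent.Lib.Dade.Base Cfsg.Agent.Lib.Dade.NilDual Cfsg.Agent.Lib.Dade.Gen Cfsg.Agent.Lib.Dade.Loc
open Cfsg.Agent.Lib.Dade.Row Cfsg.Agent.Lib.Dade.Count Cfsg.Agent.Lib.Dade.Num
open Cfsg.Agent.Lib.KleinBlock.Fusion
open scoped ComplexConjugate

universe u

/-- The rank bound. -/
theorem la_card {ι I : Type*} [Fintype ι] [Fintype I] [DecidableEq ι] [DecidableEq I]
    (P : Matrix ι ι ℂ) (A : Matrix ι I ℂ) (E : Matrix I ι ℂ) (l : ℕ) (hP : P.rank ≤ l) (h : P + A * E = 1) :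
    Fintype.card ι ≤ l + Fintype.card I := by
  classical
  set V := LinearMap.ker E.mulVecLin with hV
  have hnull : Module.finrank ℂ (LinearMap.range E.mulVecLin) + Module.finrank ℂ V = Fintype.card ι := by
    have := LinearMap.finrank_range_add_finrank_ker E.mulVecLin
    rwa [Module.finrank_fintype_fun_eq_card] at this
  have hrE : Module.finrank ℂ (LinearMap.range E.mulVecLin) ≤ Fintype.card I := by
    have := Submodule.finrank_le (LinearMap.range E.mulVecLin)
    rwa [Module.finrank_fintype_fun_eq_card] at this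
  have hsub : V ≤ LinearMap.range P.mulVecLin := by
    intro v hv
    refine ⟨v, ?_⟩
    have hEv : E.mulVec v = 0 := hv
    have h1 : (P + A * E).mulVec v = v := by rw [h, Matrix.one_mulVec]
    rw [Matrix.add_mulVec, ← Matrix.mulVec_mulVec, hEv, Matrix.mulVec_zero, add_zero] at h1
    exact h1
  have hrP : Module.finrank ℂ (LinearMap.range P.mulVecLin) ≤ l := hP
  have hle := Submodule.finrank_mono hsub
  omega

variable {G : Type u} [Group G] [Fintype G] {p : ℕ} {M : Ideal AlgInt} [Fact p.Prime]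

attribute [local instance] fK fIrr fBl fDual fOrb fB

variable {B : Set (IrrCharacter G)} {D : Subgroup G} {c : Set (IrrCharacter (Subgroup.centralizer (D : Set G)))}

/-- The number of conjugations below the maximal pair. -/
theorem nU_bb (L : Gl p M B D c) {w : G} (hw : w ∈ D) (h1 : w ≠ 1) :
    nU p M c w (bb p M c w) = (Subgroup.centralizer (D : Set G)).relIndex (stabSub D c) * Nat.card (cZ w) := by
  classical
  haveI := isPrime_of_pModular L.hM
  obtain ⟨hb, hb1⟩ := bb_spec L.hM L.hmax hw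
  -- the description of the conjugations
  have hfact : ∀ t : G, IsUnder p M c w (bb p M c w) t → ∃ τ ∈ stabSub D c, ∃ d ∈ cZ w, t = τ * d := by
    intro t ht
    have hQ : (Subgroup.zpowers w).map (MulAut.conj t).toMonoidHom = Subgroup.zpowers (t * w * t⁻¹) := conj_zpowers rfl
    have ht' := (isUnder_iff hQ).mp ht
    have hmem := conj_mem_of_isUnder ht
    obtain ⟨τ, hτ, c', hc', he⟩ := exists_fusion L.hM L.hmax L.hab ((Subgroup.zpowers_le).mpr hw)
      ((Subgroup.zpowers_le).mpr hmem) hb (isPBlock_blockMap _ hb) (isUnder_one_iff.mp hb1) ht' hQ rfl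
    refine ⟨τ, hτ, τ⁻¹ * t, ?_, by group⟩
    have hc'' : Commute c' (t * w * t⁻¹) := mem_cZ.mp hc'
    rw [mem_cZ]
    have e1 : τ⁻¹ * t = t⁻¹ * c'⁻¹ * t := by
      rw [he]
      group
    change τ⁻¹ * t * w = w * (τ⁻¹ * t)
    rw [e1]
    have e2 : c'⁻¹ * (t * w * t⁻¹) = (t * w * t⁻¹) * c'⁻¹ := (hc''.inv_left).eq
    calc t⁻¹ * c'⁻¹ * t * w = t⁻¹ * (c'⁻¹ * (t * w * t⁻¹)) * t := by group
      _ = t⁻¹ * ((t * w * t⁻¹) * c'⁻¹) * t := by rw [e2]
      _ = _ := by group
  have hunder : ∀ τ ∈ stabSub D c, ∀ d ∈ cZ w, IsUnder p M c w (bb p M c w) (τ * d) := by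
    intro τ hτ d hd
    exact isUnder_stab_mul L.hM L.hmax.1.1.2 ((isUnder_of_mem_cZ hd hb).mpr hb1) hτ
  have hCT : Subgroup.centralizer (D : Set G) ≤ stabSub D c := fun u hu =>
    ⟨Cfsg.Agent.Lib.BlockH.Sylow.centralizer_le_normalizer'' _ hu,
      Cfsg.Agent.Lib.BlockH.Defects.stabilizesBlock_of_mem _ _ hu⟩
  have hCZ : Subgroup.centralizer (D : Set G) ≤ cZ w := Subgroup.centralizer_le ((Subgroup.zpowers_le).mpr hw)
  have hinter : ∀ z ∈ stabSub D c, z ∈ cZ w → z ∈ Subgroup.centralizer (D : Set G) := by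
    intro z hz hz'
    refine L.hfree z hz w hw h1 ?_
    have h2 : z * w = w * z := (mem_cZ.mp hz').eq
    rw [h2]
    group
  -- the bijection
  let X := {t : G // IsUnder p M c w (bb p M c w) t}
  choose τ hτ d hd hτd using fun t : X => hfact t.1 t.2
  let Φ : X × Subgroup.centralizer (D : Set G) → stabSub D c × cZ w := fun x =>
    (⟨τ x.1 * x.2, Subgroup.mul_mem _ (hτ x.1) (hCT x.2.2)⟩, ⟨(x.2 : G)⁻¹ * d x.1, Subgroup.mul_mem _ (Subgroup.inv_mem _ (hCZ x.2.2)) (hd x.1)⟩)
  have hΦ : Function.Bijective Φ := by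
    constructor
    · rintro ⟨t, z⟩ ⟨t', z'⟩ he
      have e1 : τ t * z = τ t' * z' := congrArg (fun a => ((a.1 : stabSub D c) : G)) he
      have e2 : (z : G)⁻¹ * d t = (z' : G)⁻¹ * d t' := congrArg (fun a => ((a.2 : cZ w) : G)) he
      have e3 : (t : G) = t' := by
        rw [hτd t, hτd t']
        calc τ t * d t = (τ t * z) * ((z : G)⁻¹ * d t) := by group
          _ = (τ t' * z') * ((z' : G)⁻¹ * d t') := by rw [e1, e2]
          _ = _ := by group
      have e4 : t = t' := Subtype.ext e3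
      subst e4
      have e5 : z = z' := Subtype.ext (mul_left_cancel e1)
      rw [e5]
    · rintro ⟨⟨a, ha⟩, ⟨b, hb'⟩⟩
      let t : X := ⟨a * b, hunder a ha b hb'⟩
      have e1 : τ t * d t = a * b := (hτd t).symm
      have hz : (τ t)⁻¹ * a ∈ Subgroup.centralizer (D : Set G) := by
        refine hinter _ (Subgroup.mul_mem _ (Subgroup.inv_mem _ (hτ t)) ha) ?_
        have e2 : (τ t)⁻¹ * a = d t * b⁻¹ := by
          calc (τ t)⁻¹ * a = (τ t)⁻¹ * (a * b) * b⁻¹ := by group
            _ = (τ t)⁻¹ * (τ t * d t) * b⁻¹ := by rw [e1]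
            _ = _ := by group
        rw [e2]
        exact Subgroup.mul_mem _ (hd t) (Subgroup.inv_mem _ hb')
      refine ⟨(t, ⟨_, hz⟩), ?_⟩
      apply Prod.ext
      · apply Subtype.ext
        change τ t * ((τ t)⁻¹ * a) = a
        group
      · apply Subtype.ext
        change ((τ t)⁻¹ * a)⁻¹ * d t = b
        calc ((τ t)⁻¹ * a)⁻¹ * d t = a⁻¹ * (τ t * d t) := by group
          _ = a⁻¹ * (a * b) := by rw [e1]
          _ = b := by group
  have hcard := Nat.card_congr (Equiv.ofBijective Φ hΦ)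
  rw [Nat.card_prod, Nat.card_prod] at hcard
  have h6 := Subgroup.index_mul_card ((Subgroup.centralizer (D : Set G)).subgroupOf (stabSub D c))
  rw [Nat.card_congr (Subgroup.subgroupOfEquivOfLe hCT).toEquiv] at h6
  rw [← Subgroup.relIndex] at h6
  have hX : nU p M c w (bb p M c w) = Nat.card X := by
    rw [nU, Nat.card_eq_fintype_card, Fintype.card_subtype]
  rw [hX]
  have hpos : 0 < Nat.card (Subgroup.centralizer (D : Set G)) := Nat.card_pos
  apply Nat.eq_of_mul_eq_mul_right hpos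
  rw [hcard, ← h6]
  ring

open Classical in
variable (c) in
/-- The size of the orbits. -/
theorem card_fiber (L : Gl p M B D c) (i : Orb D c) :
    (Finset.univ.filter fun γ : DSh D => orbOf γ = i).card =
      (Subgroup.centralizer (D : Set G)).relIndex (stabSub D c) := by
  have h2 := MulAction.index_stabilizer (G := stabSub D c) (x := rp i)
  rw [stabilizer_dsh L] at h2
  rw [Subgroup.relIndex, h2, ← Fintype.card_subtype, ← Nat.card_eq_fintype_card]
  refine Nat.card_congr (Equiv.subtypeEquivRight fun γ => ?_)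
  constructor
  · intro hγ
    subst hγ
    obtain ⟨t, ht⟩ := exists_smul_rp (c := c) γ
    exact ⟨t, ht⟩
  · rintro ⟨t, rfl⟩
    rw [orbOf_smul, orbOf_rp]

theorem sig_one (L : Gl p M B D c) (i : Orb D c) :
    sig i (1 : D) = ((Subgroup.centralizer (D : Set G)).relIndex (stabSub D c) : ℂ) := by
  classical
  rw [sig, ← card_fiber c L i, Finset.card_eq_sum_ones, Finset.sum_filter]
  push_cast
  refine Finset.sum_congr rfl fun γ _ => ?_
  simp

theorem sum_sig (L : Gl p M B D c) {w : D} (hw : w ≠ 1) : ∑ i : Orb D c, sig i w = -1 := by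
  classical
  have hD : ∀ u v : D, u * v = v * u := fun u v => Subtype.ext (L.hab _ u.2 _ v.2)
  have h1 := Cfsg.Agent.Lib.Glauberman.Act.sum_dual hD w
  rw [if_neg hw] at h1
  simp only [sig]
  rw [Finset.sum_comm]
  have h2 : ∀ γ : DSh D, (∑ i : Orb D c, if orbOf γ = i then ((γ.1 w : ℂˣ) : ℂ) else 0) = ((γ.1 w : ℂˣ) : ℂ) := by
    intro γ
    rw [Finset.sum_ite_eq]
    simp
  simp_rw [h2]
  rw [Fintype.sum_eq_add_sum_subtype_ne _ (1 : D →* ℂˣ)] at h1
  have h3 : ((((1 : D →* ℂˣ) w : ℂˣ)) : ℂ) = 1 := by simp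
  rw [h3] at h1
  linear_combination h1

/-- The expansion of an invariant combination on the nontrivial elements. -/
theorem sum_eq_sum_sig (L : Gl p M B D c) (m : (D →* ℂˣ) → ℤ) (hm : ∀ (t : stabSub D c) γ, m (Data.dA t γ) = m γ)
    {w : D} (hw : w ≠ 1) :
    ∑ γ : D →* ℂˣ, (m γ : ℂ) * ((γ w : ℂˣ) : ℂ) =
      ∑ i : Orb D c, (((m (rp i).1 : ℤ) - (m 1 : ℤ) : ℤ) : ℂ) * sig i w := by
  classical
  rw [Fintype.sum_eq_add_sum_subtype_ne _ (1 : D →* ℂˣ)]
  have h3 : ((((1 : D →* ℂˣ) w : ℂˣ)) : ℂ) = 1 := by simp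
  rw [h3, mul_one]
  have h1 : ∑ γ : DSh D, (m γ.1 : ℂ) * ((γ.1 w : ℂˣ) : ℂ) = ∑ i : Orb D c, (m (rp i).1 : ℂ) * sig i w := by
    simp only [sig, Finset.mul_sum]
    rw [Finset.sum_comm]
    refine Finset.sum_congr rfl fun γ _ => ?_
    have h2 : ∀ i : Orb D c, ((m (rp i).1 : ℂ) * if orbOf γ = i then ((γ.1 w : ℂˣ) : ℂ) else 0) =
        if orbOf γ = i then (m (rp (orbOf γ : Orb D c)).1 : ℂ) * ((γ.1 w : ℂˣ) : ℂ) else 0 := by
      intro i
      by_cases hi : orbOf γ = i
      · subst hi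
        simp
      · simp [hi]
    simp_rw [h2]
    rw [Finset.sum_ite_eq]
    simp only [Finset.mem_univ, if_true]
    rw [← inv_eq_rp (F := m) hm γ]
  have h4 := sum_sig L hw
  rw [h1]
  push_cast
  simp only [sub_mul, Finset.sum_sub_distrib]
  rw [← Finset.mul_sum, h4]
  ring

/-- **Orthogonality of the orbit sums.** -/
theorem sum_sig_mul_conj (L : Gl p M B D c) (i j : Orb D c) [Decidable (i = j)] :
    ∑ w : D, sig i w * conj (sig j w) =
      if i = j then (Nat.card D : ℂ) * ((Subgroup.centralizer (D : Set G)).relIndex (stabSub D c) : ℂ) else 0 := by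
  classical
  have h1 : ∀ w : D, sig i w * conj (sig j w) = ∑ γ : DSh D, ∑ γ' : DSh D,
      (if orbOf γ = i then (if orbOf γ' = j then ((γ.1 w : ℂˣ) : ℂ) * conj ((γ'.1 w : ℂˣ) : ℂ) else 0) else 0) := by
    intro w
    rw [sig, sig, map_sum, Finset.sum_mul_sum]
    refine Finset.sum_congr rfl fun γ _ => Finset.sum_congr rfl fun γ' _ => ?_
    by_cases h2 : orbOf γ = i <;> by_cases h3 : orbOf γ' = j <;> simp [h2, h3]
  simp_rw [h1]
  rw [Finset.sum_comm]
  have h2 : ∀ γ : DSh D, (∑ w : D, ∑ γ' : DSh D,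
      (if orbOf γ = i then (if orbOf γ' = j then ((γ.1 w : ℂˣ) : ℂ) * conj ((γ'.1 w : ℂˣ) : ℂ) else 0) else 0)) =
      if orbOf γ = i then (if orbOf γ = j then (Nat.card D : ℂ) else 0) else 0 := by
    intro γ
    rw [Finset.sum_comm]
    by_cases h3 : orbOf γ = i
    · simp only [if_pos h3]
      rw [Finset.sum_eq_single γ]
      · by_cases h4 : orbOf γ = j
        · simp only [if_pos h4]
          rw [sum_hom_mul_conj, if_pos rfl]
        · simp [h4]
      · intro γ' _ hne
        by_cases h4 : orbOf γ' = j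
        · simp only [if_pos h4]
          rw [sum_hom_mul_conj, if_neg (fun h => hne (Subtype.ext h.symm))]
        · simp [h4]
      · intro h
        exact absurd (Finset.mem_univ _) h
    · simp [h3]
  simp_rw [h2]
  by_cases hij : i = j
  · subst hij
    rw [if_pos rfl, ← card_fiber c L i, Finset.card_eq_sum_ones, Finset.sum_filter]
    push_cast
    rw [Finset.mul_sum]
    refine Finset.sum_congr rfl fun γ _ => ?_
    by_cases h3 : orbOf γ = i <;> simp [h3]
  · rw [if_neg hij]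
    refine Finset.sum_eq_zero fun γ _ => ?_
    by_cases h3 : orbOf γ = i
    · rw [if_pos h3, if_neg (fun h => hij (h3.symm.trans h))]
    · rw [if_neg h3]

open Classical in
/-- Orthogonality of the orbit sums on the nontrivial elements. -/
theorem sum_erase_sig_mul_conj (L : Gl p M B D c) (i j : Orb D c) [Decidable (i = j)] :
    ∑ w ∈ Finset.univ.erase (1 : D), sig i w * conj (sig j w) =
      (if i = j then (Nat.card D : ℂ) * ((Subgroup.centralizer (D : Set G)).relIndex (stabSub D c) : ℂ) else 0) -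
        ((Subgroup.centralizer (D : Set G)).relIndex (stabSub D c) : ℂ) ^ 2 := by
  classical
  have h1 := Finset.add_sum_erase Finset.univ (fun w : D => sig i w * conj (sig j w)) (Finset.mem_univ (1 : D))
  rw [sum_sig_mul_conj L i j, sig_one L, sig_one L, map_natCast] at h1
  rw [← h1]
  ring

/-- The combination of the dual attached to multiplicities. -/
noncomputable def kap (m : (D →* ℂˣ) → ℤ) (w : D) : ℂ := ∑ γ : D →* ℂˣ, (m γ : ℂ) * ((γ w : ℂˣ) : ℂ)

open Classical in
/-- **The row formula.** -/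
theorem row_formula (L : Gl p M B D c) (m : IrrCharacter G → (D →* ℂˣ) → ℤ) (Ξ : G → G → ℂ)
    (hsec : ∀ (χ : IrrCharacter G) w (hw : w ∈ D), w ≠ 1 → ∀ y ∈ cZ w, ¬ p ∣ orderOf y →
        Fs (χ : G → ℂ) w (bb p M c w) y = (∑ γ : D →* ℂˣ, (m χ γ : ℂ) * ((γ ⟨w, hw⟩ : ℂˣ) : ℂ)) * Ξ w y)
    (hnorm : ∀ w ∈ D, w ≠ 1 → (∑ y : G, if y ∈ cZ w ∧ ¬ p ∣ orderOf y then Ξ w y * conj (Ξ w y) else 0) =
        (Nat.card (cZ w) : ℂ) / Nat.card D)
    {χ ψ : IrrCharacter G} (hχ : χ ∈ B) (hψ : ψ ∈ B) :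
    classInner (χ : G → ℂ) (ψ : G → ℂ) = Pm p (χ : G → ℂ) (ψ : G → ℂ) +
      ((Nat.card D : ℂ) * ((Subgroup.centralizer (D : Set G)).relIndex (stabSub D c) : ℂ))⁻¹ *
        ∑ w ∈ Finset.univ.erase (1 : D), kap (m χ) w * conj (kap (m ψ) w) := by
  have hG : (Nat.card G : ℂ) ≠ 0 := by exact_mod_cast Nat.card_pos.ne'
  have h1 := classInner_eq_sum L.hM L.hmax hχ hψ
  rw [classInner, h1, ← mul_assoc, inv_mul_cancel₀ hG, one_mul,
    ← Finset.add_sum_erase Finset.univ _ (Finset.mem_univ (1 : D))]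
  have h2 := NN_one_div L.hM L.hmax hχ hψ
  refine congrArg₂ (· + ·) h2 ?_
  rw [Finset.mul_sum]
  refine Finset.sum_congr rfl fun w hw => ?_
  have hw1 : w ≠ 1 := Finset.ne_of_mem_erase hw
  have hw1' : (w : G) ≠ 1 := fun h => hw1 (Subtype.ext h)
  have hq : (Nat.card D : ℂ) ≠ 0 := by exact_mod_cast Nat.card_pos.ne'
  have he : ((Subgroup.centralizer (D : Set G)).relIndex (stabSub D c) : ℂ) ≠ 0 := by
    have : (Subgroup.centralizer (D : Set G)).relIndex (stabSub D c) ≠ 0 := by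
      rw [Subgroup.relIndex]
      exact Subgroup.index_ne_zero_of_finite
    exact_mod_cast this
  have hC : (Nat.card (cZ (w : G)) : ℂ) ≠ 0 := by exact_mod_cast Nat.card_pos.ne'
  rw [nU_bb L w.2 hw1']
  have h3 : NN p (χ : G → ℂ) (ψ : G → ℂ) (w : G) (bb p M c (w : G)) =
      kap (m χ) w * conj (kap (m ψ) w) * ((Nat.card (cZ (w : G)) : ℂ) / Nat.card D) := by
    rw [← hnorm _ w.2 hw1', NN, Finset.mul_sum]
    refine Finset.sum_congr rfl fun y _ => ?_
    by_cases hy : y ∈ cZ (w : G) ∧ ¬ p ∣ orderOf y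
    · rw [if_pos hy, if_pos hy, hsec χ _ w.2 hw1' y hy.1 hy.2, hsec ψ _ w.2 hw1' y hy.1 hy.2, map_mul, kap, kap]
      ring
    · rw [if_neg hy, if_neg hy, mul_zero]
  rw [h3]
  push_cast
  field_simp

open Classical in
/-- **The numerical structure of a block with a cyclic defect group**, on the orbits of the stabilizer. -/
theorem exists_numeric_orb (L : Gl p M B D c) :
    ∃ (n : IrrCharacter G → Orb D c → ℤ) (Ξ : G → G → ℂ),
      (Subgroup.centralizer (D : Set G)).relIndex (stabSub D c) * Fintype.card (Orb D c) = Nat.card D - 1 ∧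
      blockRank p B + Fintype.card (Orb D c) = Nat.card B ∧
      (∀ i j, ∑ χ : B, n χ i * n χ j =
        ((Subgroup.centralizer (D : Set G)).relIndex (stabSub D c) : ℤ) + if i = j then 1 else 0) ∧
      (∀ i y, ¬ p ∣ orderOf y → ∑ χ : B, (n χ i : ℂ) * ((χ : IrrCharacter G) : G → ℂ) y = 0) ∧
      (∀ (χ : IrrCharacter G) w (hw : w ∈ D), w ≠ 1 → ∀ y ∈ cZ w, ¬ p ∣ orderOf y →
        Fs (χ : G → ℂ) w (bb p M c w) y = (∑ i, (n χ i : ℂ) * sig i ⟨w, hw⟩) * Ξ w y) := by
  obtain ⟨m, Ξ, hsec, hnorm, hinv⟩ := exists_section_package L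
  set e : ℕ := (Subgroup.centralizer (D : Set G)).relIndex (stabSub D c) with he
  set q : ℕ := Nat.card D with hq
  have hq0 : (q : ℂ) ≠ 0 := by exact_mod_cast Nat.card_pos.ne'
  have he0' : e ≠ 0 := by
    rw [he, Subgroup.relIndex]
    exact Subgroup.index_ne_zero_of_finite
  have he0 : (e : ℂ) ≠ 0 := by exact_mod_cast he0'
  let n : IrrCharacter G → Orb D c → ℤ := fun χ i => m χ (rp i).1 - m χ 1
  have hcard : e * Fintype.card (Orb D c) = q - 1 := by
    rw [← Nat.card_eq_fintype_card]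
    exact relIndex_mul_card_dsh L
  have hcard2 : Nat.card (MulAction.orbitRel.Quotient (stabSub D c) (Sh D)) = Fintype.card (Orb D c) := by
    have h1 := relIndex_mul_card_sh L
    rw [← hcard] at h1
    exact Nat.eq_of_mul_eq_mul_left (Nat.pos_of_ne_zero he0') h1
  have hcount : blockRank p B + Fintype.card (Orb D c) ≤ Nat.card B := by
    rw [← hcard2]
    exact add_card_sh_le L
  have hq1 : 1 ≤ q := Nat.card_pos
  have hqt : (q : ℂ) = (e : ℂ) * (Fintype.card (Orb D c) : ℂ) + 1 := by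
    have : q = e * Fintype.card (Orb D c) + 1 := by omega
    exact_mod_cast this
  let s : IrrCharacter G → ℂ := fun χ => ∑ i, (n χ i : ℂ)
  let P : Matrix B B ℂ := fun χ ψ => Pm p ((χ : IrrCharacter G) : G → ℂ) ((ψ : IrrCharacter G) : G → ℂ)
  let A : Matrix B (Orb D c) ℂ := fun χ i => (n χ i : ℂ)
  let E : Matrix (Orb D c) B ℂ := fun i χ => (n χ i : ℂ) - (e : ℂ) / q * s χ
  -- the rank of `P`
  have hrank : P.rank ≤ blockRank p B := by
    let R : Matrix B G ℂ := Matrix.of fun χ y => pRegularPart p ((χ : IrrCharacter G) : G → ℂ) y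
    have h1 : P = R * (((Nat.card G : ℂ)⁻¹) • R.conjTranspose) := by
      ext χ ψ
      simp only [P, Pm, R, Matrix.mul_apply, Matrix.smul_apply, Matrix.conjTranspose_apply, smul_eq_mul, Matrix.of_apply]
      rw [Finset.mul_sum]
      refine Finset.sum_congr rfl fun y _ => ?_
      simp only [Cfsg.Agent.Lib.BlockH.Regular.pRegularPart_apply]
      by_cases hy : IsPRegular p y
      · have hy' : ¬ p ∣ orderOf y := hy
        rw [if_pos hy, if_pos hy, if_pos hy']
        simp only [Complex.star_def]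
        ring
      · have hy' : ¬ ¬ p ∣ orderOf y := hy
        rw [if_neg hy, if_neg hy, if_neg hy']
        simp
    rw [h1]
    refine le_trans (Matrix.rank_mul_le_left _ _) ?_
    rw [Matrix.rank_eq_finrank_span_row, blockRank]
    have h2 : Set.range R.row = (fun χ : IrrCharacter G => pRegularPart p (χ : G → ℂ)) '' B := by
      ext f
      constructor
      · rintro ⟨χ, rfl⟩
        exact ⟨χ, χ.2, rfl⟩
      · rintro ⟨χ, hχ, rfl⟩
        exact ⟨⟨χ, hχ⟩, rfl⟩
    rw [h2]
  -- the identity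
  have hid : P + A * E = 1 := by
    ext χ ψ
    have h1 := row_formula L m Ξ hsec hnorm χ.2 ψ.2
    rw [← he, ← hq] at h1
    have h2 : classInner ((χ : IrrCharacter G) : G → ℂ) ((ψ : IrrCharacter G) : G → ℂ) = (1 : Matrix B B ℂ) χ ψ := by
      rw [Matrix.one_apply]
      by_cases h : χ = ψ
      · subst h
        rw [if_pos rfl, classInner_self_of_isIrr (χ : IrrCharacter G).2]
      · rw [if_neg h]
        refine classInner_eq_zero_of_isIrr_of_ne (χ : IrrCharacter G).2 (ψ : IrrCharacter G).2 fun h3 => h ?_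
        exact Subtype.ext (Subtype.ext h3)
    rw [← h2, h1, Matrix.add_apply]
    congr 1
    rw [Matrix.mul_apply]
    have h3 : ∀ w ∈ Finset.univ.erase (1 : D), kap (m χ) w * conj (kap (m ψ) w) =
        ∑ i, ∑ j, (n χ i : ℂ) * (n ψ j : ℂ) * (sig i w * conj (sig j w)) := by
      intro w hw
      have hw1 : w ≠ 1 := Finset.ne_of_mem_erase hw
      rw [kap, kap, sum_eq_sum_sig L _ (hinv χ) hw1, sum_eq_sum_sig L _ (hinv ψ) hw1, map_sum, Finset.sum_mul_sum]
      refine Finset.sum_congr rfl fun i _ => Finset.sum_congr rfl fun j _ => ?_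
      rw [map_mul, map_intCast]
      ring
    rw [Finset.sum_congr rfl h3, Finset.sum_comm]
    have h4 : ∀ i : Orb D c, (∑ w ∈ Finset.univ.erase (1 : D), ∑ j, (n χ i : ℂ) * (n ψ j : ℂ) * (sig i w * conj (sig j w))) =
        (n χ i : ℂ) * ((n ψ i : ℂ) * ((q : ℂ) * e)) - (n χ i : ℂ) * s ψ * (e : ℂ) ^ 2 := by
      intro i
      rw [Finset.sum_comm]
      have h5 : ∀ j : Orb D c, (∑ w ∈ Finset.univ.erase (1 : D), (n χ i : ℂ) * (n ψ j : ℂ) * (sig i w * conj (sig j w))) =
          (n χ i : ℂ) * (n ψ j : ℂ) * ((if i = j then (q : ℂ) * e else 0) - (e : ℂ) ^ 2) := by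
        intro j
        rw [← Finset.mul_sum, sum_erase_sig_mul_conj L i j]
      simp_rw [h5, mul_sub, Finset.sum_sub_distrib]
      congr 1
      · rw [Finset.sum_eq_single i]
        · rw [if_pos rfl]
          ring
        · intro j _ hj
          rw [if_neg hj.symm, mul_zero]
        · intro h
          exact absurd (Finset.mem_univ _) h
      · simp only [s]
        rw [Finset.mul_sum, Finset.sum_mul]
    rw [Finset.sum_congr rfl fun i _ => h4 i, Finset.mul_sum]
    refine Finset.sum_congr rfl fun i _ => ?_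
    simp only [A, E]
    field_simp
  obtain ⟨hEA, hEP⟩ := la_core P A E (blockRank p B) hrank
    (by rw [Fintype.card_eq_nat_card (α := B)]; exact hcount) hid
  -- the scalar `1 - e t / q`
  have hscal : (1 : ℂ) - (e : ℂ) / q * (Fintype.card (Orb D c) : ℂ) = (q : ℂ)⁻¹ := by
    field_simp
    rw [hqt]
    ring
  -- the Gram matrix
  have hEA' : ∀ i j, (∑ χ : B, (n χ i : ℂ) * n χ j) - (e : ℂ) / q * (∑ χ : B, s χ * n χ j) =
      if i = j then 1 else 0 := by
    intro i j
    have h1 := congrFun (congrFun hEA i) j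
    rw [Matrix.mul_apply, Matrix.one_apply] at h1
    rw [← h1, Finset.mul_sum, ← Finset.sum_sub_distrib]
    refine Finset.sum_congr rfl fun χ _ => ?_
    simp only [E, A]
    ring
  have hbj : ∀ j, (∑ i : Orb D c, ∑ χ : B, (n χ i : ℂ) * n χ j) = ∑ χ : B, s χ * n χ j := by
    intro j
    rw [Finset.sum_comm]
    refine Finset.sum_congr rfl fun χ _ => ?_
    simp only [s]
    rw [Finset.sum_mul]
  have hb : ∀ j, (∑ χ : B, s χ * n χ j) = (q : ℂ) := by
    intro j
    have h1 : (∑ i : Orb D c, ((∑ χ : B, (n χ i : ℂ) * n χ j) - (e : ℂ) / q * (∑ χ : B, s χ * n χ j))) = 1 := by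
      simp_rw [hEA']
      rw [Finset.sum_ite_eq']
      simp
    rw [Finset.sum_sub_distrib, hbj, Finset.sum_const, Finset.card_univ, nsmul_eq_mul] at h1
    have h2 : (∑ χ : B, s χ * n χ j) * ((1 : ℂ) - (e : ℂ) / q * (Fintype.card (Orb D c) : ℂ)) = 1 := by
      linear_combination h1
    rw [hscal] at h2
    field_simp at h2
    exact h2
  have hgram : ∀ i j, ∑ χ : B, n χ i * n χ j = (e : ℤ) + if i = j then 1 else 0 := by
    intro i j
    have h1 := hEA' i j
    rw [hb j] at h1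
    have h2 : (((∑ χ : B, n χ i * n χ j : ℤ)) : ℂ) = (((e : ℤ) + if i = j then 1 else 0 : ℤ) : ℂ) := by
      push_cast
      have h3 : (e : ℂ) / q * q = e := by field_simp
      rw [h3] at h1
      rw [sub_eq_iff_eq_add] at h1
      rw [h1]
      split_ifs <;> ring
    exact_mod_cast h2
  -- the combinations vanish on the regular elements
  have hEP' : ∀ i ψ, (∑ χ : B, (n χ i : ℂ) * P χ ψ) - (e : ℂ) / q * (∑ χ : B, s χ * P χ ψ) = 0 := by
    intro i ψ
    have h1 := congrFun (congrFun hEP i) ψ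
    rw [Matrix.mul_apply] at h1
    rw [Matrix.zero_apply] at h1
    rw [← h1, Finset.mul_sum, ← Finset.sum_sub_distrib]
    refine Finset.sum_congr rfl fun χ _ => ?_
    simp only [E]
    ring
  have hd : ∀ ψ, (∑ χ : B, s χ * P χ ψ) = 0 := by
    intro ψ
    have h1 : (∑ i : Orb D c, ((∑ χ : B, (n χ i : ℂ) * P χ ψ) - (e : ℂ) / q * (∑ χ : B, s χ * P χ ψ))) = 0 := by
      simp_rw [hEP']
      simp
    have h3 : (∑ i : Orb D c, ∑ χ : B, (n χ i : ℂ) * P χ ψ) = ∑ χ : B, s χ * P χ ψ := by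
      rw [Finset.sum_comm]
      refine Finset.sum_congr rfl fun χ _ => ?_
      simp only [s]
      rw [Finset.sum_mul]
    rw [Finset.sum_sub_distrib, h3, Finset.sum_const, Finset.card_univ, nsmul_eq_mul] at h1
    have h2 : (∑ χ : B, s χ * P χ ψ) * ((1 : ℂ) - (e : ℂ) / q * (Fintype.card (Orb D c) : ℂ)) = 0 := by
      linear_combination h1
    rw [hscal] at h2
    rcases mul_eq_zero.mp h2 with h4 | h4
    · exact h4
    · exact absurd h4 (inv_ne_zero hq0)
  have hc : ∀ i ψ, (∑ χ : B, (n χ i : ℂ) * P χ ψ) = 0 := by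
    intro i ψ
    have h1 := hEP' i ψ
    rwa [hd ψ, mul_zero, sub_zero] at h1
  have hvan : ∀ i y, ¬ p ∣ orderOf y → ∑ χ : B, (n χ i : ℂ) * ((χ : IrrCharacter G) : G → ℂ) y = 0 := by
    intro i
    let f : G → ℂ := fun y => ∑ χ : B, (n χ i : ℂ) * ((χ : IrrCharacter G) : G → ℂ) y
    have h1 : ∑ y : G, (if ¬ p ∣ orderOf y then ((Complex.normSq (f y) : ℝ) : ℂ) else 0) = 0 := by
      have h2 : (∑ ψ : B, (n ψ i : ℂ) * ∑ χ : B, (n χ i : ℂ) * P χ ψ) = 0 := by
        simp_rw [hc]
        simp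
      have h3 : (∑ ψ : B, (n ψ i : ℂ) * ∑ χ : B, (n χ i : ℂ) * P χ ψ) =
          (Nat.card G : ℂ)⁻¹ * ∑ y : G, (if ¬ p ∣ orderOf y then ((Complex.normSq (f y) : ℝ) : ℂ) else 0) := by
        have h5 : ∀ y : G, (if ¬ p ∣ orderOf y then ((Complex.normSq (f y) : ℝ) : ℂ) else 0) =
            ∑ ψ : B, (n ψ i : ℂ) * ∑ χ : B, (n χ i : ℂ) *
              (if ¬ p ∣ orderOf y then ((χ : IrrCharacter G) : G → ℂ) y * conj (((ψ : IrrCharacter G) : G → ℂ) y) else 0) := by
          intro y
          by_cases hy : ¬ p ∣ orderOf y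
          · simp only [if_pos hy]
            rw [← Complex.mul_conj]
            have h6 : conj (f y) = ∑ ψ : B, (n ψ i : ℂ) * conj (((ψ : IrrCharacter G) : G → ℂ) y) := by
              simp only [f]
              rw [map_sum]
              refine Finset.sum_congr rfl fun ψ _ => ?_
              rw [map_mul, map_intCast]
            rw [h6]
            simp only [f]
            rw [Finset.sum_mul_sum, Finset.sum_comm]
            refine Finset.sum_congr rfl fun ψ _ => ?_
            rw [Finset.mul_sum]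
            refine Finset.sum_congr rfl fun χ _ => ?_
            ring
          · simp [if_neg hy]
        rw [Finset.sum_congr rfl fun y _ => h5 y, Finset.sum_comm, Finset.mul_sum]
        refine Finset.sum_congr rfl fun ψ _ => ?_
        rw [← Finset.mul_sum, mul_left_comm]
        congr 1
        rw [Finset.sum_comm, Finset.mul_sum]
        refine Finset.sum_congr rfl fun χ _ => ?_
        rw [← Finset.mul_sum, mul_left_comm]
        rfl
      rw [h3] at h2
      rcases mul_eq_zero.mp h2 with h4 | h4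
      · exact absurd h4 (inv_ne_zero (by exact_mod_cast Nat.card_pos.ne'))
      · exact h4
    intro y hy
    have h2 : ∑ y : G, (if ¬ p ∣ orderOf y then Complex.normSq (f y) else 0) = 0 := by
      have h3 : ((∑ y : G, (if ¬ p ∣ orderOf y then Complex.normSq (f y) else 0) : ℝ) : ℂ) = 0 := by
        rw [← h1]
        push_cast
        refine Finset.sum_congr rfl fun y _ => ?_
        split_ifs <;> simp
      exact_mod_cast h3
    have h3 := (Finset.sum_eq_zero_iff_of_nonneg (fun y _ => by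
      split_ifs
      · exact le_rfl
      · exact Complex.normSq_nonneg _)).mp h2 y (Finset.mem_univ y)
    rw [if_pos hy] at h3
    exact Complex.normSq_eq_zero.mp h3
  -- the sections
  have hs : ∀ (χ : IrrCharacter G) w (hw : w ∈ D), w ≠ 1 → ∀ y ∈ cZ w, ¬ p ∣ orderOf y →
      Fs (χ : G → ℂ) w (bb p M c w) y = (∑ i, (n χ i : ℂ) * sig i ⟨w, hw⟩) * Ξ w y := by
    intro χ w hw hw1 y hy hyr
    have hw1' : (⟨w, hw⟩ : D) ≠ 1 := fun h => hw1 (congrArg Subtype.val h)
    rw [hsec χ w hw hw1 y hy hyr, sum_eq_sum_sig L _ (hinv χ) hw1']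
  have hcount2 : Nat.card B ≤ blockRank p B + Fintype.card (Orb D c) := by
    rw [Nat.card_eq_fintype_card]
    exact la_card P A E _ hrank hid
  exact ⟨n, Ξ, hcard, le_antisymm hcount hcount2, fun i j => by convert hgram i j, hvan, hs⟩


end Cfsg.Agent.Lib.Dade.Fr
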