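import Mathlib
import Cfsg.Agent.Lib.Dade.Fr.Nm
import Cfsg.Agent.Lib.Dade.Fr.Cb
import Cfsg.Agent.Lib.Dade.Main

/-!
# Blocks with an abelian defect group and a free inertial quotient
-/

set_option linter.unusedSectionVars false
set_option linter.style.haveILetI false
set_option autoImplicit false

namespace Cfsg.Agent.Lib.Dade.Fr

open Cfsg MonoidAlgebra
open Cfsg.Agent.Lib.Blocks.Local Cfsg.Agent.Lib.Blocks.Central Cfsg.Agent.Lib.Blocks.Brauer
open Cfsg.Agent.Lib.BlockH.MaxPair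
open Cfsg.Agent.Lib.BP.Star1 Cfsg.Agent.Lib.BP.Star2 Cfsg.Agent.Lib.BP.Nil1
open Cfsg.Agent.Lib.BP.Cj Cfsg.Agent.Lib.BP.MIS Cfsg.Agent.Lib.BP.StarDefs
open Cfsg.Agent.Lib.Contrib.Section
open Cfsg.Agent.Lib.Char.Basic Cfsg.Agent.Lib.Char.Complete Cfsg.Agent.Lib.Char.Ortho Cfsg.Agent.Lib.Char.GenLattice
open Cfsg.Agent.Lib.Char.Degree
open Cfsg.Agent.Lib.Dade.Base Cfsg.Agent.Lib.Dade.Gen Cfsg.Agent.Lib.Dade.Num
open Cfsg.Agent.Lib.Dade.Loc Cfsg.Agent.Lib.Dade.Main

universe u

variable {G : Type u} [Group G] [Fintype G] {p : ℕ} {M : Ideal AlgInt} [Fact p.Prime]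

attribute [local instance] fK fIrr fBl fB fOrb

variable {B : Set (IrrCharacter G)} {D : Subgroup G} {c : Set (IrrCharacter (Subgroup.centralizer (D : Set G)))}

/-- **Blocks with an abelian defect group and a free inertial quotient.** -/
theorem free_main (hM : IsPModular p M) (hmax : IsMaximalBrauerPair p M B D c) (hD1 : D ≠ ⊥)
    (hab : ∀ x ∈ D, ∀ y ∈ D, x * y = y * x)
    (hfree : ∀ g ∈ stabSub D c, ∀ x ∈ D, x ≠ 1 → g * x * g⁻¹ = x → g ∈ Subgroup.centralizer (D : Set G))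
    {e : ℕ} (he : (Subgroup.centralizer (D : Set G)).relIndex (stabSub D c) = e) :
    Nat.card B ≤ e + (Nat.card D - 1) / e ∧ blockRank p B ≤ e ∧
      (Nat.card B = e + (Nat.card D - 1) / e ↔ blockRank p B = e) ∧
      (e ≤ 3 → Nat.card B = e + (Nat.card D - 1) / e ∧ blockRank p B = e) := by
  classical
  haveI := isPrime_of_pModular hM
  haveI := Cfsg.Agent.Lib.Char.Ortho.finite_irrCharacter (G := G)
  letI := Fintype.ofFinite (IrrCharacter G)
  have L : Gl p M B D c := ⟨hM, hmax, hD1, hab, hfree⟩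
  have hB : IsPBlock M B := hmax.1.2.1
  obtain ⟨n, Ξ, hcard, hcount, hgram, hreg, hsec⟩ := exists_numeric_orb L
  rw [he] at hcard hgram
  set m : ℕ := Fintype.card (Orb D c) with hmdef
  have hq : 1 < Nat.card D := (Subgroup.one_lt_card_iff_ne_bot D).mpr hD1
  have he0 : 0 < e := by
    rw [← he, Subgroup.relIndex]
    exact Nat.pos_of_ne_zero Subgroup.index_ne_zero_of_finite
  have hm : 0 < m := by
    apply Nat.pos_of_ne_zero
    intro h0
    rw [h0, mul_zero] at hcard
    omega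
  haveI : Nonempty (Orb D c) := Fintype.card_pos_iff.mp hm
  have hmdiv : (Nat.card D - 1) / e = m := by
    rw [← hcard]
    exact Nat.mul_div_cancel_left _ he0
  rw [hmdiv]
  have hl : 1 ≤ blockRank p B := Cfsg.Agent.Lib.BlockOne.Count.one_le_blockRank (isPBlock_nonempty hB)
  have hk : Nat.card B = Fintype.card B := Nat.card_eq_fintype_card
  have hreg1 : ¬ p ∣ orderOf (1 : G) := by
    rw [orderOf_one]
    exact fun h => (Fact.out : p.Prime).one_lt.ne' (Nat.dvd_one.mp h)
  have hdeg : ∀ i, ∑ χ : B, n χ i * ((charDegree ((χ : IrrCharacter G) : G → ℂ) : ℕ) : ℤ) = 0 := by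
    intro i
    have h1 := hreg i 1 hreg1
    have h2 : ∀ χ : B, (((χ : IrrCharacter G) : G → ℂ) 1) = ((charDegree ((χ : IrrCharacter G) : G → ℂ) : ℕ) : ℂ) :=
      fun χ => Cfsg.Agent.Lib.Blocks.Heights.irr_one_eq χ.1
    simp only [h2] at h1
    exact_mod_cast h1
  have hcov : ∀ χ : B, ∃ i, n χ i ≠ 0 := by
    by_contra hcon
    push Not at hcon
    obtain ⟨χ, hχ⟩ := hcon
    have hv := vanish_of_sec hM hmax (θ := ((χ : IrrCharacter G) : G → ℂ)) (fun a b => class_irr χ.1 _ _)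
      (fun r c' hr hc' hn y hy hyp => Fs_eq_zero_of_not_under hM hmax χ.2 hr hc' hn hy hyp)
      (fun w hw h1 y hy hyp => by
        rw [hsec χ.1 w hw h1 y hy hyp]
        simp [hχ])
    have hs := singleton_of_vanish hM hB χ.2 hv
    have hc1 : Nat.card B = 1 := by
      rw [hs]
      simp
    omega
  have hpos : ∀ χ : B, 0 < ((charDegree ((χ : IrrCharacter G) : G → ℂ) : ℕ) : ℤ) := fun χ => by
    exact_mod_cast charDegree_pos χ.1.2
  have hle := numeric_le (fun (χ : B) i => n χ i) e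
    (fun χ : B => ((charDegree ((χ : IrrCharacter G) : G → ℂ) : ℕ) : ℤ)) hpos hgram hdeg hcov
  rw [← hmdef, ← hk] at hle
  refine ⟨hle, by omega, by omega, fun he3 => ?_⟩
  have heq := numeric_eq (fun (χ : B) i => n χ i) e
    (fun χ : B => ((charDegree ((χ : IrrCharacter G) : G → ℂ) : ℕ) : ℤ)) hpos hgram hdeg hcov he3
    (by
      rw [← hmdef, ← hk]
      omega)
  rw [← hmdef, ← hk] at heq
  obtain ⟨a, ha⟩ := (hmax.1.1.1 : IsPGroup p D).exists_card_eq
  have hcyc : ∀ q : ℕ, q.Prime → Nat.card D = q → blockRank p B = e := by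
    intro q hq' h1
    haveI : Fact q.Prime := ⟨hq'⟩
    have hcy : IsCyclic D := isCyclic_of_prime_card h1
    exact (main_structure hM hmax hD1 hcy ha he).1
  rcases heq with h | ⟨h1, h2⟩ | ⟨h1, h2⟩ | ⟨h1, h2⟩
  · exact ⟨h, by omega⟩
  · have h3 : Nat.card D = 7 := by
      rw [h1, h2] at hcard
      omega
    have h4 := hcyc 7 (by norm_num) h3
    exact ⟨by omega, h4⟩
  · exfalso
    have h3 : Nat.card D = 10 := by
      rw [h1, h2] at hcard
      omega
    rw [ha] at h3
    have hp : p.Prime := Fact.out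
    have h5 : p = 2 := by
      have h6 : 2 ∣ p ^ a := by
        rw [h3]
        norm_num
      exact ((Nat.prime_dvd_prime_iff_eq (by norm_num) hp).mp (Nat.prime_two.dvd_of_dvd_pow h6)).symm
    have h7 : p = 5 := by
      have h6 : 5 ∣ p ^ a := by
        rw [h3]
        norm_num
      exact ((Nat.prime_dvd_prime_iff_eq (by norm_num) hp).mp ((by norm_num : Nat.Prime 5).dvd_of_dvd_pow h6)).symm
    omega
  · have h3 : Nat.card D = 13 := by
      rw [h1, h2] at hcard
      omega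
    have h4 := hcyc 13 (by norm_num) h3
    exact ⟨by omega, h4⟩

end Cfsg.Agent.Lib.Dade.Fr
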