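import Mathlib
import Cfsg.Agent.Lib.Dade.Fr.Fn

/-!
# Abelian `2`-groups with exactly three involutions
-/

set_option linter.unusedSectionVars false
set_option autoImplicit false

namespace Cfsg.Agent.Lib.Dade.Fr

/-- An automorphism of odd order of an abelian `2`-group which is trivial on the involutions is trivial. -/
theorem aut_trivial {D : Type*} [Group D] (hcomm : ∀ a b : D, a * b = b * a) (h2 : ∀ x : D, ∃ k : ℕ, x ^ 2 ^ k = 1)
    (σ : MulAut D) {n : ℕ} (hn : Odd n) (hσn : σ ^ n = 1) (hV : ∀ v : D, v ^ 2 = 1 → σ v = v) : σ = 1 := by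
  have key : ∀ (k : ℕ) (x : D), x ^ 2 ^ k = 1 → σ x = x := by
    intro k
    induction k with
    | zero =>
      intro x hx
      rw [pow_zero, pow_one] at hx
      rw [hx, map_one]
    | succ k ih =>
      intro x hx
      have h1 : σ (x ^ 2) = x ^ 2 := ih _ (by rw [← pow_mul, ← pow_succ']; exact hx)
      obtain ⟨y, hyd⟩ : ∃ y : D, y = σ x * x⁻¹ := ⟨_, rfl⟩
      have hcm : Commute (σ x) x⁻¹ := hcomm _ _
      have hy2 : y ^ 2 = 1 := by
        rw [hyd, hcm.mul_pow, ← map_pow, h1, inv_pow, mul_inv_cancel]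
      have hy : σ y = y := hV y hy2
      have hx' : σ x = y * x := by
        rw [hyd]
        group
      have hj : ∀ j : ℕ, (σ ^ j) x = y ^ j * x := by
        intro j
        induction j with
        | zero => simp
        | succ j ihj =>
          rw [pow_succ', MulAut.mul_apply, ihj, map_mul, map_pow, hy, hx', pow_succ, mul_assoc]
      have h3 := hj n
      rw [hσn] at h3
      obtain ⟨r, rfl⟩ := hn
      have h4 : y ^ (2 * r + 1) = y := by
        rw [pow_succ, pow_mul, hy2, one_pow, one_mul]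
      rw [h4] at h3
      have h5 : x = y * x := h3
      rw [hx', ← h5]
  refine MulEquiv.ext fun x => ?_
  obtain ⟨k, hk⟩ := h2 x
  exact key k x hk

/-- A permutation of three points with a fixed point has order at most two. -/
theorem perm_three {X : Type*} [Finite X] (h3 : Nat.card X = 3) (π : Equiv.Perm X) {a : X} (ha : π a = a) : π ^ 2 = 1 := by
  classical
  have f : X ≃ Fin 3 := Finite.equivFinOfCardEq h3
  have key : ∀ (ρ : Equiv.Perm (Fin 3)) (b : Fin 3), ρ b = b → ρ ^ 2 = 1 := by decide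
  have h1 := key (f.permCongr π) (f a) (by simp [Equiv.permCongr_apply, ha])
  have h2 : f.permCongr (π ^ 2) = 1 := by
    rw [← h1]
    ext x
    simp [Equiv.permCongr_apply, pow_two]
  apply (Equiv.permCongr f).injective
  rw [h2]
  ext x
  simp [Equiv.permCongr_apply]

/-- The involutions of a group. -/
abbrev Invol (D : Type*) [Group D] : Type _ := {x : D // x ≠ 1 ∧ x ^ 2 = 1}

/-- Automorphisms permute the involutions. -/
def invPerm (D : Type*) [Group D] : MulAut D →* Equiv.Perm (Invol D) :=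
  MonoidHom.mk' (fun σ =>
    { toFun := fun v => ⟨σ v.1, fun h => v.2.1 ((map_eq_one_iff σ σ.injective).mp h), by
        rw [← map_pow, v.2.2, map_one]⟩
      invFun := fun v => ⟨σ⁻¹ v.1, fun h => v.2.1 ((map_eq_one_iff σ⁻¹ (MulEquiv.injective _)).mp h), by
        rw [← map_pow, v.2.2, map_one]⟩
      left_inv := fun v => Subtype.ext (by simp)
      right_inv := fun v => Subtype.ext (by simp) })
    (fun σ τ => by
      ext v
      rfl)

@[simp] theorem coe_invPerm {D : Type*} [Group D] (σ : MulAut D) (v : Invol D) : ((invPerm D σ v : Invol D) : D) = σ v := rfl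

variable {G : Type*} [Group G] [Finite G] {D T : Subgroup G}

/-- **Three involutions.** -/
theorem three_invol (hab : ∀ x ∈ D, ∀ y ∈ D, x * y = y * x) (h2 : ∀ x : D, ∃ k : ℕ, x ^ 2 ^ k = 1)
    (hT : ∀ t ∈ T, t ∈ Subgroup.normalizer (D : Set G)) (hCT : Subgroup.centralizer (D : Set G) ≤ T)
    (hodd : ¬ 2 ∣ (Subgroup.centralizer (D : Set G)).relIndex T) (h3 : Nat.card (Invol D) = 3) :
    ((Subgroup.centralizer (D : Set G)).relIndex T = 1 ∨ (Subgroup.centralizer (D : Set G)).relIndex T = 3) ∧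
      ∀ g ∈ T, ∀ x ∈ D, x ≠ 1 → g * x * g⁻¹ = x → g ∈ Subgroup.centralizer (D : Set G) := by
  classical
  have hD : ∀ a b : D, a * b = b * a := fun a b => Subtype.ext (hab _ a.2 _ b.2)
  let act : T →* MulAut D := Cfsg.Agent.Lib.BlockH.Saturation.conjAct T D hT
  have hact : ∀ (t : T) (w : D), ((act t w : D) : G) = (t : G) * w * (t : G)⁻¹ := fun _ _ => rfl
  have hker : act.ker = (Subgroup.centralizer (D : Set G)).subgroupOf T := by
    ext t
    rw [MonoidHom.mem_ker, Subgroup.mem_subgroupOf, Subgroup.mem_centralizer_iff]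
    constructor
    · intro h w hw
      have h1 := hact t ⟨w, hw⟩
      rw [h] at h1
      have h4 : w = (t : G) * w * (t : G)⁻¹ := h1
      calc w * t = (t : G) * w * (t : G)⁻¹ * t := by rw [← h4]
        _ = t * w := by group
    · intro h
      refine MulEquiv.ext fun w => Subtype.ext ?_
      rw [hact]
      have h4 := h w w.2
      change _ = (w : G)
      rw [← h4]
      group
  have he : act.ker.index = (Subgroup.centralizer (D : Set G)).relIndex T := by
    rw [hker, Subgroup.relIndex]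
  set e := (Subgroup.centralizer (D : Set G)).relIndex T with hedef
  have hoddE : Odd e := by
    rw [← Nat.not_even_iff_odd, even_iff_two_dvd]
    exact hodd
  let φ : T →* Equiv.Perm (Invol D) := (invPerm D).comp act
  -- the kernel of the action on the involutions
  have hker2 : ∀ t : T, φ t = 1 → act t = 1 := by
    intro t ht
    have h5 : (act t) ^ e = 1 := by
      rw [← map_pow]
      have := Subgroup.pow_index_mem act.ker t
      rw [he] at this
      exact this
    refine aut_trivial hD h2 (act t) hoddE h5 fun v hv => ?_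
    by_cases hv1 : v = 1
    · rw [hv1, map_one]
    · have h6 := congrArg (fun π : Equiv.Perm (Invol D) => ((π ⟨v, hv1, hv⟩ : Invol D) : D)) ht
      exact h6
  have hker3 : φ.ker = act.ker := by
    ext t
    rw [MonoidHom.mem_ker, MonoidHom.mem_ker]
    constructor
    · exact hker2 t
    · intro h
      change invPerm D (act t) = 1
      rw [h, map_one]
  have hcard : Nat.card φ.range = e := by
    rw [← he, ← hker3]
    exact (Subgroup.index_ker φ).symm
  haveI : Finite (Invol D) := inferInstance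
  haveI := Fintype.ofFinite (Invol D)
  have hpow : ∀ t : T, (φ t) ^ e = 1 := by
    intro t
    have h5 := pow_card_eq_one' (x := (⟨φ t, t, rfl⟩ : φ.range))
    rw [hcard] at h5
    exact congrArg Subtype.val h5
  constructor
  · have h5 : e ∣ 6 := by
      have h6 := Subgroup.card_subgroup_dvd_card φ.range
      rw [hcard, Nat.card_eq_fintype_card (α := Equiv.Perm (Invol D)), Fintype.card_perm, ← Nat.card_eq_fintype_card, h3] at h6
      exact h6
    have h6 : e ≤ 6 := Nat.le_of_dvd (by norm_num) h5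
    obtain ⟨r, hr⟩ := hoddE
    interval_cases e <;> first | omega | simp_all
  · intro g hg x hx hx1 hgx
    obtain ⟨k, hk⟩ := h2 ⟨x, hx⟩
    have hk' : x ^ 2 ^ k = 1 := congrArg Subtype.val hk
    -- the involution in `⟨x⟩`
    have hex : ∃ j : ℕ, x ^ 2 ^ j = 1 := ⟨k, hk'⟩
    let j := Nat.find hex
    have hj : x ^ 2 ^ j = 1 := Nat.find_spec hex
    have hj0 : j ≠ 0 := by
      intro h0
      rw [h0, pow_zero, pow_one] at hj
      exact hx1 hj
    have hj1 : x ^ 2 ^ (j - 1) ≠ 1 := Nat.find_min hex (by omega)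
    have hv2 : (x ^ 2 ^ (j - 1)) ^ 2 = 1 := by
      rw [← pow_mul, ← pow_succ, Nat.sub_add_cancel (by omega)]
      exact hj
    have hvD : x ^ 2 ^ (j - 1) ∈ D := D.pow_mem hx _
    let v : Invol D := ⟨⟨x ^ 2 ^ (j - 1), hvD⟩, fun h => hj1 (congrArg Subtype.val h), Subtype.ext hv2⟩
    have hfix : φ ⟨g, hg⟩ v = v := by
      apply Subtype.ext
      apply Subtype.ext
      change g * x ^ 2 ^ (j - 1) * g⁻¹ = x ^ 2 ^ (j - 1)
      rw [← conj_pow, hgx]
    have h5 := perm_three h3 _ hfix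
    have h6 := hpow ⟨g, hg⟩
    obtain ⟨r, hr⟩ := hoddE
    rw [hr, pow_succ, pow_mul, h5, one_pow, one_mul] at h6
    have h7 := hker2 _ h6
    have h8 : (⟨g, hg⟩ : T) ∈ act.ker := h7
    rw [hker] at h8
    exact h8

/-- The elements killed by two. -/
theorem zmod_two_mul {m : ℕ} (hm : 1 ≤ m) (a : ZMod (2 ^ m)) (h : 2 * a = 0) :
    a = 0 ∨ a = ((2 ^ (m - 1) : ℕ) : ZMod (2 ^ m)) := by
  haveI : NeZero (2 ^ m) := ⟨by positivity⟩
  have h1 : a = ((a.val : ℕ) : ZMod (2 ^ m)) := (ZMod.natCast_zmod_val a).symm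
  have hlt : a.val < 2 ^ m := ZMod.val_lt a
  have h2 : ((2 * a.val : ℕ) : ZMod (2 ^ m)) = 0 := by
    push_cast
    rw [← h1]
    exact h
  have h3 : 2 ^ m ∣ 2 * a.val := (ZMod.natCast_eq_zero_iff _ _).mp h2
  have key : ∀ v : ℕ, v < 2 ^ m → 2 ^ m ∣ 2 * v → v = 0 ∨ v = 2 ^ (m - 1) := by
    intro v h4 h5
    have hm' : 2 ^ m = 2 * 2 ^ (m - 1) := by rw [← pow_succ', Nat.sub_add_cancel hm]
    rw [hm'] at h4 h5
    have h6 : 2 ^ (m - 1) ∣ v := Nat.dvd_of_mul_dvd_mul_left (by norm_num) h5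
    obtain ⟨t, rfl⟩ := h6
    have ht : t < 2 := by
      have h7 : 0 < 2 ^ (m - 1) := by positivity
      nlinarith
    interval_cases t
    · left
      simp
    · right
      simp
  rcases key _ hlt h3 with h4 | h4
  · left
    rw [h1, h4]
    simp
  · right
    rw [h1, h4]

theorem zmod_half_ne {m : ℕ} (hm : 1 ≤ m) : ((2 ^ (m - 1) : ℕ) : ZMod (2 ^ m)) ≠ 0 := by
  rw [Ne, ZMod.natCast_eq_zero_iff]
  intro h
  have h1 := Nat.le_of_dvd (by positivity) h
  have h2 : 2 ^ (m - 1) < 2 ^ m := Nat.pow_lt_pow_right (by norm_num) (by omega)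
  omega

theorem zmod_two_half {m : ℕ} (hm : 1 ≤ m) : 2 * ((2 ^ (m - 1) : ℕ) : ZMod (2 ^ m)) = 0 := by
  have h1 : ((2 * 2 ^ (m - 1) : ℕ) : ZMod (2 ^ m)) = 0 := by
    rw [ZMod.natCast_eq_zero_iff, ← pow_succ', Nat.sub_add_cancel hm]
  exact_mod_cast h1

/-- The number of involutions of a homocyclic `2`-group of rank two. -/
theorem card_invol_homo {m : ℕ} (hm : 1 ≤ m) :
    Nat.card (Invol (Multiplicative (ZMod (2 ^ m) × ZMod (2 ^ m)))) = 3 := by
  classical
  haveI : NeZero (2 ^ m) := ⟨by positivity⟩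
  set h : ZMod (2 ^ m) := ((2 ^ (m - 1) : ℕ) : ZMod (2 ^ m)) with hh
  have hne : h ≠ 0 := zmod_half_ne hm
  have h2 : 2 * h = 0 := zmod_two_half hm
  have hmem : ∀ x : Multiplicative (ZMod (2 ^ m) × ZMod (2 ^ m)),
      x ≠ 1 ∧ x ^ 2 = 1 ↔ x ∈ ({Multiplicative.ofAdd (0, h), Multiplicative.ofAdd (h, 0), Multiplicative.ofAdd (h, h)} :
        Finset (Multiplicative (ZMod (2 ^ m) × ZMod (2 ^ m)))) := by
    intro x
    obtain ⟨⟨a, b⟩, rfl⟩ := Multiplicative.ofAdd.surjective x
    have e1 : (Multiplicative.ofAdd (a, b)) ^ 2 = 1 ↔ 2 * a = 0 ∧ 2 * b = 0 := by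
      rw [← ofAdd_nsmul]
      change (2 • (a, b) : ZMod (2 ^ m) × ZMod (2 ^ m)) = 0 ↔ _
      simp [Prod.ext_iff]
    have e2 : (Multiplicative.ofAdd (a, b)) = 1 ↔ a = 0 ∧ b = 0 := by
      change (a, b) = (0 : ZMod (2 ^ m) × ZMod (2 ^ m)) ↔ _
      simp [Prod.ext_iff]
    simp only [Finset.mem_insert, Finset.mem_singleton, Multiplicative.ofAdd.injective.eq_iff, Prod.mk.injEq]
    rw [e1, Ne, e2]
    constructor
    · rintro ⟨h1, h3, h4⟩
      rcases zmod_two_mul hm a h3 with rfl | ha <;> rcases zmod_two_mul hm b h4 with rfl | hb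
      · exact absurd ⟨rfl, rfl⟩ h1
      · exact Or.inl ⟨rfl, hb⟩
      · exact Or.inr (Or.inl ⟨ha, rfl⟩)
      · exact Or.inr (Or.inr ⟨ha, hb⟩)
    · rintro (⟨rfl, rfl⟩ | ⟨rfl, rfl⟩ | ⟨rfl, rfl⟩)
      · exact ⟨fun h5 => hne h5.2, by simp, h2⟩
      · exact ⟨fun h5 => hne h5.1, h2, by simp⟩
      · exact ⟨fun h5 => hne h5.1, h2, h2⟩
  rw [Nat.subtype_card _ (fun x => (hmem x).symm)]
  rw [Finset.card_insert_of_notMem, Finset.card_insert_of_notMem, Finset.card_singleton]
  · simp only [Finset.mem_singleton, Multiplicative.ofAdd.injective.eq_iff, Prod.mk.injEq]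
    exact fun h5 => hne h5.2.symm
  · simp only [Finset.mem_insert, Finset.mem_singleton, Multiplicative.ofAdd.injective.eq_iff, Prod.mk.injEq]
    rintro (h5 | h5)
    · exact hne h5.2
    · exact hne h5.1.symm

theorem card_invol_congr {A A' : Type*} [Group A] [Group A'] (f : A ≃* A') : Nat.card (Invol A) = Nat.card (Invol A') :=
  Nat.card_congr (f.toEquiv.subtypeEquiv fun x => by
    have h1 : f x = 1 ↔ x = 1 := map_eq_one_iff f f.injective
    have h2 : f x ^ 2 = 1 ↔ x ^ 2 = 1 := by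
      rw [← map_pow]
      exact map_eq_one_iff f f.injective
    simp only [MulEquiv.toEquiv_eq_coe, EquivLike.coe_coe, Ne, h1, h2])

section Block

open Cfsg Cfsg.Agent.Lib.BlockH.MaxPair

universe u

variable {Γ : Type u} [Group Γ] [Finite Γ] {M : Ideal AlgInt}

/-- **The homocyclic case.** -/
theorem homocyclic_main (hM : IsPModular 2 M) {B : Set (IrrCharacter Γ)} (hB : IsPBlock M B) {D : Subgroup Γ}
    (hD : IsDefectGroup 2 M B D) {m : ℕ} (hm : 1 ≤ m) (f : D ≃* Multiplicative (ZMod (2 ^ m) × ZMod (2 ^ m))) :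
    (blockRank 2 B = 1 ∧ Nat.card B = 4 ^ m) ∨ (blockRank 2 B = 3 ∧ 3 * Nat.card B = 4 ^ m + 8) := by
  classical
  letI : Fintype Γ := Fintype.ofFinite Γ
  haveI : NeZero (2 ^ m) := ⟨by positivity⟩
  obtain ⟨c, hmax⟩ := Cfsg.Agent.Lib.BP.Nil4.exists_pair_of_defect hM hB hD
  have hcD : Nat.card D = 4 ^ m := by
    rw [Nat.card_congr f.toEquiv, Nat.card_congr Multiplicative.toAdd, Nat.card_prod, Nat.card_zmod, ← mul_pow]
    norm_num
  have h41 : 1 < 4 ^ m := Nat.one_lt_pow (by omega) (by norm_num)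
  have hD1 : D ≠ ⊥ := by
    rintro rfl
    rw [Subgroup.card_bot] at hcD
    omega
  have hab : ∀ x ∈ D, ∀ y ∈ D, x * y = y * x := by
    intro x hx y hy
    have h1 : f (⟨x, hx⟩ * ⟨y, hy⟩) = f (⟨y, hy⟩ * ⟨x, hx⟩) := by
      rw [map_mul, map_mul, mul_comm]
    exact congrArg Subtype.val (f.injective h1)
  have hodd := Cfsg.Agent.Lib.BlockH.CyclicDefect.not_dvd_relIndex_stab hM hmax hab
  have h2 : ∀ x : D, ∃ k : ℕ, x ^ 2 ^ k = 1 := hmax.1.1.1
  have hCT : Subgroup.centralizer (D : Set Γ) ≤ stabSub D c := fun u hu =>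
    ⟨Cfsg.Agent.Lib.BlockH.Sylow.centralizer_le_normalizer'' _ hu,
      Cfsg.Agent.Lib.BlockH.Defects.stabilizesBlock_of_mem _ _ hu⟩
  have h3 : Nat.card (Invol D) = 3 := by
    rw [card_invol_congr f, card_invol_homo hm]
  obtain ⟨he, hfree⟩ := three_invol (T := stabSub D c) hab h2 (fun t ht => ht.1) hCT hodd h3
  have hmain := free_main hM hmax hD1 hab hfree rfl
  rcases he with he | he
  · left
    rw [he] at hmain
    obtain ⟨-, -, -, h4⟩ := hmain
    obtain ⟨h5, h6⟩ := h4 (by norm_num)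
    refine ⟨h6, ?_⟩
    rw [h5, hcD]
    omega
  · right
    rw [he] at hmain
    obtain ⟨-, -, -, h4⟩ := hmain
    obtain ⟨h5, h6⟩ := h4 le_rfl
    refine ⟨h6, ?_⟩
    rw [h5, hcD]
    have h7 : 3 ∣ 4 ^ m - 1 := by
      have := Nat.sub_dvd_pow_sub_pow 4 1 m
      simpa using this
    obtain ⟨r, hr⟩ := h7
    rw [hr, Nat.mul_div_cancel_left _ (by norm_num)]
    omega

end Block

end Cfsg.Agent.Lib.Dade.Fr
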